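import Cfsg.Agent.H21.BRDefs
import Cfsg.Agent.H21.BRSplit
import Cfsg.Agent.H21.BRMDefs
import Cfsg.Agent.H4.IrrCount
import Cfsg.Agent.H81.Reg

/-!
BRM-SQ piece (helper21's Brauer–Reynolds master theorem team project, S0996 / S4700): the sum
of the squares of the degrees of the irreducible characters outside the principal block, in
type B with parameter `w`.
-/

set_option autoImplicit false

namespace Cfsg.Agent.H69.BR

open Cfsg Cfsg.Agent.H21.BR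

open scoped ComplexConjugate

theorem sum_out_sq_w_aux (e t w a b n S p q y : ℤ) (H1 : q = e * t) (H2 : q + 1 = p)
    (H3 : e - 1 = w * (a * t + 1)) (H4 : y + e = w * p) (H5 : 1 + a + b = e)
    (H6 : n + 1 = t * w)
    (HE : 1 + a * (1 + n * p) ^ 2 + b * q ^ 2 + t * y ^ 2 + S = p * q * y) :
    S = p ^ 2 * n := by
  have hp : p = e * t + 1 := by rw [← H2, H1]
  have hy : y = w * (e * t + 1) - e := by rw [← hp]; linarith
  have hb : b = e - 1 - a := by linarith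
  have hn : n = t * w - 1 := by linarith
  subst H1 hp hy hb hn
  linear_combination HE +
    (t * w - 2 * e * t + 2 * e * t ^ 2 * w - 2 * e ^ 2 * t ^ 2 + e ^ 2 * t ^ 3 * w) * H3

theorem sum_out_sq_w {G : Type*} [Group G] [Finite G] (p : ℕ) [Fact p.Prime] (hp2 : p ≠ 2)
    (P : Subgroup G) (e t w n : ℕ) (X Y : Finset (IrrCharacter G)) (δ : IrrCharacter G → ℤ)
    (ε : ℤ) (h : B0Data p P e X Y δ ε) (hB : TypeBw p e t w n X Y δ ε)
    (Z : Finset (IrrCharacter G)) (hZ : ∀ ψ, ψ ∈ Z ↔ ψ ∉ X ∧ ψ ∉ Y) :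
    ∑ ψ ∈ Z, charDegree (ψ : G → ℂ) ^ 2 = p ^ 2 * n := by
  classical
  have hp := (Fact.out : p.Prime)
  have he2 := hB.he2
  have ht1 := hB.ht1
  have hw1 := hB.hw1
  have het := hB.het
  have hp2' := hp.two_le
  have hle : e ≤ e * t := Nat.le_mul_of_pos_right e (by omega)
  have hsq := Cfsg.Agent.H4.sum_irr_sq (G := G)
  rw [sum_split h Z hZ (fun ψ : IrrCharacter G => (ψ : G → ℂ) 1 ^ 2)] at hsq
  have hdeg : ∀ ψ : IrrCharacter G, (ψ : G → ℂ) 1 = (charDegree (ψ : G → ℂ) : ℂ) :=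
    fun ψ => (Cfsg.Agent.H81.irr_charDegree ψ).1
  have h1 : ((one G : IrrCharacter G) : G → ℂ) 1 ^ 2 = 1 := by
    rw [Cfsg.Agent.H21.E2Block.triv_apply]
    norm_num
  have h2 : ∑ χ ∈ plusSet X δ, (χ : G → ℂ) 1 ^ 2 =
      ((plusSet X δ).card : ℂ) * ((1 + n * p : ℕ) : ℂ) ^ 2 := by
    rw [Finset.sum_congr rfl (fun χ hχ => by rw [hdeg χ, hB.deg_plus χ hχ]),
      Finset.sum_const, nsmul_eq_mul]
  have h3 : ∑ χ ∈ minusSet X δ, (χ : G → ℂ) 1 ^ 2 =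
      ((minusSet X δ).card : ℂ) * ((p - 1 : ℕ) : ℂ) ^ 2 := by
    rw [Finset.sum_congr rfl (fun χ hχ => by rw [hdeg χ, hB.deg_minus χ hχ]),
      Finset.sum_const, nsmul_eq_mul]
  have h4 : ∑ θ ∈ Y, (θ : G → ℂ) 1 ^ 2 = (Y.card : ℂ) * ((w * p - e : ℕ) : ℂ) ^ 2 := by
    rw [Finset.sum_congr rfl (fun χ hχ => by rw [hdeg χ, hB.deg_Y χ hχ]),
      Finset.sum_const, nsmul_eq_mul]
  have h5 : ∑ ψ ∈ Z, (ψ : G → ℂ) 1 ^ 2 =
      ((∑ ψ ∈ Z, charDegree (ψ : G → ℂ) ^ 2 : ℕ) : ℂ) := by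
    rw [Finset.sum_congr rfl (fun χ _ => by rw [hdeg χ])]
    push_cast
    rfl
  rw [h1, h2, h3, h4, h5, hB.card_G] at hsq
  have hnat : 1 + (plusSet X δ).card * (1 + n * p) ^ 2 + (minusSet X δ).card * (p - 1) ^ 2 +
      Y.card * (w * p - e) ^ 2 + ∑ ψ ∈ Z, charDegree (ψ : G → ℂ) ^ 2 =
      p * (p - 1) * (w * p - e) := by
    exact_mod_cast hsq
  have hcardX := card_X_split h
  have hplus := hB.card_plus
  have hn := hB.hn
  have hY : Y.card = t := card_Y h t hB.het (by omega)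
  rw [hY] at hnat
  obtain ⟨q, hq⟩ : ∃ q, p - 1 = q := ⟨_, rfl⟩
  obtain ⟨y, hy⟩ : ∃ y, w * p - e = y := ⟨_, rfl⟩
  obtain ⟨e', he'⟩ : ∃ e', e - 1 = e' := ⟨_, rfl⟩
  rw [hq, hy] at hnat
  rw [he'] at hplus
  have hwp : p ≤ w * p := Nat.le_mul_of_pos_left p hw1
  have H1 : q = e * t := by omega
  have H2 : q + 1 = p := by omega
  have H4 : y + e = w * p := by omega
  have H3 : (e : ℤ) - 1 = (w : ℤ) * (((plusSet X δ).card : ℤ) * (t : ℤ) + 1) := by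
    have h6 : e = e' + 1 := by omega
    rw [h6]
    push_cast
    have h7 : ((w * ((plusSet X δ).card * t + 1) : ℕ) : ℤ) = (e' : ℤ) := by exact_mod_cast hplus
    push_cast at h7
    linarith
  have key := sum_out_sq_w_aux (e : ℤ) (t : ℤ) (w : ℤ) ((plusSet X δ).card : ℤ)
    ((minusSet X δ).card : ℤ) (n : ℤ)
    ((∑ ψ ∈ Z, charDegree (ψ : G → ℂ) ^ 2 : ℕ) : ℤ) (p : ℤ) (q : ℤ) (y : ℤ)
    (by exact_mod_cast H1) (by exact_mod_cast H2) H3
    (by exact_mod_cast H4) (by exact_mod_cast hcardX) (by exact_mod_cast hn)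
    (by exact_mod_cast hnat)
  exact_mod_cast key

example {G : Type*} [Group G] [Finite G] (p : ℕ) [Fact p.Prime] (hp2 : p ≠ 2)
    (P : Subgroup G) (e t w n : ℕ) (X Y : Finset (IrrCharacter G)) (δ : IrrCharacter G → ℤ)
    (ε : ℤ) (h : B0Data p P e X Y δ ε) (hB : TypeBw p e t w n X Y δ ε)
    (Z : Finset (IrrCharacter G)) (hZ : ∀ ψ, ψ ∈ Z ↔ ψ ∉ X ∧ ψ ∉ Y) :
    ∑ ψ ∈ Z, charDegree (ψ : G → ℂ) ^ 2 = p ^ 2 * n :=
  sum_out_sq_w p hp2 P e t w n X Y δ ε h hB Z hZ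

end Cfsg.Agent.H69.BR
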