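import Mathlib
import Cfsg.Agent.H45.S8Defs0
/-!
Team project S2361 (helper69): every solvable subgroup of the small Ree group `²G₂(q)`,
`q = 3^(2m+1) ≥ 27`, normalises a Sylow 2-subgroup, a Sylow 3-subgroup, or a cyclic subgroup of
order `(q-1)/2`, `(q+1)/4`, `q - r + 1` or `q + r + 1` (`r = 3^(m+1)`).

This file: exact statements (as `Prop`-valued definitions) of the abstract pieces
(Mathlib + the numbers `qq`, `rr`, `GG` of `H45.S8Defs0`).
-/
set_option autoImplicit false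

namespace Cfsg.Agent.H69.RS

open Cfsg.Agent.H45.S8

universe u v

/-- (SOLV) a non-trivial solvable subgroup `S` normalises a non-trivial `p`-subgroup of `S` for an
odd prime `p`, or a non-trivial 2-subgroup `E ≤ S` with `C_S(E) ≤ E`. -/
def StSolv : Prop :=
  ∀ (G : Type u) [Group G] [Finite G] (S : Subgroup G), Group.IsSolvable ↥S → S ≠ ⊥ →
    (∃ p : ℕ, p.Prime ∧ p ≠ 2 ∧ ∃ N : Subgroup G, N ≤ S ∧ S ≤ Subgroup.normalizer (N : Set G) ∧
      N ≠ ⊥ ∧ IsPGroup p ↥N) ∨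
    (∃ E : Subgroup G, E ≤ S ∧ S ≤ Subgroup.normalizer (E : Set G) ∧ E ≠ ⊥ ∧ IsPGroup 2 ↥E ∧
      S ⊓ Subgroup.centralizer (E : Set G) ≤ E)

/-- (TORUS) a cyclic Hall subgroup `A` with `N(A₀) = N(A)` for `1 ≠ A₀ ≤ A`: the normaliser of a
non-trivial `p`-subgroup (`p ∣ |A|`) is the normaliser of a conjugate of `A`. -/
def StTorus : Prop :=
  ∀ (G : Type u) [Group G] [Finite G] (A : Subgroup G), IsCyclic ↥A →
    (Nat.card ↥A).Coprime (Nat.card G / Nat.card ↥A) →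
    (∀ A₀ : Subgroup G, A₀ ≤ A → A₀ ≠ ⊥ →
      Subgroup.normalizer (A₀ : Set G) = Subgroup.normalizer (A : Set G)) →
    ∀ p : ℕ, p.Prime → p ∣ Nat.card ↥A → ∀ N : Subgroup G, IsPGroup p ↥N → N ≠ ⊥ →
      ∃ A' : Subgroup G, IsCyclic ↥A' ∧ Nat.card ↥A' = Nat.card ↥A ∧
        Subgroup.normalizer (N : Set G) = Subgroup.normalizer (A' : Set G)

/-- (ARITH) a prime `p > 3` dividing `|²G₂(q)|` divides one of the four torus orders. -/
def StArith : Prop :=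
  ∀ m p : ℕ, p.Prime → 3 < p → p ∣ GG m →
    p ∣ (qq m - 1) / 2 ∨ p ∣ (qq m + 1) / 4 ∨ p ∣ qq m - rr m + 1 ∨ p ∣ qq m + rr m + 1

/-- (THREEFIX) the normaliser of a non-trivial 3-subgroup fixes a point. -/
def StThreeFix : Prop :=
  ∀ (G : Type u) [Group G] [Finite G] (Ω : Type v) [Finite Ω] [MulAction G Ω] (m : ℕ),
    Nat.card Ω = qq m ^ 3 + 1 →
    (∀ (g : G) (x y z : Ω), x ≠ y → x ≠ z → y ≠ z → g • x = x → g • y = y → g • z = z →
      g * g = 1) →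
    ∀ N : Subgroup G, IsPGroup 3 ↥N → N ≠ ⊥ →
      ∃ x : Ω, Subgroup.normalizer (N : Set G) ≤ MulAction.stabilizer G x

/-- (FOUR) the centraliser of a subgroup of order 4 has order prime to 3. -/
def StFour : Prop :=
  ∀ (G : Type u) [Group G] [Finite G] (Ω : Type v) [Finite Ω] [MulAction G Ω]
    [MulAction.IsPretransitive G Ω] (m : ℕ),
    Nat.card G = GG m → Nat.card Ω = qq m ^ 3 + 1 →
    (∀ (g : G) (x y z : Ω), x ≠ y → x ≠ z → y ≠ z → g • x = x → g • y = y → g • z = z →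
      g * g = 1) →
    ∀ E : Subgroup G, Nat.card ↥E = 4 →
      ¬ 3 ∣ Nat.card ↥(Subgroup.centralizer (E : Set G))

/-- (A4) `E ⊴ S`, `|E| = 4`, `|S| = 12`, `3 ∤ |C_G(E)|`, Sylow 2-subgroups of `G` commutative:
`S` normalises a Sylow 2-subgroup of `G`. -/
def StA4 : Prop :=
  ∀ (G : Type u) [Group G] [Finite G],
    (∀ P : Sylow 2 G, ∀ x ∈ P, ∀ y ∈ P, x * y = y * x) →
    ∀ E S : Subgroup G, E ≤ S → S ≤ Subgroup.normalizer (E : Set G) → Nat.card ↥E = 4 →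
      Nat.card ↥S = 12 → ¬ 3 ∣ Nat.card ↥(Subgroup.centralizer (E : Set G)) →
      ∃ P : Sylow 2 G, S ≤ Subgroup.normalizer ((P : Subgroup G) : Set G)

/-- (IDXDVD) `E ⊴ S` commutative with `C_S(E) ≤ E`: `|S|` divides `|E| · (|E| - 1)!`
(`S / E` acts faithfully on the non-identity elements of `E`). -/
def StIdxDvd : Prop :=
  ∀ (G : Type u) [Group G] [Finite G] (E S : Subgroup G), E ≤ S →
    S ≤ Subgroup.normalizer (E : Set G) → (∀ x ∈ E, ∀ y ∈ E, x * y = y * x) →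
    S ⊓ Subgroup.centralizer (E : Set G) ≤ E →
    Nat.card ↥S ∣ Nat.card ↥E * (Nat.card ↥E - 1).factorial

/-- (IDXODD) Sylow 2-subgroups of `G` commutative, `E ⊴ S` a 2-group with `C_S(E) ≤ E`:
`|S : E|` is odd (`E` is a Sylow 2-subgroup of `S`). -/
def StIdxOdd : Prop :=
  ∀ (G : Type u) [Group G] [Finite G],
    (∀ P : Sylow 2 G, ∀ x ∈ P, ∀ y ∈ P, x * y = y * x) →
    ∀ E S : Subgroup G, E ≤ S → S ≤ Subgroup.normalizer (E : Set G) → IsPGroup 2 ↥E →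
      S ⊓ Subgroup.centralizer (E : Set G) ≤ E →
      ¬ 2 ∣ Nat.card ↥S / Nat.card ↥E

/-- (TWO) the 2-case: Sylow 2-subgroups of `G` commutative of order 8; `E ⊴ S` a non-trivial
2-group with `C_S(E) ≤ E`; the `A₄`-case settled: `S` normalises a Sylow 2-subgroup of `G`. -/
def StTwo : Prop :=
  ∀ (G : Type u) [Group G] [Finite G],
    (∀ P : Sylow 2 G, Nat.card ↥(P : Subgroup G) = 8) →
    (∀ P : Sylow 2 G, ∀ x ∈ P, ∀ y ∈ P, x * y = y * x) →
    (∀ E S : Subgroup G, E ≤ S → S ≤ Subgroup.normalizer (E : Set G) → Nat.card ↥E = 4 →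
      Nat.card ↥S = 12 → ∃ P : Sylow 2 G, S ≤ Subgroup.normalizer ((P : Subgroup G) : Set G)) →
    ∀ E S : Subgroup G, E ≤ S → S ≤ Subgroup.normalizer (E : Set G) → E ≠ ⊥ → IsPGroup 2 ↥E →
      S ⊓ Subgroup.centralizer (E : Set G) ≤ E →
      ∃ P : Sylow 2 G, S ≤ Subgroup.normalizer ((P : Subgroup G) : Set G)

end Cfsg.Agent.H69.RS
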