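import Cfsg.Agent.H45.S8Defs1
import Cfsg.Agent.H69.RSDefs
/-!
Team project S2361 (helper69): exact statement of the piece about the small Ree group itself
(on top of helper22's Ree library and `H45.S8Defs1`: `Om K e = ²G₂ / B¹`).
-/
set_option autoImplicit false
set_option synthInstance.maxHeartbeats 400000
open Cfsg Cfsg.Lie

namespace Cfsg.Agent.H69.RS

open Cfsg.Agent.H22 Cfsg.Agent.H22.GEx Cfsg.Agent.H22.Ree Cfsg.Agent.H45.S8

/-- (BOREL) every point stabiliser of `Ω = ²G₂ / B¹` normalises a Sylow 3-subgroup -/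
def StBorel (K : Type*) [Field K] (e : ℕ) : Prop :=
  ∀ x : Om K e, ∃ P : Sylow 3 ↥(twistedG2 K e),
    MulAction.stabilizer ↥(twistedG2 K e) x ≤
      Subgroup.normalizer ((P : Subgroup ↥(twistedG2 K e)) : Set ↥(twistedG2 K e))

end Cfsg.Agent.H69.RS
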