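import Cfsg.Agent.H69.Flavell

/-!
# Iterated commutators with an automorphism generate (helper69)

If `[G, α] = G` then for every `k` the elements `[g, α, …, α]` (`k` entries `α`) generate `G`.
Proof via Flavell's generation theorem in the semidirect product `G ⋊ ⟨α⟩`.
-/

set_option autoImplicit false
open Pointwise

namespace Cfsg.Agent.H69

open Cfsg.Agent.H12

universe u

variable {G : Type u} [Group G]

/-- `thet α c = c * (α c)⁻¹`, the commutator `[c, α]`. -/
def thet (α : MulAut G) (c : G) : G := c * (α c)⁻¹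

theorem thet_comm {α β : MulAut G} (h : β * α = α * β) (c : G) :
    β (thet α c) = thet α (β c) := by
  have h1 : β (α c) = α (β c) := by
    have := congrArg (fun f : MulAut G => f c) h
    simpa using this
  unfold thet
  rw [map_mul, map_inv, h1]

theorem thet_iter_comm {α β : MulAut G} (h : β * α = α * β) (k : ℕ) (c : G) :
    β ((thet α)^[k] c) = (thet α)^[k] (β c) := by
  induction k with
  | zero => rfl
  | succ k ih =>
    rw [Function.iterate_succ_apply', Function.iterate_succ_apply', thet_comm h, ih]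

theorem commute_of_mem_zpowers {α z : MulAut G} (hz : z ∈ Subgroup.zpowers α) :
    z * α = α * z := by
  obtain ⟨i, rfl⟩ := Subgroup.mem_zpowers_iff.mp hz
  exact ((Commute.refl α).zpow_left i).eq

theorem map_mem_closure_of_forall {S : Set G} (β : MulAut G) (h : ∀ s ∈ S, β s ∈ S) {x : G}
    (hx : x ∈ Subgroup.closure S) : β x ∈ Subgroup.closure S := by
  have h1 : (Subgroup.closure S).map β.toMonoidHom ≤ Subgroup.closure S := by
    rw [MonoidHom.map_closure]
    apply Subgroup.closure_mono
    rintro _ ⟨s, hs, rfl⟩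
    exact h s hs
  exact h1 ⟨x, hx, rfl⟩

/-! ### restriction of an automorphism to a stable subgroup -/

/-- Restriction of an automorphism to a subgroup stable under it and its inverse. -/
def restrictAut (α : MulAut G) (H : Subgroup G) (h1 : ∀ x ∈ H, α x ∈ H)
    (h2 : ∀ x ∈ H, α⁻¹ x ∈ H) : MulAut H where
  toFun x := ⟨α x, h1 x x.2⟩
  invFun x := ⟨α⁻¹ x, h2 x x.2⟩
  left_inv x := Subtype.ext (MulAut.inv_apply_self _ α x)
  right_inv x := Subtype.ext (MulAut.apply_inv_self _ α x)
  map_mul' x y := Subtype.ext (map_mul α (x : G) (y : G))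

theorem thet_restrictAut (α : MulAut G) (H : Subgroup G) (h1 : ∀ x ∈ H, α x ∈ H)
    (h2 : ∀ x ∈ H, α⁻¹ x ∈ H) (x : H) :
    ((thet (restrictAut α H h1 h2) x : H) : G) = thet α (x : G) := rfl

theorem thet_restrictAut_iter (α : MulAut G) (H : Subgroup G) (h1 : ∀ x ∈ H, α x ∈ H)
    (h2 : ∀ x ∈ H, α⁻¹ x ∈ H) (k : ℕ) (x : H) :
    (((thet (restrictAut α H h1 h2))^[k] x : H) : G) = (thet α)^[k] (x : G) := by
  induction k with
  | zero => rfl
  | succ k ih =>
    rw [Function.iterate_succ_apply', Function.iterate_succ_apply', thet_restrictAut, ih]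

/-! ### the semidirect product `G ⋊ ⟨α⟩` -/

/-- The element `α` of the semidirect product `G ⋊ ⟨α⟩`. -/
def aElt (α : MulAut G) : G ⋊[(Subgroup.zpowers α).subtype] (Subgroup.zpowers α) :=
  SemidirectProduct.inr ⟨α, Subgroup.mem_zpowers α⟩

theorem inr_mem_zpowers_aElt (α : MulAut G) (z : Subgroup.zpowers α) :
    (SemidirectProduct.inr z : G ⋊[(Subgroup.zpowers α).subtype] (Subgroup.zpowers α)) ∈
      Subgroup.zpowers (aElt α) := by
  obtain ⟨i, hi⟩ := Subgroup.mem_zpowers_iff.mp z.2
  refine Subgroup.mem_zpowers_iff.mpr ⟨i, ?_⟩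
  unfold aElt
  rw [← map_zpow]
  congr 1
  exact Subtype.ext (by simp [hi])

theorem zpowers_aElt_le_range (α : MulAut G) :
    Subgroup.zpowers (aElt α) ≤
      (SemidirectProduct.inr :
        Subgroup.zpowers α →* G ⋊[(Subgroup.zpowers α).subtype] (Subgroup.zpowers α)).range := by
  rw [Subgroup.zpowers_le]
  exact ⟨_, rfl⟩

theorem inl_thet (α : MulAut G) (c : G) :
    (SemidirectProduct.inl (thet α c) :
        G ⋊[(Subgroup.zpowers α).subtype] (Subgroup.zpowers α)) * aElt α =
      SemidirectProduct.inl c * aElt α * (SemidirectProduct.inl c)⁻¹ := by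
  have h1 : (SemidirectProduct.inl (α c) :
      G ⋊[(Subgroup.zpowers α).subtype] (Subgroup.zpowers α)) =
      aElt α * SemidirectProduct.inl c * (aElt α)⁻¹ := by
    have := SemidirectProduct.inl_aut (φ := (Subgroup.zpowers α).subtype)
      ⟨α, Subgroup.mem_zpowers α⟩ c
    rw [map_inv] at this
    exact this
  unfold thet
  rw [map_mul, map_inv, h1]
  group

/-- The subgroup of `G ⋊ ⟨α⟩` of the elements whose left component lies in a stable
subgroup. -/
def liftSub (α : MulAut G) (X : Subgroup G)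
    (hX : ∀ z ∈ Subgroup.zpowers α, ∀ x ∈ X, z x ∈ X) :
    Subgroup (G ⋊[(Subgroup.zpowers α).subtype] (Subgroup.zpowers α)) where
  carrier := {γ | γ.left ∈ X}
  mul_mem' := by
    intro a b ha hb
    show (a * b).left ∈ X
    rw [SemidirectProduct.mul_left]
    exact X.mul_mem ha (hX _ a.right.2 _ hb)
  one_mem' := X.one_mem
  inv_mem' := by
    intro a ha
    show (a⁻¹).left ∈ X
    rw [SemidirectProduct.inv_left]
    exact hX _ (a.right⁻¹).2 _ (X.inv_mem ha)

theorem mem_liftSub (α : MulAut G) (X : Subgroup G)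
    (hX : ∀ z ∈ Subgroup.zpowers α, ∀ x ∈ X, z x ∈ X)
    (γ : G ⋊[(Subgroup.zpowers α).subtype] (Subgroup.zpowers α)) :
    γ ∈ liftSub α X hX ↔ γ.left ∈ X := Iff.rfl

theorem aElt_mem_liftSub (α : MulAut G) (X : Subgroup G)
    (hX : ∀ z ∈ Subgroup.zpowers α, ∀ x ∈ X, z x ∈ X) : aElt α ∈ liftSub α X hX :=
  X.one_mem

theorem liftSub_eq_top (α : MulAut G) (X : Subgroup G)
    (hX : ∀ z ∈ Subgroup.zpowers α, ∀ x ∈ X, z x ∈ X) (h : liftSub α X hX = ⊤) : X = ⊤ := by
  rw [eq_top_iff]
  intro g _
  have h1 : (SemidirectProduct.inl g :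
      G ⋊[(Subgroup.zpowers α).subtype] (Subgroup.zpowers α)) ∈ liftSub α X hX :=
    h ▸ Subgroup.mem_top _
  exact h1

theorem normalClosure_zpowers_aElt (α : MulAut G)
    (hG : Subgroup.closure (Set.range (thet α)) = ⊤) :
    Subgroup.normalClosure ((Subgroup.zpowers (aElt α) : Subgroup _) :
      Set (G ⋊[(Subgroup.zpowers α).subtype] (Subgroup.zpowers α))) = ⊤ := by
  rw [eq_top_iff]
  have ha : aElt α ∈ Subgroup.normalClosure ((Subgroup.zpowers (aElt α) : Subgroup _) :
      Set (G ⋊[(Subgroup.zpowers α).subtype] (Subgroup.zpowers α))) :=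
    Subgroup.subset_normalClosure (Subgroup.mem_zpowers _)
  have hinl : ∀ g : G, (SemidirectProduct.inl g :
      G ⋊[(Subgroup.zpowers α).subtype] (Subgroup.zpowers α)) ∈
      Subgroup.normalClosure ((Subgroup.zpowers (aElt α) : Subgroup _) :
        Set (G ⋊[(Subgroup.zpowers α).subtype] (Subgroup.zpowers α))) := by
    have h1 : Subgroup.closure (Set.range (thet α)) ≤
        (Subgroup.normalClosure ((Subgroup.zpowers (aElt α) : Subgroup _) :
          Set (G ⋊[(Subgroup.zpowers α).subtype] (Subgroup.zpowers α)))).comap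
          SemidirectProduct.inl := by
      rw [Subgroup.closure_le]
      rintro _ ⟨c, rfl⟩
      show SemidirectProduct.inl (thet α c) ∈ Subgroup.normalClosure _
      have h2 : (SemidirectProduct.inl (thet α c) :
          G ⋊[(Subgroup.zpowers α).subtype] (Subgroup.zpowers α)) =
          SemidirectProduct.inl c * aElt α * (SemidirectProduct.inl c)⁻¹ * (aElt α)⁻¹ := by
        rw [eq_mul_inv_iff_mul_eq]
        exact inl_thet α c
      rw [h2]
      exact mul_mem (Subgroup.normalClosure_normal.conj_mem _ ha _) (inv_mem ha)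
    intro g
    exact h1 (hG ▸ Subgroup.mem_top g)
  intro γ _
  rw [← SemidirectProduct.inl_left_mul_inr_right γ]
  exact mul_mem (hinl _) (Subgroup.subset_normalClosure (inr_mem_zpowers_aElt α _))

theorem comap_inl_stable (α : MulAut G)
    (K : Subgroup (G ⋊[(Subgroup.zpowers α).subtype] (Subgroup.zpowers α)))
    (hA : Subgroup.zpowers (aElt α) ≤ K) :
    ∀ z ∈ Subgroup.zpowers α, ∀ h ∈ K.comap SemidirectProduct.inl,
      z h ∈ K.comap SemidirectProduct.inl := by
  intro z hz h hh
  show SemidirectProduct.inl (z h) ∈ K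
  have h1 := SemidirectProduct.inl_aut (φ := (Subgroup.zpowers α).subtype) ⟨z, hz⟩ h
  have h2 : (SemidirectProduct.inl (z h) :
      G ⋊[(Subgroup.zpowers α).subtype] (Subgroup.zpowers α)) =
      SemidirectProduct.inr ⟨z, hz⟩ * SemidirectProduct.inl h *
        SemidirectProduct.inr (⟨z, hz⟩ : Subgroup.zpowers α)⁻¹ := h1
  rw [h2]
  exact K.mul_mem (K.mul_mem (hA (inr_mem_zpowers_aElt α _)) hh)
    (hA (inr_mem_zpowers_aElt α _))

theorem mem_iff_left_mem_comap (α : MulAut G)
    (K : Subgroup (G ⋊[(Subgroup.zpowers α).subtype] (Subgroup.zpowers α)))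
    (hA : Subgroup.zpowers (aElt α) ≤ K)
    (γ : G ⋊[(Subgroup.zpowers α).subtype] (Subgroup.zpowers α)) :
    γ ∈ K ↔ γ.left ∈ K.comap SemidirectProduct.inl := by
  have h1 : (SemidirectProduct.inr γ.right :
      G ⋊[(Subgroup.zpowers α).subtype] (Subgroup.zpowers α)) ∈ K :=
    hA (inr_mem_zpowers_aElt α _)
  constructor
  · intro h
    show SemidirectProduct.inl γ.left ∈ K
    have h2 : (SemidirectProduct.inl γ.left :
        G ⋊[(Subgroup.zpowers α).subtype] (Subgroup.zpowers α)) =
        γ * (SemidirectProduct.inr γ.right)⁻¹ := by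
      rw [eq_mul_inv_iff_mul_eq]
      exact SemidirectProduct.inl_left_mul_inr_right γ
    rw [h2]
    exact K.mul_mem h (K.inv_mem h1)
  · intro h
    rw [← SemidirectProduct.inl_left_mul_inr_right γ]
    exact K.mul_mem h h1

theorem conj_inr_left (α : MulAut G)
    (γ : G ⋊[(Subgroup.zpowers α).subtype] (Subgroup.zpowers α)) (w : Subgroup.zpowers α) :
    (γ * SemidirectProduct.inr w * γ⁻¹).left = γ.left * ((w : MulAut G) γ.left)⁻¹ := by
  have hc : (γ.right : MulAut G) * (w : MulAut G) * (γ.right : MulAut G)⁻¹ = (w : MulAut G) := by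
    obtain ⟨i, hi⟩ := Subgroup.mem_zpowers_iff.mp γ.right.2
    obtain ⟨j, hj⟩ := Subgroup.mem_zpowers_iff.mp w.2
    rw [← hi, ← hj, (Commute.zpow_zpow_self α i j).eq, mul_inv_cancel_right]
  simp only [SemidirectProduct.mul_left, SemidirectProduct.mul_right, SemidirectProduct.inv_left,
    SemidirectProduct.left_inr, SemidirectProduct.right_inr, map_one, mul_one]
  congr 1
  have h1 : ((Subgroup.zpowers α).subtype (γ.right * w))
      (((Subgroup.zpowers α).subtype γ.right⁻¹) γ.left⁻¹) =
      ((γ.right : MulAut G) * (w : MulAut G) * (γ.right : MulAut G)⁻¹) γ.left⁻¹ := by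
    simp [MulAut.mul_apply]
  rw [h1, hc, map_inv]

/-- If `K ≥ ⟨α⟩` is generated by its conjugates of `⟨α⟩`, then `H = K ∩ G` satisfies
`[H, α] = H`. -/
theorem closure_thet_image_comap_inl [Finite G] (α : MulAut G)
    (K : Subgroup (G ⋊[(Subgroup.zpowers α).subtype] (Subgroup.zpowers α)))
    (hA : Subgroup.zpowers (aElt α) ≤ K) (hgen : FGen (Subgroup.zpowers (aElt α)) K) :
    Subgroup.closure (thet α '' ((K.comap SemidirectProduct.inl : Subgroup G) : Set G)) =
      K.comap SemidirectProduct.inl := by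
  have : Finite (G ⋊[(Subgroup.zpowers α).subtype] (Subgroup.zpowers α)) :=
    Finite.of_equiv _ SemidirectProduct.equivProd.symm
  have hst := comap_inl_stable α K hA
  obtain ⟨H, hH⟩ : ∃ H : Subgroup G, H = K.comap SemidirectProduct.inl := ⟨_, rfl⟩
  rw [← hH] at hst ⊢
  apply le_antisymm
  · rw [Subgroup.closure_le]
    rintro _ ⟨h, hh, rfl⟩
    exact H.mul_mem hh (H.inv_mem (hst α (Subgroup.mem_zpowers α) h hh))
  · have hH₁st : ∀ z ∈ Subgroup.zpowers α, ∀ x ∈ Subgroup.closure (thet α '' (H : Set G)),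
        z x ∈ Subgroup.closure (thet α '' (H : Set G)) := by
      intro z hz x hx
      refine map_mem_closure_of_forall z ?_ hx
      rintro _ ⟨h, hh, rfl⟩
      exact ⟨z h, hst z hz h hh, (thet_comm (commute_of_mem_zpowers hz) h).symm⟩
    have hpow : ∀ i : ℕ, ∀ h ∈ H, h * ((α ^ i) h)⁻¹ ∈ Subgroup.closure (thet α '' (H : Set G)) := by
      intro i
      induction i with
      | zero => intro h hh; simp
      | succ i ih =>
        intro h hh
        have h1 : thet α h ∈ Subgroup.closure (thet α '' (H : Set G)) :=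
          Subgroup.subset_closure ⟨h, hh, rfl⟩
        have h2 := ih (α h) (hst α (Subgroup.mem_zpowers α) h hh)
        have h3 : h * ((α ^ (i + 1)) h)⁻¹ = thet α h * (α h * ((α ^ i) (α h))⁻¹) := by
          rw [pow_succ, MulAut.mul_apply]
          unfold thet
          group
        rw [h3]
        exact Subgroup.mul_mem _ h1 h2
    have hT2 : ∀ w ∈ Subgroup.zpowers α, ∀ h ∈ H,
        h * (w h)⁻¹ ∈ Subgroup.closure (thet α '' (H : Set G)) := by
      intro w hw h hh
      obtain ⟨i, rfl⟩ := (Submonoid.mem_powers_iff _ _).mp (mem_powers_iff_mem_zpowers.mpr hw)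
      exact hpow i h hh
    have hle : K ≤ liftSub α (Subgroup.closure (thet α '' (H : Set G))) hH₁st := by
      calc K = sSup {B : Subgroup (G ⋊[(Subgroup.zpowers α).subtype] (Subgroup.zpowers α)) |
            ∃ x ∈ K, B = MulAut.conj x • Subgroup.zpowers (aElt α)} := hgen.sSup_conj_eq.symm
        _ ≤ _ := by
          apply sSup_le
          rintro B ⟨γ, hγ, rfl⟩
          intro x hx
          rw [mem_conj_smul_iff] at hx
          obtain ⟨w, hw⟩ := zpowers_aElt_le_range α hx
          have hx2 : x = γ * SemidirectProduct.inr w * γ⁻¹ := by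
            rw [hw]; group
          rw [mem_liftSub, hx2, conj_inr_left]
          refine hT2 _ w.2 _ ?_
          rw [hH]
          exact (mem_iff_left_mem_comap α K hA γ).mp hγ
    intro h hh
    rw [hH] at hh
    exact hle hh

/-- If `[G, α] = G` then for every `k` the `k`-fold commutators `[g, α, …, α]` generate `G`. -/
theorem iter_thet_generate (k : ℕ) : ∀ (n : ℕ) (G : Type u) [Group G] [Finite G],
    Nat.card G = n → ∀ α : MulAut G, Subgroup.closure (Set.range (thet α)) = ⊤ →
      Subgroup.closure (Set.range ((thet α)^[k])) = ⊤ := by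
  intro n
  induction n using Nat.strong_induction_on with
  | _ n ih =>
  intro G _ _ hn α hG
  by_contra hW
  have hnt : Nontrivial G := by
    rcases subsingleton_or_nontrivial G with h | h
    · exact absurd (Subsingleton.elim _ _) hW
    · exact h
  have : Finite (G ⋊[(Subgroup.zpowers α).subtype] (Subgroup.zpowers α)) :=
    Finite.of_equiv _ SemidirectProduct.equivProd.symm
  have hWst : ∀ z ∈ Subgroup.zpowers α, ∀ x ∈ Subgroup.closure (Set.range ((thet α)^[k])),
      z x ∈ Subgroup.closure (Set.range ((thet α)^[k])) := by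
    intro z hz x hx
    refine map_mem_closure_of_forall z ?_ hx
    rintro _ ⟨c, rfl⟩
    exact ⟨z c, (thet_iter_comm (commute_of_mem_zpowers hz) k c).symm⟩
  have hAnc := normalClosure_zpowers_aElt α hG
  have hAtop : Subgroup.zpowers (aElt α) ≠ ⊤ := by
    intro h
    obtain ⟨g, hg⟩ := exists_ne (1 : G)
    have h1 : (SemidirectProduct.inl g :
        G ⋊[(Subgroup.zpowers α).subtype] (Subgroup.zpowers α)) ∈ Subgroup.zpowers (aElt α) :=
      h ▸ Subgroup.mem_top _
    obtain ⟨w, hw⟩ := zpowers_aElt_le_range α h1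
    have h2 := congrArg SemidirectProduct.left hw
    rw [SemidirectProduct.left_inr, SemidirectProduct.left_inl] at h2
    exact hg h2.symm
  have hY : sSup {H : Subgroup (G ⋊[(Subgroup.zpowers α).subtype] (Subgroup.zpowers α)) |
      Subgroup.zpowers (aElt α) ≤ H ∧ H ≠ ⊤ ∧ FGen (Subgroup.zpowers (aElt α)) H} ≠ ⊤ := by
    intro hYtop
    have hle : sSup {H : Subgroup (G ⋊[(Subgroup.zpowers α).subtype] (Subgroup.zpowers α)) |
        Subgroup.zpowers (aElt α) ≤ H ∧ H ≠ ⊤ ∧ FGen (Subgroup.zpowers (aElt α)) H} ≤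
        liftSub α (Subgroup.closure (Set.range ((thet α)^[k]))) hWst := by
      apply sSup_le
      rintro K ⟨hAK, hKtop, hKgen⟩
      have hst := comap_inl_stable α K hAK
      have hclo := closure_thet_image_comap_inl α K hAK hKgen
      have hmemK := mem_iff_left_mem_comap α K hAK
      obtain ⟨H, hH⟩ : ∃ H : Subgroup G, H = K.comap SemidirectProduct.inl := ⟨_, rfl⟩
      rw [← hH] at hst hclo hmemK
      have hHtop : H ≠ ⊤ := by
        intro h
        apply hKtop
        rw [eq_top_iff]
        intro γ _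
        rw [hmemK, h]
        exact Subgroup.mem_top _
      have h1 : ∀ x ∈ H, α x ∈ H := hst α (Subgroup.mem_zpowers α)
      have h2 : ∀ x ∈ H, α⁻¹ x ∈ H := hst α⁻¹ (inv_mem (Subgroup.mem_zpowers α))
      have hcardH : Nat.card H < n := by
        rw [← hn, ← Subgroup.card_top (G := G)]
        exact card_lt_card_of_lt' (lt_top_iff_ne_top.mpr hHtop)
      have hgenH : Subgroup.closure (Set.range (thet (restrictAut α H h1 h2))) = ⊤ := by
        apply Subgroup.map_injective H.subtype_injective
        rw [MonoidHom.map_closure, ← MonoidHom.range_eq_map, Subgroup.range_subtype]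
        have hset : (H.subtype '' Set.range (thet (restrictAut α H h1 h2))) =
            thet α '' (H : Set G) := by
          ext x
          constructor
          · rintro ⟨_, ⟨y, rfl⟩, rfl⟩
            exact ⟨y.1, y.2, rfl⟩
          · rintro ⟨y, hy, rfl⟩
            exact ⟨thet (restrictAut α H h1 h2) ⟨y, hy⟩, ⟨_, rfl⟩, rfl⟩
        rw [hset]
        exact hclo
      have hk := ih (Nat.card H) hcardH H rfl (restrictAut α H h1 h2) hgenH
      have hHW : H ≤ Subgroup.closure (Set.range ((thet α)^[k])) := by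
        intro h hh
        have h3 : (⟨h, hh⟩ : H) ∈
            Subgroup.closure (Set.range ((thet (restrictAut α H h1 h2))^[k])) :=
          hk ▸ Subgroup.mem_top _
        have h4 : (Subgroup.closure (Set.range ((thet (restrictAut α H h1 h2))^[k]))).map
            H.subtype ≤ Subgroup.closure (Set.range ((thet α)^[k])) := by
          rw [MonoidHom.map_closure]
          apply Subgroup.closure_mono
          rintro _ ⟨_, ⟨y, rfl⟩, rfl⟩
          exact ⟨y.1, (thet_restrictAut_iter α H h1 h2 k y).symm⟩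
        exact h4 ⟨⟨h, hh⟩, h3, rfl⟩
      intro γ hγ
      rw [mem_liftSub]
      exact hHW ((hmemK γ).mp hγ)
    exact hW (liftSub_eq_top α _ hWst (top_le_iff.mp (hYtop ▸ hle)))
  obtain ⟨M, ⟨hM, hAM⟩, hMuniq⟩ := flavell_unique_maximal _ hAnc hAtop hY
  have hLW : liftSub α (Subgroup.closure (Set.range ((thet α)^[k]))) hWst ≤ M := by
    have hLtop : liftSub α (Subgroup.closure (Set.range ((thet α)^[k]))) hWst ≠ ⊤ :=
      fun h => hW (liftSub_eq_top α _ hWst h)
    obtain ⟨M₁, hM₁, hLM₁⟩ := (eq_top_or_exists_le_coatom _).resolve_left hLtop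
    have h1 : M₁ = M := hMuniq M₁
      ⟨hM₁, ((Subgroup.zpowers_le).mpr (aElt_mem_liftSub α _ hWst)).trans hLM₁⟩
    exact h1 ▸ hLM₁
  have hMnorm : ∀ u : G ⋊[(Subgroup.zpowers α).subtype] (Subgroup.zpowers α),
      MulAut.conj u • M = M → u ∈ M := by
    intro u hu
    by_contra huM
    have h3 : u ∈ Subgroup.normalizer (M : Set (G ⋊[(Subgroup.zpowers α).subtype] (Subgroup.zpowers α))) := conj_smul_eq_iff_mem_normalizer.mp hu
    have h4 : Subgroup.normalizer (M : Set (G ⋊[(Subgroup.zpowers α).subtype] (Subgroup.zpowers α))) = ⊤ := by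
      by_contra h5
      have h6 : M = Subgroup.normalizer (M : Set (G ⋊[(Subgroup.zpowers α).subtype] (Subgroup.zpowers α))) := by
        by_contra h7
        exact h5 (hM.2 _ (lt_of_le_of_ne Subgroup.le_normalizer h7))
      rw [← h6] at h3
      exact huM h3
    have h5 : M.Normal := Subgroup.normalizer_eq_top_iff.mp h4
    have h6 : Subgroup.normalClosure ((Subgroup.zpowers (aElt α) : Subgroup _) :
        Set (G ⋊[(Subgroup.zpowers α).subtype] (Subgroup.zpowers α))) ≤ M :=
      Subgroup.normalClosure_le_normal hAM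
    rw [hAnc] at h6
    exact hM.1 (top_le_iff.mp h6)
  have hstep : ∀ u : G ⋊[(Subgroup.zpowers α).subtype] (Subgroup.zpowers α),
      u ∉ M → u * aElt α * u⁻¹ ∉ M := by
    intro u hu hmem
    apply hu
    have h1 : aElt α ∈ MulAut.conj u⁻¹ • M := by
      rw [mem_conj_smul_iff, inv_inv]; exact hmem
    have h2 : MulAut.conj u⁻¹ • M = M :=
      hMuniq _ ⟨isCoatom_conj_smul hM _, (Subgroup.zpowers_le).mpr h1⟩
    have h3 := hMnorm u⁻¹ h2
    simpa using M.inv_mem h3
  obtain ⟨c, hc⟩ : ∃ c : G, (SemidirectProduct.inl c :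
      G ⋊[(Subgroup.zpowers α).subtype] (Subgroup.zpowers α)) ∉ M := by
    by_contra hcon
    push Not at hcon
    apply hM.1
    rw [eq_top_iff]
    intro γ _
    rw [← SemidirectProduct.inl_left_mul_inr_right γ]
    exact M.mul_mem (hcon _) (hAM (inr_mem_zpowers_aElt α _))
  have haM : aElt α ∈ M := hAM (Subgroup.mem_zpowers _)
  have hseq : ∀ j : ℕ, (SemidirectProduct.inl ((thet α)^[j] c) :
      G ⋊[(Subgroup.zpowers α).subtype] (Subgroup.zpowers α)) * aElt α ∉ M := by
    intro j
    induction j with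
    | zero =>
      intro h
      apply hc
      have h1 := M.mul_mem h (M.inv_mem haM)
      simpa using h1
    | succ j ihj =>
      rw [Function.iterate_succ_apply', inl_thet]
      have h1 : (SemidirectProduct.inl ((thet α)^[j] c) :
          G ⋊[(Subgroup.zpowers α).subtype] (Subgroup.zpowers α)) * aElt α *
          (SemidirectProduct.inl ((thet α)^[j] c))⁻¹ =
          (SemidirectProduct.inl ((thet α)^[j] c) * aElt α) * aElt α *
          (SemidirectProduct.inl ((thet α)^[j] c) * aElt α)⁻¹ := by group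
      rw [h1]
      exact hstep _ ihj
  apply hseq k
  refine hLW (Subgroup.mul_mem _ ?_ (aElt_mem_liftSub α _ hWst))
  rw [mem_liftSub, SemidirectProduct.left_inl]
  exact Subgroup.subset_closure (Set.mem_range_self c)

end Cfsg.Agent.H69
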