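import Mathlib
import Cfsg.Agent.H2.CensusDefs

set_option autoImplicit false
set_option maxHeartbeats 400000

/-!
Piece S0983-BS: completeness of the boolean search `brauerB` for `BrauerData`.
-/

namespace Cfsg.Agent.H69.Census

open Cfsg.Agent.H2.Census

lemma sum_range_eq_list {M : Type*} [AddCommMonoid M] (f : ℕ → M) (m : ℕ) :
    ∑ D ∈ Finset.range m, f D = ((List.range m).map f).sum := by
  induction m with
  | zero => simp
  | succ m ih =>
    rw [Finset.sum_range_succ, ih, List.range_succ, List.map_append, List.sum_append]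
    simp

lemma sum_map_filter_eq {M : Type*} [AddCommMonoid M] (L : List ℕ) (P : ℕ → Bool) (f : ℕ → M)
    (h : ∀ x ∈ L, P x = false → f x = 0) : ((L.filter P).map f).sum = (L.map f).sum := by
  induction L with
  | nil => simp
  | cons x L ih =>
    have ih' := ih (fun y hy => h y (List.mem_cons_of_mem x hy))
    by_cases hx : P x = true
    · rw [List.filter_cons_of_pos hx, List.map_cons, List.sum_cons, ih', List.map_cons,
        List.sum_cons]
    · have hx' : P x = false := by simpa using hx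
      rw [List.filter_cons_of_neg hx, ih', List.map_cons, List.sum_cons,
        h x List.mem_cons_self hx', zero_add]

lemma srch_complete (p : ℕ) (c : ℕ → ℕ) (L : List ℕ) :
    ∀ (cnt : ℕ) (tgt : ℤ) (bud : ℕ), (L.map c).sum = cnt →
      (L.map fun D => sgn p D * ((c D : ℤ) * (D : ℤ))).sum = tgt →
      (L.map fun D => c D * (D * D)).sum ≤ bud → srch p L cnt tgt bud = true := by
  induction L with
  | nil =>
    intro cnt tgt bud h1 h2 _
    simp only [List.map_nil, List.sum_nil] at h1 h2
    simp [srch, ← h1, ← h2]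
  | cons D L ih =>
    intro cnt tgt bud h1 h2 h3
    simp only [List.map_cons, List.sum_cons] at h1 h2 h3
    unfold srch
    rw [List.any_eq_true]
    refine ⟨c D, List.mem_range.2 (by omega), ?_⟩
    rw [Bool.and_eq_true, decide_eq_true_eq]
    refine ⟨by omega, ih _ _ _ (by omega) ?_ (by omega)⟩
    rw [← h2]
    ring

theorem brauerB_complete (N p : ℕ) (hp : p.Prime) (IsDeg : ℕ → Prop)
    (h : BrauerData N p IsDeg) : brauerB N p = true := by
  obtain ⟨n, k, e, d₀, ε, c, hN, hnp, hfact, hedvd, he2, hε, hd3, hdN, hdmod, hkd, -, hc, hsum,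
    hsgn, hsq, -⟩ := h
  have hp2 : 2 ≤ p := hp.two_le
  have hNpos : 0 < N := by omega
  have hn0 : n ≠ 0 := by
    rintro rfl
    simp at hnp
  have hnN : n ∣ N := ⟨p * (k * e), hN.symm⟩
  have hnle : n ≤ N := Nat.le_of_dvd hNpos hnN
  have helt : e < p := by
    have h1 : e ≤ p - 1 := Nat.le_of_dvd (by omega) hedvd
    omega
  have hmul : n * (p * e) * k = N := by
    rw [← hN]
    ring
  have hpos : 0 < n * (p * e) := by positivity
  have hdvd : n * (p * e) ∣ N := ⟨k, hmul.symm⟩
  have hk : N / (n * (p * e)) = k := by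
    rw [← hmul]
    exact Nat.mul_div_cancel_left k hpos
  have hdle : d₀ ≤ N := Nat.le_of_dvd hNpos hdN
  have hkd' : k = 1 ∨ 2 * p ≤ d₀ := by
    by_cases hk1 : k = 1
    · exact Or.inl hk1
    · exact Or.inr (hkd hk1)
  -- candidates
  have hcand : ∀ D ∈ List.range (N + 1),
      (decide (3 ≤ D) && decide (D ∣ N) && (decide (D % p = 1) || decide (D % p = p - 1)) &&
        (decide (k = 1) || decide (2 * p ≤ D)) && decide (D * D < N)) = false → c D = 0 := by
    intro D hD hfalse
    by_contra hcD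
    obtain ⟨h3, hDN, hres, hkD, -⟩ := hc D hcD
    have hDle : D ≤ N := Nat.le_of_dvd hNpos hDN
    have hsingle : c D * (D * D) ≤ ∑ D' ∈ Finset.range (N + 1), c D' * (D' * D') :=
      Finset.single_le_sum (f := fun D' => c D' * (D' * D')) (fun _ _ => Nat.zero_le _)
        (Finset.mem_range.2 (by omega))
    have hcpos : 1 ≤ c D := Nat.one_le_iff_ne_zero.2 hcD
    have hDD : D * D ≤ c D * (D * D) := Nat.le_mul_of_pos_left _ hcpos
    have hlt : D * D < N := by omega
    have hkD' : k = 1 ∨ 2 * p ≤ D := by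
      by_cases hk1 : k = 1
      · exact Or.inl hk1
      · exact Or.inr (hkD hk1)
    have htrue : (decide (3 ≤ D) && decide (D ∣ N) &&
        (decide (D % p = 1) || decide (D % p = p - 1)) &&
        (decide (k = 1) || decide (2 * p ≤ D)) && decide (D * D < N)) = true := by
      simp only [Bool.and_eq_true, Bool.or_eq_true, decide_eq_true_eq]
      exact ⟨⟨⟨⟨h3, hDN⟩, hres⟩, hkD'⟩, hlt⟩
    rw [htrue] at hfalse
    exact Bool.noConfusion hfalse
  have hs1 : ((cands N p k).map c).sum = e - 1 := by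
    rw [← hsum, sum_range_eq_list]
    exact sum_map_filter_eq _ _ c hcand
  have hs2 : ((cands N p k).map fun D => sgn p D * ((c D : ℤ) * (D : ℤ))).sum = ε * (d₀ : ℤ) - 1 := by
    have h1 : ∑ D ∈ Finset.range (N + 1), sgn p D * ((c D : ℤ) * (D : ℤ)) = ε * (d₀ : ℤ) - 1 := by
      linarith
    rw [← h1, sum_range_eq_list]
    exact sum_map_filter_eq _ _ _ (fun D hD hf => by
      rw [hcand D hD hf]
      simp)
  have hs3 : ((cands N p k).map fun D => c D * (D * D)).sum ≤ N - 1 - (p - 1) / e * (d₀ * d₀) := by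
    have h1 : ((cands N p k).map fun D => c D * (D * D)).sum =
        ∑ D ∈ Finset.range (N + 1), c D * (D * D) := by
      rw [sum_range_eq_list]
      exact sum_map_filter_eq _ _ _ (fun D hD hf => by
        rw [hcand D hD hf]
        simp)
    rw [h1]
    omega
  have hsrch := srch_complete p c (cands N p k) _ _ _ hs1 hs2 hs3
  unfold brauerB
  rw [List.any_eq_true]
  refine ⟨n, List.mem_range.2 (by omega), ?_⟩
  rw [Bool.and_eq_true, Bool.and_eq_true, Bool.and_eq_true, decide_eq_true_eq, decide_eq_true_eq,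
    decide_eq_true_eq]
  refine ⟨⟨⟨hnp, hnN⟩, hfact⟩, ?_⟩
  rw [List.any_eq_true]
  refine ⟨e, List.mem_range.2 helt, ?_⟩
  rw [Bool.and_eq_true, Bool.and_eq_true, Bool.and_eq_true, decide_eq_true_eq, decide_eq_true_eq,
    decide_eq_true_eq]
  refine ⟨⟨⟨he2, hedvd⟩, hdvd⟩, ?_⟩
  rw [List.any_eq_true]
  refine ⟨d₀, List.mem_range.2 (by omega), ?_⟩
  rw [hk]
  rw [Bool.and_eq_true, Bool.and_eq_true, Bool.and_eq_true, Bool.and_eq_true, Bool.or_eq_true,
    decide_eq_true_eq, decide_eq_true_eq, decide_eq_true_eq, decide_eq_true_eq, decide_eq_true_eq]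
  refine ⟨⟨⟨⟨hd3, hdN⟩, hkd'⟩, by omega⟩, ?_⟩
  rw [List.any_eq_true]
  refine ⟨ε, ?_, ?_⟩
  · rcases hε with rfl | rfl <;> simp
  · rw [Bool.and_eq_true, decide_eq_true_eq]
    exact ⟨hdmod, hsrch⟩

end Cfsg.Agent.H69.Census
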