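import Cfsg.Agent.H2.Zipper

/-!
# A generalized zipper lemma (helper69)

`FB L A`: `A ≤ L`, the normal closure of `A` is everything, and `A` is subnormal in every
proper subgroup containing it that does not lie in `L`.  Main result `not_FM`: if `L` is a
maximal subgroup and `FB L A`, then `L` is the only maximal subgroup containing `A`.
-/

set_option autoImplicit false
open Pointwise

namespace Cfsg.Agent.H69

open Cfsg.Agent.H12 Cfsg.Agent.H2

universe u

variable {G : Type u} [Group G]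

/-! ### conjugation helpers -/

theorem conj_smul_top' (g : G) : MulAut.conj g • (⊤ : Subgroup G) = ⊤ :=
  top_le_iff.mp fun _ _ => mem_conj_smul_iff.mpr (Subgroup.mem_top _)

theorem conj_smul_le_of_le_conj_inv {A B : Subgroup G} {g : G} (h : A ≤ MulAut.conj g⁻¹ • B) :
    MulAut.conj g • A ≤ B := by
  have := (Subgroup.pointwise_smul_le_pointwise_smul_iff (a := MulAut.conj g)).mpr h
  rwa [conj_smul_conj_inv_smul] at this

theorem le_conj_inv_of_conj_smul_le {A B : Subgroup G} {g : G} (h : MulAut.conj g • A ≤ B) :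
    A ≤ MulAut.conj g⁻¹ • B := by
  have := (Subgroup.pointwise_smul_le_pointwise_smul_iff (a := MulAut.conj g⁻¹)).mpr h
  rwa [conj_inv_smul_conj_smul] at this

theorem conj_smul_le_self_of_mem {A L : Subgroup G} {g : G} (hg : g ∈ L) (h : A ≤ L) :
    MulAut.conj g • A ≤ L := by
  calc MulAut.conj g • A ≤ MulAut.conj g • L :=
        Subgroup.pointwise_smul_le_pointwise_smul_iff.mpr h
    _ = L := conj_smul_eq_of_mem_normalizer (Subgroup.le_normalizer hg)

theorem isCoatom_conj_smul {L : Subgroup G} (hL : IsCoatom L) (g : G) :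
    IsCoatom (MulAut.conj g • L) := by
  refine ⟨fun h => hL.1 ?_, fun K hK => ?_⟩
  · have h1 : MulAut.conj g⁻¹ • MulAut.conj g • L = MulAut.conj g⁻¹ • (⊤ : Subgroup G) := by
      rw [h]
    rwa [conj_inv_smul_conj_smul, conj_smul_top'] at h1
  · have h1 : L < MulAut.conj g⁻¹ • K := by
      refine lt_of_le_of_ne (le_conj_inv_of_conj_smul_le hK.le) ?_
      intro h2
      apply hK.ne
      rw [h2, conj_smul_conj_inv_smul]
    have h2 := hL.2 _ h1
    have h3 : MulAut.conj g • MulAut.conj g⁻¹ • K = MulAut.conj g • (⊤ : Subgroup G) := by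
      rw [h2]
    rwa [conj_smul_conj_inv_smul, conj_smul_top'] at h3

theorem normalClosure_conj_smul_eq_top {A : Subgroup G} (g : G)
    (h : Subgroup.normalClosure (A : Set G) = ⊤) :
    Subgroup.normalClosure ((MulAut.conj g • A : Subgroup G) : Set G) = ⊤ := by
  rw [← top_le_iff, ← h]
  apply Subgroup.normalClosure_le_normal
  intro x hx
  have h1 : g * x * g⁻¹ ∈ Subgroup.normalClosure ((MulAut.conj g • A : Subgroup G) : Set G) :=
    Subgroup.subset_normalClosure (conj_mem_conj_smul hx)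
  have h2 := (Subgroup.normalClosure_normal
    (s := ((MulAut.conj g • A : Subgroup G) : Set G))).conj_mem _ h1 g⁻¹
  have h3 : g⁻¹ * (g * x * g⁻¹) * g⁻¹⁻¹ = x := by group
  rwa [h3] at h2

theorem not_le_of_isCoatom_ne {L L' : Subgroup G} (hL : IsCoatom L) (hL' : IsCoatom L')
    (hne : L ≠ L') : ¬ L ≤ L' := fun h => hL'.1 (hL.2 _ (lt_of_le_of_ne h hne))

/-! ### the classes `FB` and `FM` -/

/-- `FB L A`: `A ≤ L`, the normal closure of `A` is the whole group, and `A` is subnormal in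
every proper subgroup containing it that does not lie in `L`. -/
def FB (L A : Subgroup G) : Prop :=
  A ≤ L ∧ Subgroup.normalClosure (A : Set G) = ⊤ ∧
    ∀ H : Subgroup G, A ≤ H → H ≠ ⊤ → ¬ H ≤ L → SubnIn A H

/-- `FM A L`: `L` is a maximal subgroup, `FB L A`, and `A` lies in a second maximal subgroup. -/
def FM (A L : Subgroup G) : Prop :=
  IsCoatom L ∧ FB L A ∧ ∃ L' : Subgroup G, IsCoatom L' ∧ L' ≠ L ∧ A ≤ L'

theorem FB.conj {L A : Subgroup G} (h : FB L A) (g : G) :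
    FB (MulAut.conj g • L) (MulAut.conj g • A) := by
  obtain ⟨h1, h2, h3⟩ := h
  refine ⟨Subgroup.pointwise_smul_le_pointwise_smul_iff.mpr h1,
    normalClosure_conj_smul_eq_top g h2, ?_⟩
  intro H hAH hH hHL
  have hs : SubnIn A (MulAut.conj g⁻¹ • H) := by
    refine h3 _ (le_conj_inv_of_conj_smul_le hAH) ?_ ?_
    · intro h4
      apply hH
      have h5 : MulAut.conj g • MulAut.conj g⁻¹ • H = MulAut.conj g • (⊤ : Subgroup G) := by
        rw [h4]
      rwa [conj_smul_conj_inv_smul, conj_smul_top'] at h5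
    · intro h4
      apply hHL
      have h5 := (Subgroup.pointwise_smul_le_pointwise_smul_iff (a := MulAut.conj g)).mpr h4
      rwa [conj_smul_conj_inv_smul] at h5
  have := hs.conj g
  rwa [conj_smul_conj_inv_smul] at this

theorem FM.conj {A L : Subgroup G} (h : FM A L) (g : G) :
    FM (MulAut.conj g • A) (MulAut.conj g • L) := by
  obtain ⟨h1, h2, L', h3, h4, h5⟩ := h
  refine ⟨isCoatom_conj_smul h1 g, h2.conj g, MulAut.conj g • L', isCoatom_conj_smul h3 g, ?_,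
    Subgroup.pointwise_smul_le_pointwise_smul_iff.mpr h5⟩
  intro h6
  apply h4
  have h7 : MulAut.conj g⁻¹ • MulAut.conj g • L' = MulAut.conj g⁻¹ • MulAut.conj g • L := by
    rw [h6]
  rwa [conj_inv_smul_conj_smul, conj_inv_smul_conj_smul] at h7

theorem FM.not_subnIn [Finite G] {A L : Subgroup G} (h : FM A L) : ¬ SubnIn A L := by
  intro hs
  obtain ⟨hL, ⟨hAL, hnc, hB⟩, L', hL', hne, hAL'⟩ := h
  have hyp : ∀ H : Subgroup G, A ≤ H → H < ⊤ → SubnIn A H := by
    intro H hAH hH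
    by_cases hHL : H ≤ L
    · exact hs.of_le hAH hHL
    · exact hB H hAH hH.ne hHL
  have hns : ¬ SubnIn A ⊤ := by
    intro h1
    have hAne : A ≠ ⊤ := fun h2 => hL.1 (top_le_iff.mp (h2 ▸ hAL))
    obtain ⟨K', hAK', hK'lt, hK'n, _⟩ := h1.exists_normal_lt hAne
    have hK'normal : K'.Normal := Subgroup.normalizer_eq_top_iff.mp (top_le_iff.mp hK'n)
    have h2 : Subgroup.normalClosure (A : Set G) ≤ K' := Subgroup.normalClosure_le_normal hAK'
    rw [hnc] at h2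
    exact hK'lt.ne (top_le_iff.mp h2)
  obtain ⟨M, hM, hMall⟩ := zipper_aux ⊤ _ A rfl le_top hyp hns
  have h1 : L ≤ M := hMall L hAL (lt_top_iff_ne_top.mpr hL.1)
  have h2 : L' ≤ M := hMall L' hAL' (lt_top_iff_ne_top.mpr hL'.1)
  have h3 : L = M := by
    by_contra h4
    exact hM.ne (hL.2 M (lt_of_le_of_ne h1 h4))
  have h4 : L' = M := by
    by_contra h5
    exact hM.ne (hL'.2 M (lt_of_le_of_ne h2 h5))
  exact hne (h4.trans h3.symm)

theorem FM.center_unique [Finite G] {A L L₂ : Subgroup G} (h : FM A L) (h₂ : FM A L₂) :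
    L = L₂ := by
  by_contra hne
  exact h.not_subnIn (h₂.2.1.2.2 L h.2.1.1 h.1.1 (not_le_of_isCoatom_ne h.1 h₂.1 hne))

theorem FM.normalizer_le [Finite G] {A L : Subgroup G} (h : FM A L) :
    Subgroup.normalizer (A : Set G) ≤ L := by
  intro g hg
  have h1 := h.conj g
  rw [conj_smul_eq_of_mem_normalizer hg] at h1
  have h2 : MulAut.conj g • L = L := (h.center_unique h1).symm
  have h3 : g ∈ Subgroup.normalizer (L : Set G) := conj_smul_eq_iff_mem_normalizer.mp h2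
  by_contra hgL
  have h4 : Subgroup.normalizer (L : Set G) = ⊤ := by
    by_contra h5
    have h6 : L = Subgroup.normalizer (L : Set G) := by
      by_contra h7
      exact h5 (h.1.2 _ (lt_of_le_of_ne Subgroup.le_normalizer h7))
    rw [← h6] at h3
    exact hgL h3
  have h5 : L.Normal := Subgroup.normalizer_eq_top_iff.mp h4
  have h6 : Subgroup.normalClosure (A : Set G) ≤ L := Subgroup.normalClosure_le_normal h.2.1.1
  rw [h.2.1.2.1] at h6
  exact h.1.1 (top_le_iff.mp h6)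

/-! ### centres -/

/-- The "centre" of `A`: the maximal subgroup `L` with `FM A L` (unique when it exists). -/
noncomputable def fcen (A : Subgroup G) : Subgroup G :=
  open Classical in if h : ∃ L, FM A L then Classical.choose h else ⊤

theorem fcen_eq [Finite G] {A L : Subgroup G} (h : FM A L) : fcen A = L := by
  have h' : ∃ L, FM A L := ⟨L, h⟩
  unfold fcen
  rw [dif_pos h']
  exact FM.center_unique (Classical.choose_spec h') h

theorem fcen_conj [Finite G] {A L : Subgroup G} (h : FM A L) (g : G) :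
    fcen (MulAut.conj g • A) = MulAut.conj g • fcen A := by
  rw [fcen_eq (h.conj g), fcen_eq h]

/-- The set of `A` with a centre and of order `n`. -/
def FO (n : ℕ) : Set (Subgroup G) := {A | FM A (fcen A) ∧ Nat.card A = n}

theorem FO_conj [Finite G] {n : ℕ} {A : Subgroup G} (h : A ∈ FO (G := G) n) (g : G) :
    MulAut.conj g • A ∈ FO (G := G) n := by
  refine ⟨?_, ?_⟩
  · rw [fcen_conj h.1 g]; exact h.1.conj g
  · rw [card_conj_smul]; exact h.2

theorem FO_fcen_conj [Finite G] {n : ℕ} {A : Subgroup G} (h : A ∈ FO (G := G) n) (g : G) :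
    fcen (MulAut.conj g • A) = MulAut.conj g • fcen A := Cfsg.Agent.H69.fcen_conj h.1 g

theorem FO_le_fcen {n : ℕ} {A : Subgroup G} (h : A ∈ FO (G := G) n) : A ≤ fcen A := h.1.2.1.1

theorem FO_isCoatom {n : ℕ} {A : Subgroup G} (h : A ∈ FO (G := G) n) : IsCoatom (fcen A) := h.1.1

theorem FO_subnIn {n : ℕ} {A H : Subgroup G} (h : A ∈ FO (G := G) n) (hAH : A ≤ H)
    (hH : H ≠ ⊤) (hHL : ¬ H ≤ fcen A) : SubnIn A H := h.1.2.1.2.2 H hAH hH hHL

theorem FO_conj_fcen_of_mem [Finite G] {n : ℕ} {A : Subgroup G} (h : A ∈ FO (G := G) n) {g : G}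
    (hg : g ∈ fcen A) : fcen (MulAut.conj g • A) = fcen A := by
  rw [FO_fcen_conj h g]
  exact conj_smul_eq_of_mem_normalizer (Subgroup.le_normalizer hg)

/-! ### the maximality argument -/

section Max

variable [Finite G] {n : ℕ}

omit [Finite G] in
theorem fb_unique_coatom (hmax : ∀ A L : Subgroup G, FM A L → Nat.card A ≤ n)
    {L L' E : Subgroup G} (hL : IsCoatom L) (hE : FB L E) (hcard : n < Nat.card E)
    (hL' : IsCoatom L') (hEL' : E ≤ L') : L' = L := by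
  by_contra hne
  exact absurd (hmax E L ⟨hL, hE, L', hL', hne, hEL'⟩) (not_le.mpr hcard)

theorem fb_sSup {L : Subgroup G} (X : Set (Subgroup G)) (hne : X.Nonempty)
    (hX : ∀ A ∈ X, A ∈ FO (G := G) n ∧ (fcen A = L ∨ ¬ sSup X ≤ fcen A)) (hL : sSup X ≤ L) :
    FB L (sSup X) := by
  refine ⟨hL, ?_, ?_⟩
  · obtain ⟨A, hA⟩ := hne
    rw [← top_le_iff, ← (hX A hA).1.1.2.1.2.1]
    exact Subgroup.normalClosure_mono (le_sSup hA)
  · intro H hH hHtop hHL
    refine subnIn_sSup X fun A hA => ?_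
    refine FO_subnIn (hX A hA).1 ((le_sSup hA).trans hH) hHtop ?_
    rcases (hX A hA).2 with h | h
    · rw [h]; exact hHL
    · exact fun h' => h (hH.trans h')

theorem exists_fcen_ge (hmax : ∀ A L : Subgroup G, FM A L → Nat.card A ≤ n)
    {L L' : Subgroup G} (X : Set (Subgroup G)) (hX : ∀ A ∈ X, A ∈ FO (G := G) n)
    {A₁ A₂ : Subgroup G} (h1 : A₁ ∈ X) (h2 : A₂ ∈ X) (h12 : A₁ ≠ A₂)
    (hL : IsCoatom L) (hL' : IsCoatom L') (hne : L' ≠ L) (hXL : sSup X ≤ L)
    (hXL' : sSup X ≤ L') : ∃ A ∈ X, fcen A ≠ L ∧ sSup X ≤ fcen A := by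
  by_contra hcon
  push Not at hcon
  have hB : FB L (sSup X) := fb_sSup X ⟨A₁, h1⟩ (fun A hA => ⟨hX A hA, by
    by_cases h : fcen A = L
    · exact Or.inl h
    · exact Or.inr (hcon A hA h)⟩) hXL
  have hlt : A₁ < sSup X := by
    refine lt_of_le_of_ne (le_sSup h1) ?_
    intro h
    apply h12
    have h3 : A₂ ≤ A₁ := h ▸ le_sSup h2
    refine (Subgroup.eq_of_le_of_card_ge h3 ?_).symm
    rw [(hX A₁ h1).2, (hX A₂ h2).2]
  have hcard : n < Nat.card (sSup X : Subgroup G) := by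
    have := card_lt_card_of_lt' hlt
    rwa [(hX A₁ h1).2] at this
  exact hne (fb_unique_coatom hmax hL hB hcard hL' hXL')

theorem fadj_aux (hmax : ∀ A L : Subgroup G, FM A L → Nat.card A ≤ n)
    {A A' L : Subgroup G} (hA : A ∈ FO (G := G) n) (hA' : A' ∈ FO (G := G) n) (hne : A ≠ A')
    (hL : IsCoatom L) (hLne : L ≠ fcen A) (h1 : A ⊔ A' ≤ L) (h2 : A ⊔ A' ≤ fcen A) :
    fcen A' ≠ fcen A ∧ A ⊔ A' ≤ fcen A' := by
  have hX : ∀ B ∈ ({A, A'} : Set (Subgroup G)), B ∈ FO (G := G) n := by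
    intro B hB
    rcases hB with rfl | rfl
    · exact hA
    · exact hA'
  have hs : sSup ({A, A'} : Set (Subgroup G)) = A ⊔ A' := sSup_pair
  obtain ⟨B, hB, hB1, hB2⟩ := exists_fcen_ge hmax ({A, A'} : Set (Subgroup G)) hX
    (Set.mem_insert A _) (Set.mem_insert_of_mem A rfl) hne (FO_isCoatom hA) hL hLne
    (hs ▸ h2) (hs ▸ h1)
  rw [hs] at hB2
  rcases hB with rfl | rfl
  · exact absurd rfl hB1
  · exact ⟨hB1, hB2⟩

/-- Two distinct members of `FO n` inside the intersection of two distinct maximal subgroups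
have distinct centres, and each lies in the centre of the other. -/
theorem fadj_of_le (hmax : ∀ A L : Subgroup G, FM A L → Nat.card A ≤ n)
    {A A' L L' : Subgroup G} (hA : A ∈ FO (G := G) n) (hA' : A' ∈ FO (G := G) n) (hne : A ≠ A')
    (hL : IsCoatom L) (hL' : IsCoatom L') (hLL' : L' ≠ L) (h1 : A ≤ L) (h2 : A ≤ L')
    (h3 : A' ≤ L) (h4 : A' ≤ L') : fcen A ≠ fcen A' ∧ A ≤ fcen A' ∧ A' ≤ fcen A := by
  have hX : ∀ B ∈ ({A, A'} : Set (Subgroup G)), B ∈ FO (G := G) n := by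
    intro B hB
    rcases hB with rfl | rfl
    · exact hA
    · exact hA'
  have hs : sSup ({A, A'} : Set (Subgroup G)) = A ⊔ A' := sSup_pair
  obtain ⟨B, hB, hB1, hB2⟩ := exists_fcen_ge hmax ({A, A'} : Set (Subgroup G)) hX
    (Set.mem_insert A _) (Set.mem_insert_of_mem A rfl) hne hL hL' hLL'
    (hs ▸ sup_le h1 h3) (hs ▸ sup_le h2 h4)
  rw [hs] at hB2
  rcases hB with rfl | rfl
  · obtain ⟨h5, h6⟩ := fadj_aux hmax hA hA' hne hL (Ne.symm hB1) (sup_le h1 h3) hB2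
    exact ⟨Ne.symm h5, le_sup_left.trans h6, le_sup_right.trans hB2⟩
  · have hB2' : B ⊔ A ≤ fcen B := by rw [sup_comm]; exact hB2
    obtain ⟨h5, h6⟩ := fadj_aux hmax hA' hA (Ne.symm hne) hL (Ne.symm hB1) (sup_le h3 h1) hB2'
    exact ⟨h5, le_sup_right.trans hB2', le_sup_left.trans h6⟩

end Max

/-! ### cliques -/

/-- Adjacency: distinct centres, each inside the centre of the other. -/
def FAdj (A A' : Subgroup G) : Prop := fcen A ≠ fcen A' ∧ A ≤ fcen A' ∧ A' ≤ fcen A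

/-- A clique: at least two members of `FO n`, pairwise adjacent. -/
def FClique (n : ℕ) (Q : Set (Subgroup G)) : Prop :=
  (∀ A ∈ Q, A ∈ FO (G := G) n) ∧ (∃ A ∈ Q, ∃ A' ∈ Q, A ≠ A') ∧
    ∀ A ∈ Q, ∀ A' ∈ Q, A ≠ A' → FAdj A A'

section Clique

variable [Finite G] {n : ℕ}

omit [Finite G] in
theorem FClique.le_fcen {Q : Set (Subgroup G)} (hQ : FClique n Q) {X A : Subgroup G}
    (hX : X ∈ Q) (hA : A ∈ Q) : X ≤ fcen A := by
  by_cases h : X = A
  · subst h; exact FO_le_fcen (hQ.1 X hX)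
  · exact (hQ.2.2 X hX A hA h).2.1

theorem mem_of_le_fcen (hmax : ∀ A L : Subgroup G, FM A L → Nat.card A ≤ n)
    {Q : Set (Subgroup G)} (hQ : Maximal (fun Q => Q ∈ {Q : Set (Subgroup G) | FClique n Q}) Q)
    {A₁ A₂ D : Subgroup G} (h1 : A₁ ∈ Q) (h2 : A₂ ∈ Q) (h12 : A₁ ≠ A₂)
    (hD : D ∈ FO (G := G) n) (hD1 : D ≤ fcen A₁) (hD2 : D ≤ fcen A₂) : D ∈ Q := by
  have hc : FClique n Q := hQ.prop
  have hcen : fcen A₂ ≠ fcen A₁ := (hc.2.2 A₂ h2 A₁ h1 (Ne.symm h12)).1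
  have hsub : Q ≤ {D : Subgroup G | D ∈ FO (G := G) n ∧ D ≤ fcen A₁ ∧ D ≤ fcen A₂} :=
    fun X hX => ⟨hc.1 X hX, hc.le_fcen hX h1, hc.le_fcen hX h2⟩
  have hΘ : FClique n {D : Subgroup G | D ∈ FO (G := G) n ∧ D ≤ fcen A₁ ∧ D ≤ fcen A₂} := by
    refine ⟨fun X hX => hX.1, ⟨A₁, hsub h1, A₂, hsub h2, h12⟩, ?_⟩
    intro X hX X' hX' hne
    exact fadj_of_le hmax hX.1 hX'.1 hne (FO_isCoatom (hc.1 A₁ h1)) (FO_isCoatom (hc.1 A₂ h2))
      hcen hX.2.1 hX.2.2 hX'.2.1 hX'.2.2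
  exact hQ.le_of_ge hΘ hsub ⟨hD, hD1, hD2⟩

theorem conj_ne_of_mem_fcen {Q : Set (Subgroup G)} (hc : FClique n Q) {A A' : Subgroup G}
    (hA : A ∈ Q) (hA' : A' ∈ Q) (hne : A ≠ A') {g : G} (hg : g ∈ fcen A) :
    MulAut.conj g • A' ≠ A := by
  intro h
  have h1 := FO_fcen_conj (hc.1 A' hA') g
  rw [h] at h1
  have h2 : MulAut.conj g⁻¹ • fcen A = fcen A' := by rw [h1, conj_inv_smul_conj_smul]
  rw [conj_smul_eq_of_mem_normalizer (Subgroup.le_normalizer (inv_mem hg))] at h2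
  exact (hc.2.2 A hA A' hA' hne).1 h2

theorem stab_of_mem (hmax : ∀ A L : Subgroup G, FM A L → Nat.card A ≤ n)
    {Q : Set (Subgroup G)} (hQ : Maximal (fun Q => Q ∈ {Q : Set (Subgroup G) | FClique n Q}) Q)
    {A A' : Subgroup G} (hA : A ∈ Q) (hA' : A' ∈ Q) (hne : A ≠ A') {g : G} (hg : g ∈ fcen A)
    (hgA' : MulAut.conj g • A' ∈ Q) : ∀ X ∈ Q, MulAut.conj g • X ∈ Q := by
  have hc : FClique n Q := hQ.prop
  intro X hX
  refine mem_of_le_fcen hmax hQ hA hgA' (Ne.symm (conj_ne_of_mem_fcen hc hA hA' hne hg))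
    (FO_conj (hc.1 X hX) g) ?_ ?_
  · exact conj_smul_le_self_of_mem hg (hc.le_fcen hX hA)
  · rw [FO_fcen_conj (hc.1 A' hA') g]
    exact Subgroup.pointwise_smul_le_pointwise_smul_iff.mpr (hc.le_fcen hX hA')

theorem stab_fix {Q : Set (Subgroup G)} (hc : FClique n Q) {A : Subgroup G} (hA : A ∈ Q) {g : G}
    (hg : g ∈ fcen A) (hs : ∀ X ∈ Q, MulAut.conj g • X ∈ Q) : MulAut.conj g • A = A := by
  by_contra hne
  exact (hc.2.2 _ (hs A hA) A hA hne).1 (FO_conj_fcen_of_mem (hc.1 A hA) hg)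

theorem exists_stab_not_mem (hmax : ∀ A L : Subgroup G, FM A L → Nat.card A ≤ n)
    {Q : Set (Subgroup G)} (hQ : Maximal (fun Q => Q ∈ {Q : Set (Subgroup G) | FClique n Q}) Q)
    {A A' : Subgroup G} (hA : A ∈ Q) (hA' : A' ∈ Q) (hne : A ≠ A') :
    ∃ g : G, (∀ X ∈ Q, MulAut.conj g • X ∈ Q) ∧ g ∉ fcen A := by
  have hc : FClique n Q := hQ.prop
  have hadj := hc.2.2 A hA A' hA' hne
  have hAO := hc.1 A hA
  have hA'O := hc.1 A' hA'
  have hnle : ¬ fcen A' ≤ fcen A :=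
    not_le_of_isCoatom_ne (FO_isCoatom hA'O) (FO_isCoatom hAO) (Ne.symm hadj.1)
  have hs : SubnIn A (fcen A') := FO_subnIn hAO hadj.2.1 (FO_isCoatom hA'O).1 hnle
  have hnn : ¬ fcen A' ≤ Subgroup.normalizer (A : Set G) :=
    fun h => hnle (h.trans hAO.1.normalizer_le)
  obtain ⟨g, hg, hgne, hgN⟩ := hs.exists_conj_le_normalizer A le_rfl Subgroup.le_normalizer hnn
  have hgQ : MulAut.conj g • A ∈ Q := mem_of_le_fcen hmax hQ hA hA' hne (FO_conj hAO g)
    (hgN.trans hAO.1.normalizer_le) (conj_smul_le_self_of_mem hg hadj.2.1)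
  have hstab := stab_of_mem hmax hQ hA' hA (Ne.symm hne) hg hgQ
  exact ⟨g, hstab, fun hgA => hgne (stab_fix hc hA hgA hstab)⟩

end Clique

/-- **Generalized zipper lemma**: if `L` is a maximal subgroup, `A ≤ L` has full normal closure
and is subnormal in every proper subgroup containing it that is not inside `L`, then `L` is the
only maximal subgroup containing `A`. -/
theorem not_FM [Finite G] (A L : Subgroup G) : ¬ FM A L := by
  intro h0
  obtain ⟨B, ⟨M, hBM⟩, hBmax⟩ := Set.exists_max_image {A : Subgroup G | ∃ L, FM A L}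
    (fun A => Nat.card A) (Set.toFinite _) ⟨A, L, h0⟩
  obtain ⟨n, hn⟩ : ∃ n, n = Nat.card B := ⟨_, rfl⟩
  have hmax : ∀ A L : Subgroup G, FM A L → Nat.card A ≤ n := fun A L h => hn ▸ hBmax A ⟨L, h⟩
  have hcenB : fcen B = M := fcen_eq hBM
  have hBO : B ∈ FO (G := G) n := ⟨by rw [hcenB]; exact hBM, hn.symm⟩
  obtain ⟨hM, ⟨hBleM, -, hBB⟩, K, hK, hKM, hBK⟩ := id hBM
  -- a first adjacent pair
  have hsK : SubnIn B K := hBB K hBK hK.1 (not_le_of_isCoatom_ne hK hM hKM)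
  have hnK : ¬ K ≤ Subgroup.normalizer (B : Set G) :=
    fun h => not_le_of_isCoatom_ne hK hM hKM (h.trans hBM.normalizer_le)
  obtain ⟨x, hxK, hxne, hxN⟩ :=
    hsK.exists_conj_le_normalizer B le_rfl Subgroup.le_normalizer hnK
  have hCO : MulAut.conj x • B ∈ FO (G := G) n := FO_conj hBO x
  have hCM : MulAut.conj x • B ≤ M := hxN.trans hBM.normalizer_le
  have hCK : MulAut.conj x • B ≤ K := conj_smul_le_self_of_mem hxK hBK
  have hadj := fadj_of_le hmax hBO hCO (Ne.symm hxne) hM hK hKM hBleM hBK hCM hCK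
  have hQ0 : FClique n ({B, MulAut.conj x • B} : Set (Subgroup G)) := by
    refine ⟨?_, ⟨B, Set.mem_insert _ _, MulAut.conj x • B, Set.mem_insert_of_mem _ rfl,
      Ne.symm hxne⟩, ?_⟩
    · rintro X (rfl | rfl)
      · exact hBO
      · exact hCO
    · rintro X (rfl | rfl) X' (rfl | rfl) hne
      · exact absurd rfl hne
      · exact hadj
      · exact ⟨Ne.symm hadj.1, hadj.2.2, hadj.2.1⟩
      · exact absurd rfl hne
  obtain ⟨Q, -, hQ⟩ :=
    (Set.toFinite {Q : Set (Subgroup G) | FClique n Q}).exists_le_maximal hQ0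
  have hc : FClique n Q := hQ.prop
  obtain ⟨A₁, hA₁, A₂, hA₂, h12⟩ := hc.2.1
  have hA₁O := hc.1 A₁ hA₁
  have hA₂O := hc.1 A₂ hA₂
  -- the normalizer of the join of the clique
  have hstabN : ∀ g : G, (∀ X ∈ Q, MulAut.conj g • X ∈ Q) →
      g ∈ Subgroup.normalizer ((sSup Q : Subgroup G) : Set G) :=
    fun g hg => conj_smul_eq_iff_mem_normalizer.mp (conj_smul_sSup_eq_of_forall_mem hg)
  have hTle : sSup Q ≤ fcen A₁ := sSup_le fun X hX => hc.le_fcen hX hA₁
  have hNtop : Subgroup.normalizer ((sSup Q : Subgroup G) : Set G) ≠ ⊤ := by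
    intro h
    have hnorm : (sSup Q : Subgroup G).Normal := Subgroup.normalizer_eq_top_iff.mp h
    have h1 : Subgroup.normalClosure (A₁ : Set G) ≤ sSup Q :=
      Subgroup.normalClosure_le_normal (le_sSup hA₁)
    rw [hA₁O.1.2.1.2.1] at h1
    exact (FO_isCoatom hA₁O).1 (top_le_iff.mp (h1.trans hTle))
  obtain ⟨K', hK', hNK'⟩ := (eq_top_or_exists_le_coatom _).resolve_left hNtop
  have hK'ne : ∀ A ∈ Q, K' ≠ fcen A := by
    intro A hA h
    obtain ⟨A', hA', hne⟩ : ∃ A' ∈ Q, A ≠ A' := by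
      by_cases h1 : A = A₁
      · exact ⟨A₂, hA₂, h1 ▸ h12⟩
      · exact ⟨A₁, hA₁, h1⟩
    obtain ⟨g, hg1, hg2⟩ := exists_stab_not_mem hmax hQ hA hA' hne
    exact hg2 (h ▸ hNK' (hstabN g hg1))
  -- the join `S` of the clique without `A₁`
  obtain ⟨S, hS⟩ : ∃ S : Subgroup G, S = sSup (Q \ {A₁}) := ⟨_, rfl⟩
  have hSL : S ≤ fcen A₁ := hS ▸ sSup_le fun X hX => hc.le_fcen hX.1 hA₁
  have hSA₂ : S ≤ fcen A₂ := hS ▸ sSup_le fun X hX => hc.le_fcen hX.1 hA₂
  have hA₂mem : A₂ ∈ Q \ {A₁} := ⟨hA₂, Ne.symm h12⟩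
  have hA₂S : A₂ ≤ S := hS ▸ le_sSup hA₂mem
  have hsS : SubnIn S (fcen A₁) := by
    rw [hS]
    refine subnIn_sSup _ fun X hX => ?_
    exact FO_subnIn (hc.1 X hX.1) (hc.le_fcen hX.1 hA₁) (FO_isCoatom hA₁O).1
      (not_le_of_isCoatom_ne (FO_isCoatom hA₁O) (FO_isCoatom (hc.1 X hX.1))
        (Ne.symm (hc.2.2 X hX.1 A₁ hA₁ hX.2).1))
  have hNS : ∀ h ∈ fcen A₁, MulAut.conj h • S = S → ∀ X ∈ Q, MulAut.conj h • X ∈ Q := by
    intro h hh hhS
    have h1 : MulAut.conj h • A₂ ≤ S :=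
      hhS ▸ Subgroup.pointwise_smul_le_pointwise_smul_iff.mpr hA₂S
    have h2 : MulAut.conj h • A₂ ∈ Q := mem_of_le_fcen hmax hQ hA₁ hA₂ h12
      (FO_conj hA₂O h) (h1.trans hSL) (h1.trans hSA₂)
    exact stab_of_mem hmax hQ hA₁ hA₂ h12 hh h2
  have hle_N : ∀ d : G, d ∈ fcen A₁ → d ∈ Subgroup.normalizer (S : Set G) → d ∈ K' :=
    fun d hdL hdN => hNK' (hstabN d (hNS d hdL (conj_smul_eq_of_mem_normalizer hdN)))
  have hnS : ¬ fcen A₁ ≤ Subgroup.normalizer (S : Set G) := by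
    intro h
    have h1 : fcen A₁ ≤ K' := fun g hg => hle_N g hg (h hg)
    apply hK'ne A₁ hA₁
    by_contra h2
    exact hK'.1 ((FO_isCoatom hA₁O).2 K' (lt_of_le_of_ne h1 (Ne.symm h2)))
  obtain ⟨g, hgL, hgne, hgN⟩ :=
    hsS.exists_conj_le_normalizer S le_rfl Subgroup.le_normalizer hnS
  have hDO : MulAut.conj g • A₂ ∈ FO (G := G) n := FO_conj hA₂O g
  have hDN : MulAut.conj g • A₂ ≤ Subgroup.normalizer (S : Set G) :=
    (Subgroup.pointwise_smul_le_pointwise_smul_iff.mpr hA₂S).trans hgN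
  have hDL : MulAut.conj g • A₂ ≤ fcen A₁ := conj_smul_le_self_of_mem hgL (hc.le_fcen hA₂ hA₁)
  have hDQ : MulAut.conj g • A₂ ∉ Q := by
    intro hD
    have hstab := stab_of_mem hmax hQ hA₁ hA₂ h12 hgL hD
    have hfix := stab_fix hc hA₁ hgL hstab
    apply hgne
    rw [hS]
    refine conj_smul_sSup_eq_of_forall_mem ?_
    intro X hX
    refine ⟨hstab X hX.1, ?_⟩
    intro hXA
    apply hX.2
    have h1 : MulAut.conj g • X = MulAut.conj g • A₁ := by rw [hfix]; exact hXA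
    exact smul_left_cancel _ h1
  have hDK' : MulAut.conj g • A₂ ≤ K' := fun d hd => hle_N d (hDL hd) (hDN hd)
  have hSK' : S ≤ K' := fun s hs => hle_N s (hSL hs) (Subgroup.le_normalizer hs)
  have hXs : sSup (insert (MulAut.conj g • A₂) (Q \ {A₁})) = MulAut.conj g • A₂ ⊔ S := by
    rw [sSup_insert, hS]
  have hXO : ∀ Y ∈ insert (MulAut.conj g • A₂) (Q \ {A₁}), Y ∈ FO (G := G) n := by
    rintro Y (rfl | hY)
    · exact hDO
    · exact hc.1 Y hY.1
  have hDA₂ : MulAut.conj g • A₂ ≠ A₂ := fun h => hDQ (by rw [h]; exact hA₂)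
  obtain ⟨Y, hY, hY1, hY2⟩ := exists_fcen_ge hmax (insert (MulAut.conj g • A₂) (Q \ {A₁})) hXO
    (Set.mem_insert _ _) (Set.mem_insert_of_mem _ hA₂mem) hDA₂ (FO_isCoatom hA₁O) hK'
    (hK'ne A₁ hA₁) (hXs ▸ sup_le hDL hSL) (hXs ▸ sup_le hDK' hSK')
  rw [hXs] at hY2
  rcases hY with rfl | hY
  · have hadj2 := fadj_of_le hmax hA₂O hDO (Ne.symm hDA₂) (FO_isCoatom hA₁O) (FO_isCoatom hDO)
      hY1 (hc.le_fcen hA₂ hA₁) ((hA₂S.trans le_sup_right).trans hY2) hDL (FO_le_fcen hDO)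
    exact hDQ (mem_of_le_fcen hmax hQ hA₁ hA₂ h12 hDO hDL hadj2.2.2)
  · exact hDQ (mem_of_le_fcen hmax hQ hA₁ hY.1 (Ne.symm hY.2) hDO hDL (le_sup_left.trans hY2))

/-! ### generation by conjugates -/

/-- `FGen A H`: `A ≤ H` and the only normal subgroup of `H` containing `A` is `H` itself
(the normal closure of `A` in `H` is `H`). -/
def FGen (A H : Subgroup G) : Prop :=
  A ≤ H ∧ ∀ N : Subgroup G, A ≤ N → N ≤ H → H ≤ Subgroup.normalizer (N : Set G) → N = H

theorem fgen_of_normalClosure {A H : Subgroup G} (hAH : A ≤ H)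
    (h : Subgroup.normalClosure ((A.subgroupOf H : Subgroup H) : Set H) = ⊤) : FGen A H := by
  refine ⟨hAH, fun N hAN hNH hHN => le_antisymm hNH ?_⟩
  have hn : (N.subgroupOf H).Normal := Subgroup.normal_subgroupOf_of_le_normalizer hHN
  have h1 : Subgroup.normalClosure ((A.subgroupOf H : Subgroup H) : Set H) ≤ N.subgroupOf H :=
    Subgroup.normalClosure_le_normal (fun x hx => hAN hx)
  rw [h, top_le_iff] at h1
  exact Subgroup.subgroupOf_eq_top.mp h1

theorem normalClosure_of_fgen {A H : Subgroup G} (h : FGen A H) :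
    Subgroup.normalClosure ((A.subgroupOf H : Subgroup H) : Set H) = ⊤ := by
  obtain ⟨hAH, hN⟩ := h
  have h1 := hN ((Subgroup.normalClosure ((A.subgroupOf H : Subgroup H) : Set H)).map H.subtype)
    (by
      intro a ha
      exact ⟨⟨a, hAH ha⟩, Subgroup.subset_normalClosure (Subgroup.mem_subgroupOf.mpr ha), rfl⟩)
    (Subgroup.map_subtype_le _)
    (by
      have h2 := Subgroup.le_normalizer_map
        (H := Subgroup.normalClosure ((A.subgroupOf H : Subgroup H) : Set H)) H.subtype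
      rw [Subgroup.normalizer_eq_top_iff.mpr Subgroup.normalClosure_normal,
        ← MonoidHom.range_eq_map, Subgroup.range_subtype] at h2
      exact h2)
  apply Subgroup.map_injective H.subtype_injective
  rw [h1, ← MonoidHom.range_eq_map, Subgroup.range_subtype]

theorem FGen.sSup_conj_eq [Finite G] {A H : Subgroup G} (h : FGen A H) :
    sSup {B : Subgroup G | ∃ x ∈ H, B = MulAut.conj x • A} = H := by
  refine h.2 _ (le_sSup ⟨1, H.one_mem, by simp⟩) ?_ ?_
  · apply sSup_le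
    rintro B ⟨x, hx, rfl⟩
    exact conj_smul_le_self_of_mem hx h.1
  · exact le_normalizer_sSup_of_forall_mem (by
      rintro B ⟨y, hy, rfl⟩ x hx
      exact ⟨x * y, H.mul_mem hx hy, conj_smul_conj_smul A x y⟩)

theorem FGen.le_of_subnIn {A X : Subgroup G} (hX : FGen A X) {D H : Subgroup G}
    (hs : SubnIn D H) : A ≤ D → X ≤ H → X ≤ D := by
  induction hs with
  | refl K => intro _ h; exact h
  | step D L K hDL hL hLK ih =>
    intro hAD hXK
    have hXL : X ≤ L := ih (hAD.trans hDL) hXK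
    have h1 := hX.2 (D ⊓ X) (le_inf hAD hX.1) inf_le_right (by
      intro x hx
      have hxD := hL (hXL hx)
      rw [← conj_smul_eq_iff_mem_normalizer] at hxD ⊢
      rw [Subgroup.smul_inf, hxD, conj_smul_eq_of_mem_normalizer (Subgroup.le_normalizer hx)])
    exact inf_eq_right.mp h1

theorem exists_subnIn_fgen [Finite G] {A H : Subgroup G} (hAH : A ≤ H) :
    ∃ D : Subgroup G, A ≤ D ∧ SubnIn D H ∧ FGen A D := by
  obtain ⟨D, -, hD⟩ := (Set.toFinite {D : Subgroup G | A ≤ D ∧ SubnIn D H}).exists_le_minimal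
    (a := H) ⟨hAH, SubnIn.refl H⟩
  refine ⟨D, hD.prop.1, hD.prop.2, hD.prop.1, fun N hAN hND hDN => ?_⟩
  exact le_antisymm hND (hD.le_of_le ⟨hAN, (SubnIn.of_normal hND hDN).trans hD.prop.2⟩ hND)

/-- **Flavell's generation theorem**: let `A` be a proper subgroup of the finite group `G`
with normal closure `G`.  If the join of the proper subgroups `H ≥ A` that are generated by
their conjugates of `A` is proper, then `A` lies in a unique maximal subgroup. -/
theorem flavell_unique_maximal [Finite G] (A : Subgroup G)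
    (hA : Subgroup.normalClosure (A : Set G) = ⊤) (hAtop : A ≠ ⊤)
    (hY : sSup {H : Subgroup G | A ≤ H ∧ H ≠ ⊤ ∧ FGen A H} ≠ ⊤) :
    ∃! M : Subgroup G, IsCoatom M ∧ A ≤ M := by
  obtain ⟨Y, hYdef⟩ : ∃ Y, Y = sSup {H : Subgroup G | A ≤ H ∧ H ≠ ⊤ ∧ FGen A H} := ⟨_, rfl⟩
  rw [← hYdef] at hY
  have hmem : ∀ H : Subgroup G, A ≤ H → H ≠ ⊤ → FGen A H → H ≤ Y :=
    fun H h1 h2 h3 => hYdef ▸ le_sSup ⟨h1, h2, h3⟩
  have hAA : FGen A A := ⟨le_rfl, fun N h1 h2 _ => le_antisymm h2 h1⟩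
  have hAY : A ≤ Y := hmem A le_rfl hAtop hAA
  have hYgen : FGen A Y := by
    refine ⟨hAY, fun N hAN hNY hYN => le_antisymm hNY ?_⟩
    rw [hYdef]
    apply sSup_le
    rintro H ⟨h1, h2, h3⟩
    have hHY : H ≤ Y := hmem H h1 h2 h3
    have h4 := h3.2 (N ⊓ H) (le_inf hAN h1) inf_le_right (by
      intro x hx
      have hxN := hYN (hHY hx)
      rw [← conj_smul_eq_iff_mem_normalizer] at hxN ⊢
      rw [Subgroup.smul_inf, hxN, conj_smul_eq_of_mem_normalizer (Subgroup.le_normalizer hx)])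
    exact inf_eq_right.mp h4
  have hYsub : ∀ K : Subgroup G, Y ≤ K → K < ⊤ → SubnIn Y K := by
    intro K hYK hK
    obtain ⟨D, hAD, hDK, hDgen⟩ := exists_subnIn_fgen (hAY.trans hYK)
    have hDY : D ≤ Y := hmem D hAD (fun h => hK.ne (top_le_iff.mp (h ▸ hDK.le))) hDgen
    have hYD : Y ≤ D := hYgen.le_of_subnIn hDK hAD hYK
    rw [le_antisymm hYD hDY]; exact hDK
  have hYns : ¬ SubnIn Y ⊤ := by
    intro h1
    obtain ⟨K', hYK', hK'lt, hK'n, _⟩ := h1.exists_normal_lt hY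
    have hK'normal : K'.Normal := Subgroup.normalizer_eq_top_iff.mp (top_le_iff.mp hK'n)
    have h2 : Subgroup.normalClosure (A : Set G) ≤ K' :=
      Subgroup.normalClosure_le_normal (hAY.trans hYK')
    rw [hA] at h2
    exact hK'lt.ne (top_le_iff.mp h2)
  obtain ⟨M, hM, hMall⟩ := zipper_aux ⊤ _ Y rfl le_top hYsub hYns
  obtain ⟨M', hM', hYM'⟩ := (eq_top_or_exists_le_coatom Y).resolve_left hY
  have hMM' : M' = M := by
    by_contra h
    exact hM.ne (hM'.2 M (lt_of_le_of_ne (hMall M' hYM' (lt_top_iff_ne_top.mpr hM'.1)) h))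
  subst hMM'
  refine ⟨M', ⟨hM', hAY.trans hYM'⟩, ?_⟩
  rintro K ⟨hK, hAK⟩
  by_contra hKM
  obtain ⟨Astar, hAle, hmaxA⟩ := (Set.toFinite {H : Subgroup G |
    (A ≤ H ∧ H ≠ ⊤ ∧ FGen A H) ∧ ∃ L, IsCoatom L ∧ L ≠ M' ∧ H ≤ L}).exists_le_maximal
    (a := A) ⟨⟨le_rfl, hAtop, hAA⟩, K, hK, hKM, hAK⟩
  obtain ⟨⟨hAAs, hAstop, hAsgen⟩, L', hL', hL'M, hAsL'⟩ := hmaxA.prop
  apply not_FM Astar M'
  refine ⟨hM', ⟨(hmem Astar hAAs hAstop hAsgen).trans hYM', ?_, ?_⟩, L', hL', hL'M, hAsL'⟩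
  · rw [← top_le_iff, ← hA]; exact Subgroup.normalClosure_mono hAAs
  · intro H hAsH hHtop hHM
    obtain ⟨D, hAD, hDH, hDgen⟩ := exists_subnIn_fgen (hAAs.trans hAsH)
    have hAsD : Astar ≤ D := hAsgen.le_of_subnIn hDH hAD hAsH
    obtain ⟨L₂, hL₂, hHL₂⟩ := (eq_top_or_exists_le_coatom H).resolve_left hHtop
    have hL₂M : L₂ ≠ M' := fun h => hHM (h ▸ hHL₂)
    have hDtop : D ≠ ⊤ := fun h => hHtop (top_le_iff.mp (h ▸ hDH.le))
    have hDle : D ≤ Astar :=
      hmaxA.le_of_ge ⟨⟨hAD, hDtop, hDgen⟩, L₂, hL₂, hL₂M, hDH.le.trans hHL₂⟩ hAsD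
    rw [le_antisymm hAsD hDle]; exact hDH

end Cfsg.Agent.H69
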