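import Mathlib
import Cfsg.Agent.H34.J3FDefs

/-!
# S5322-CENT (piece for helper34)

The centraliser of `t` is `{eq a * eh b}` once its order is at most `1920`.
-/

set_option autoImplicit false

namespace Cfsg.Agent.H69.J3F

open Cfsg.Agent.H34.J3F

universe u

/-- In a finite group, the range of a map closed under multiplication and containing `1` is
closed under inverses. -/
theorem cent_inv_range {J : Type u} [Group J] [Finite J] {n : ℕ} (f : Fin n → J)
    (m : Fin n → Fin n → Fin n) (z : Fin n) (h0 : f z = 1)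
    (hm : ∀ a b, f a * f b = f (m a b)) (a : Fin n) : ∃ a', f a' = (f a)⁻¹ := by
  have hpow : ∀ k : ℕ, ∃ a', f a' = f a ^ k := by
    intro k
    induction k with
    | zero => exact ⟨z, by rw [h0, pow_zero]⟩
    | succ k ih =>
      obtain ⟨a', ha'⟩ := ih
      exact ⟨m a' a, by rw [← hm, ha', pow_succ]⟩
  obtain ⟨a', ha'⟩ := hpow (orderOf (f a) - 1)
  refine ⟨a', ?_⟩
  rw [ha']
  apply eq_inv_of_mul_eq_one_left
  rw [← pow_succ, Nat.sub_add_cancel (orderOf_pos (f a)), pow_orderOf_eq_one]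

theorem cent : Cfsg.Agent.H34.J3F.StCent.{u} := by
  intro J _ _ t eq eh qm hm act hq0 hh0 hqm hhm hact hqi hhi hqh hqt hht hcard g hg
  have hinvq := fun a => cent_inv_range eq qm 0 hq0 hqm a
  have hinvh := fun b => cent_inv_range eh hm 0 hh0 hhm b
  have hmem : ∀ p : Fin 32 × Fin 60,
      eq p.1 * eh p.2 ∈ Subgroup.centralizer ({t} : Set J) := by
    intro p
    rw [Subgroup.mem_centralizer_iff]
    intro x hx
    rw [Set.mem_singleton_iff] at hx
    subst hx
    calc x * (eq p.1 * eh p.2) = (x * eq p.1) * eh p.2 := by rw [mul_assoc]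
      _ = (eq p.1 * x) * eh p.2 := by rw [hqt]
      _ = eq p.1 * (x * eh p.2) := by rw [mul_assoc]
      _ = eq p.1 * (eh p.2 * x) := by rw [hht]
      _ = eq p.1 * eh p.2 * x := by rw [mul_assoc]
  have hinj : Function.Injective
      (fun p : Fin 32 × Fin 60 =>
        (⟨eq p.1 * eh p.2, hmem p⟩ : ↥(Subgroup.centralizer ({t} : Set J)))) := by
    rintro ⟨a, b⟩ ⟨a', b'⟩ h
    have h1 : eq a * eh b = eq a' * eh b' := congrArg Subtype.val h
    obtain ⟨a'', ha''⟩ := hinvq a'
    obtain ⟨b'', hb''⟩ := hinvh b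
    have h2 : (eq a')⁻¹ * eq a = eh b' * (eh b)⁻¹ := by
      rw [inv_mul_eq_iff_eq_mul, ← mul_assoc, ← h1, mul_assoc, mul_inv_cancel, mul_one]
    have h3 : eq (qm a'' a) = eh (hm b' b'') := by
      rw [← hqm, ← hhm, ha'', hb'']
      exact h2
    have h4 : qm a'' a = 0 := hqh _ _ h3
    have h5 : (eq a')⁻¹ * eq a = 1 := by
      rw [← ha'', hqm, h4, hq0]
    have h6 : eq a = eq a' := by
      have h7 := inv_mul_eq_one.mp h5
      exact h7.symm
    have h8 : a = a' := hqi h6
    subst h8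
    have h9 : eh b = eh b' := mul_left_cancel h1
    have h10 : b = b' := hhi h9
    subst h10
    rfl
  have hcard' : Nat.card ↥(Subgroup.centralizer ({t} : Set J)) ≤ Nat.card (Fin 32 × Fin 60) := by
    rw [Nat.card_prod, Nat.card_fin, Nat.card_fin]
    exact hcard
  have hbij := Function.Injective.bijective_of_nat_card_le hinj hcard'
  have hgC : g ∈ Subgroup.centralizer ({t} : Set J) := by
    rw [Subgroup.mem_centralizer_iff]
    intro x hx
    rw [Set.mem_singleton_iff] at hx
    subst hx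
    exact hg.symm
  obtain ⟨⟨a, b⟩, hab⟩ := hbij.2 ⟨g, hgC⟩
  exact ⟨a, b, (congrArg Subtype.val hab).symm⟩

example : Cfsg.Agent.H34.J3F.StCent.{u} := cent

end Cfsg.Agent.H69.J3F
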