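import Mathlib
import Cfsg.Agent.H34.J3FDefs

/-!
# S5322-GEN (piece for helper34)

`C(t)` is generated by 2-elements of `N(Q)`.
-/

set_option autoImplicit false

namespace Cfsg.Agent.H69.J3F

open Cfsg.Agent.H34.J3F

universe u

theorem gen : Cfsg.Agent.H34.J3F.StGen.{u} := by
  intro J _ D g hg
  obtain ⟨a, b, rfl⟩ := D.hcent g hg
  obtain ⟨b1, b2, h1, h2, h12⟩ := D.T4 b
  have hinv : ∀ c, D.hm c c = 0 → D.eh c * D.eh c = 1 := by
    intro c hc
    rw [D.hhm, hc, D.hh0]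
  have hord2 : ∀ y : J, y * y = 1 → ∃ k : ℕ, orderOf y = 2 ^ k := by
    intro y hy
    have h3 : orderOf y ∣ 2 ^ 1 :=
      orderOf_dvd_of_pow_eq_one (by rw [pow_one, pow_two]; exact hy)
    obtain ⟨k, _, hk⟩ := (Nat.dvd_prime_pow Nat.prime_two).mp h3
    exact ⟨k, hk⟩
  have hconjQ : ∀ c a', D.eh c * D.eq a' * (D.eh c)⁻¹ = D.eq (D.act c a') := by
    intro c a'
    rw [D.hact, mul_assoc, mul_inv_cancel, mul_one]
  have hnorm : ∀ c, D.eh c * D.eh c = 1 → D.eh c ∈ Subgroup.normalizer (D.Q : Set J) := by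
    intro c hc
    have hci : (D.eh c)⁻¹ = D.eh c := inv_eq_of_mul_eq_one_right hc
    rw [Subgroup.mem_normalizer_iff]
    intro x
    constructor
    · intro hx
      obtain ⟨a', rfl⟩ := (D.mem_Q x).mp hx
      exact (D.mem_Q _).mpr ⟨D.act c a', hconjQ c a'⟩
    · intro hx
      obtain ⟨a', ha'⟩ := (D.mem_Q _).mp hx
      have hx' : x = D.eh c * D.eq a' * (D.eh c)⁻¹ := by
        rw [← ha', hci]
        calc x = (D.eh c * D.eh c) * x * (D.eh c * D.eh c) := by rw [hc, one_mul, mul_one]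
          _ = D.eh c * (D.eh c * x * D.eh c) * D.eh c := by group
      rw [hx', hconjQ]
      exact (D.mem_Q _).mpr ⟨_, rfl⟩
  have hmemQ : D.eq a ∈ Subgroup.normalizer (D.Q : Set J) :=
    Subgroup.le_normalizer ((D.mem_Q _).mpr ⟨a, rfl⟩)
  have h4 : D.eq a ^ 4 = 1 := by
    have h5 : D.eq a ^ 4 = (D.eq a * D.eq a) * (D.eq a * D.eq a) := by
      rw [show (4 : ℕ) = 2 + 2 from rfl, pow_add, pow_two]
    rw [h5, D.hqm, D.hqm, D.T5, D.hq0]
  have hordq : ∃ k : ℕ, orderOf (D.eq a) = 2 ^ k := by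
    have h3 : orderOf (D.eq a) ∣ 2 ^ 2 := orderOf_dvd_of_pow_eq_one (by norm_num; exact h4)
    obtain ⟨k, _, hk⟩ := (Nat.dvd_prime_pow Nat.prime_two).mp h3
    exact ⟨k, hk⟩
  have hb : D.eh b = D.eh b1 * D.eh b2 := by rw [D.hhm, h12]
  rw [hb, ← mul_assoc]
  exact Subgroup.mul_mem _
    (Subgroup.mul_mem _ (Subgroup.subset_closure ⟨hmemQ, hordq⟩)
      (Subgroup.subset_closure ⟨hnorm b1 (hinv b1 h1), hord2 _ (hinv b1 h1)⟩))
    (Subgroup.subset_closure ⟨hnorm b2 (hinv b2 h2), hord2 _ (hinv b2 h2)⟩)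

example : Cfsg.Agent.H34.J3F.StGen.{u} := gen

end Cfsg.Agent.H69.J3F
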