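import Mathlib
import Cfsg.Prelude.Def_Solvable
import Cfsg.Agent.H69.ClassSize
import Cfsg.Agent.H69.PiClasses

/-!
# Mazurov's lemma on element orders in extensions by Frobenius groups

If `G/N` is a Frobenius group with kernel `F` and cyclic complement `H`, `(|F|, |N|) = 1` and `F`
does not centralize `N` (modulo inner automorphisms), then `G` has an element of order `p |H|`
for some prime `p` dividing `|N|`.
-/

namespace Cfsg.Agent.H69

open Subgroup

/-- The norm argument: if `c` normalizes `R`, no `c ^ i` (`0 < i < m`) commutes with a nontrivial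
element of `R`, and the "norm" `∏_{i<m} c^i v` is trivial on the abelian group `V` of order prime
to `|R|`, then `R` acts trivially on `V`. -/
theorem fixed_of_norm_trivial {X V : Type*} [Group X] [CommGroup V] [Finite V]
    (ρ : X →* Monoid.End V) (R : Subgroup X) [Finite R] (c : X) (m : ℕ) (hm : 0 < m)
    (hc : ∀ y ∈ R, c * y * c⁻¹ ∈ R)
    (hfpf : ∀ i : ℕ, 0 < i → i < m → ∀ y ∈ R, c ^ i * y = y * c ^ i → y = 1)
    (hcop : (Nat.card R).Coprime (Nat.card V))
    (hσ : ∀ v : V, ∏ i ∈ Finset.range m, ρ (c ^ i) v = 1) :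
    ∀ y ∈ R, ∀ v : V, ρ y v = v := by
  classical
  have := Fintype.ofFinite R
  have hmul : ∀ (a b : X) (v : V), ρ (a * b) v = ρ a (ρ b v) := fun a b v => by
    rw [map_mul]; rfl
  have hone : ∀ v : V, ρ 1 v = v := fun v => by rw [map_one]; rfl
  have hcpow : ∀ (j : ℕ), ∀ y ∈ R, c ^ j * y * (c ^ j)⁻¹ ∈ R := by
    intro j
    induction j with
    | zero => intro y hy; simpa using hy
    | succ j ih =>
      intro y hy
      have h1 := hc _ (ih y hy)
      have h2 : c ^ (j + 1) * y * (c ^ (j + 1))⁻¹ = c * (c ^ j * y * (c ^ j)⁻¹) * c⁻¹ := by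
        rw [pow_succ']; group
      rw [h2]; exact h1
  -- the `R`-norm of any vector is `R`-fixed
  have hnormfix : ∀ (w : V) (y : R), ρ (y : X) (∏ x : R, ρ (x : X) w) = ∏ x : R, ρ (x : X) w := by
    intro w y
    rw [map_prod]
    have : ∀ x : R, ρ (y : X) (ρ (x : X) w) = ρ ((y * x : R) : X) w := fun x => by
      rw [Subgroup.coe_mul, hmul]
    simp_rw [this]
    exact Fintype.prod_equiv (Equiv.mulLeft y) _ _ (fun x => rfl)
  intro y hy v
  -- conjugating the norm relation
  have h1 : ∀ (z : R), ∏ i ∈ Finset.range m, ρ ((z : X) * c ^ i * (z : X)⁻¹) v = 1 := by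
    intro z
    have h2 : ∀ i : ℕ, ρ ((z : X) * c ^ i * (z : X)⁻¹) v =
        ρ (z : X) (ρ (c ^ i) (ρ ((z : X)⁻¹) v)) := fun i => by rw [hmul, hmul]
    simp_rw [h2]
    rw [← map_prod, hσ, map_one]
  have h3 : ∏ z : R, ∏ i ∈ Finset.range m, ρ ((z : X) * c ^ i * (z : X)⁻¹) v = 1 := by
    rw [Finset.prod_congr rfl (fun z _ => h1 z), Finset.prod_const_one]
  rw [Finset.prod_comm] at h3
  obtain ⟨m', rfl⟩ : ∃ m', m = m' + 1 := ⟨m - 1, by omega⟩
  rw [Finset.prod_range_succ'] at h3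
  have h4 : ∏ z : R, ρ ((z : X) * c ^ 0 * (z : X)⁻¹) v = v ^ Nat.card R := by
    have : ∀ z : R, ρ ((z : X) * c ^ 0 * (z : X)⁻¹) v = v := fun z => by
      rw [pow_zero, mul_one, mul_inv_cancel, hone]
    rw [Finset.prod_congr rfl (fun z _ => this z), Finset.prod_const, Finset.card_univ,
      Nat.card_eq_fintype_card]
  rw [h4] at h3
  have h5 : ∀ i ∈ Finset.range m', ∏ z : R, ρ ((z : X) * c ^ (i + 1) * (z : X)⁻¹) v =
      ∏ x : R, ρ (x : X) (ρ (c ^ (i + 1)) v) := by
    intro i hi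
    have hi' : i + 1 < m' + 1 := by
      have := Finset.mem_range.mp hi; omega
    let β : R → R := fun z => ⟨(z : X) * (c ^ (i + 1) * (z : X)⁻¹ * (c ^ (i + 1))⁻¹),
      R.mul_mem z.2 (hcpow (i + 1) _ (R.inv_mem z.2))⟩
    have hβinj : Function.Injective β := by
      intro z z' hzz'
      have e1 : (z : X) * (c ^ (i + 1) * (z : X)⁻¹ * (c ^ (i + 1))⁻¹) =
          (z' : X) * (c ^ (i + 1) * (z' : X)⁻¹ * (c ^ (i + 1))⁻¹) := congrArg Subtype.val hzz'
      have e2 : c ^ (i + 1) * ((z' : X)⁻¹ * z) = ((z' : X)⁻¹ * z) * c ^ (i + 1) := by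
        have e3 : (z : X) * c ^ (i + 1) * (z : X)⁻¹ = (z' : X) * c ^ (i + 1) * (z' : X)⁻¹ := by
          have := congrArg (fun t => t * c ^ (i + 1)) e1
          simpa [mul_assoc] using this
        calc c ^ (i + 1) * ((z' : X)⁻¹ * z)
            = (z' : X)⁻¹ * ((z' : X) * c ^ (i + 1) * (z' : X)⁻¹) * z := by group
          _ = (z' : X)⁻¹ * ((z : X) * c ^ (i + 1) * (z : X)⁻¹) * z := by rw [e3]
          _ = ((z' : X)⁻¹ * z) * c ^ (i + 1) := by group
      have e4 := hfpf (i + 1) (Nat.succ_pos i) hi' _ (R.mul_mem (R.inv_mem z'.2) z.2) e2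
      exact Subtype.ext (by
        have := congrArg (fun t => (z' : X) * t) e4
        simpa using this)
    have hβ : Function.Bijective β := Finite.injective_iff_bijective.mp hβinj
    have h6 : ∀ z : R, ρ ((z : X) * c ^ (i + 1) * (z : X)⁻¹) v =
        ρ ((β z : R) : X) (ρ (c ^ (i + 1)) v) := by
      intro z
      rw [← hmul]
      congr 2
      show (z : X) * c ^ (i + 1) * (z : X)⁻¹ =
        (z : X) * (c ^ (i + 1) * (z : X)⁻¹ * (c ^ (i + 1))⁻¹) * c ^ (i + 1)
      group
    rw [Finset.prod_congr rfl (fun z _ => h6 z)]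
    exact Fintype.prod_bijective β hβ _ _ (fun z => rfl)
  rw [Finset.prod_congr rfl h5] at h3
  -- `v ^ |R|` is `R`-fixed
  have h7 : ρ y (v ^ Nat.card R) = v ^ Nat.card R := by
    have h8 : v ^ Nat.card R =
        (∏ i ∈ Finset.range m', ∏ x : R, ρ (x : X) (ρ (c ^ (i + 1)) v))⁻¹ :=
      eq_inv_of_mul_eq_one_right h3
    rw [h8, map_inv, map_prod]
    congr 1
    exact Finset.prod_congr rfl (fun i _ => hnormfix _ ⟨y, hy⟩)
  have h9 : (ρ y v * v⁻¹) ^ Nat.card R = 1 := by
    rw [mul_pow, ← map_pow, h7, inv_pow, mul_inv_cancel]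
  have h10 : orderOf (ρ y v * v⁻¹) ∣ Nat.card R := orderOf_dvd_of_pow_eq_one h9
  have h11 : orderOf (ρ y v * v⁻¹) ∣ Nat.card V := orderOf_dvd_natCard _
  have h12 : orderOf (ρ y v * v⁻¹) = 1 :=
    Nat.eq_one_of_dvd_coprimes hcop h10 h11
  exact mul_inv_eq_one.mp (orderOf_eq_one_iff.mp h12)

/-- An element lies in a subgroup as soon as all its powers of prime power order do. -/
theorem mem_of_forall_primePow_pow_mem {G : Type*} [Group G] [Finite G] (L : Subgroup G) (x : G)
    (h : ∀ k : ℕ, (∃ r : ℕ, r.Prime ∧ ∃ j : ℕ, orderOf (x ^ k) = r ^ j) → x ^ k ∈ L) :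
    x ∈ L := by
  induction hn : orderOf x using Nat.strong_induction_on generalizing x with
  | _ n ih =>
    by_cases hx1 : x = 1
    · rw [hx1]; exact L.one_mem
    · have hne : orderOf x ≠ 1 := fun h1 => hx1 (orderOf_eq_one_iff.mp h1)
      obtain ⟨r, hr, hrd⟩ := Nat.exists_prime_and_dvd hne
      obtain ⟨k, l, hk, hl, hkl⟩ := exists_pi_decomp ({r} : Set ℕ) x
      have hk_mem : x ^ k ∈ L := by
        apply h k
        refine ⟨r, hr, _, Nat.eq_prime_pow_of_unique_prime_dvd (orderOf_pos _).ne' ?_⟩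
        intro d hd hdd
        exact hk d hd hdd
      have hl_lt : orderOf (x ^ l) < n := by
        rw [← hn]
        refine lt_of_le_of_ne (Nat.le_of_dvd (orderOf_pos x) (orderOf_pow_dvd l)) ?_
        intro heq
        rw [← heq] at hrd
        exact hl r hr hrd rfl
      have hl_mem : x ^ l ∈ L := by
        refine ih _ hl_lt (x ^ l) ?_ rfl
        intro k' hk'
        rw [← pow_mul] at hk' ⊢
        exact h _ hk'
      rw [← hkl]
      exact L.mul_mem hk_mem hl_mem

/-- From an element `g` whose image modulo `N` has order `m` and with `g ^ m ≠ 1` we get an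
element of order `p * m` with `p` a prime divisor of `|N|`. -/
theorem exists_orderOf_eq_prime_mul {G : Type*} [Group G] [Finite G] (N : Subgroup G) (g : G)
    (m : ℕ) (hm : 0 < m) (h1 : ∀ i : ℕ, g ^ i ∈ N → m ∣ i) (h2 : g ^ m ∈ N) (h3 : g ^ m ≠ 1) :
    ∃ p : ℕ, p.Prime ∧ p ∣ Nat.card N ∧ ∃ g' : G, orderOf g' = p * m := by
  have ht1 : orderOf (g ^ m) ≠ 1 := fun h => h3 (orderOf_eq_one_iff.mp h)
  obtain ⟨p, hp, hpd⟩ := Nat.exists_prime_and_dvd ht1
  have htN : orderOf (g ^ m) ∣ Nat.card N := by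
    have := orderOf_dvd_natCard (⟨g ^ m, h2⟩ : N)
    rwa [← Subgroup.orderOf_coe] at this
  have hmd : m ∣ orderOf g := h1 _ (by rw [pow_orderOf_eq_one]; exact N.one_mem)
  have ht : orderOf (g ^ m) = orderOf g / m := orderOf_pow_of_dvd hm.ne' hmd
  obtain ⟨u, hu⟩ := hpd
  have hog : orderOf g = m * (p * u) := by
    rw [← hu, ht, Nat.mul_div_cancel' hmd]
  have hu0 : u ≠ 0 := by
    rintro rfl
    rw [mul_zero] at hu
    exact (orderOf_pos (g ^ m)).ne' hu
  refine ⟨p, hp, (Dvd.intro u hu.symm).trans htN, g ^ u, ?_⟩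
  rw [orderOf_pow_of_dvd hu0 (by rw [hog]; exact Dvd.intro_left (m * p) (by ring)), hog]
  rw [show m * (p * u) = (p * m) * u by ring, Nat.mul_div_cancel _ (Nat.pos_of_ne_zero hu0)]

/-! ### Frobenius complements -/

open scoped Pointwise

theorem mem_conj_smul_iff' {Q : Type*} [Group Q] (H : Subgroup Q) (g x : Q) :
    x ∈ MulAut.conj g • H ↔ g⁻¹ * x * g ∈ H := by
  rw [Subgroup.mem_pointwise_smul_iff_inv_smul_mem]
  simp [MulAut.smul_def]

theorem frob_kernel_inf_eq_bot {Q : Type*} [Group Q] (Hb Fb : Subgroup Q)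
    (hker : Cfsg.frobeniusKernel Hb = (Fb : Set Q)) : Fb ⊓ Hb = ⊥ := by
  rw [Subgroup.eq_bot_iff_forall]
  intro x hx'
  obtain ⟨hxF, hxH⟩ := Subgroup.mem_inf.mp hx'
  have hx : x ∈ Cfsg.frobeniusKernel Hb := by rw [hker]; exact hxF
  rcases hx with hx | hx
  · exact hx
  · exfalso
    apply hx 1
    rw [mem_conj_smul_iff']
    simpa using hxH

theorem frob_commute_eq_one {Q : Type*} [Group Q] (Hb Fb : Subgroup Q)
    (hH : Cfsg.IsFrobeniusComplement Hb) (hker : Cfsg.frobeniusKernel Hb = (Fb : Set Q))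
    {f h : Q} (hf : f ∈ Fb) (hh : h ∈ Hb) (hh1 : h ≠ 1) (hc : f * h = h * f) : f = 1 := by
  by_contra hf1
  have hfH : f ∉ Hb := fun hfH => hf1 (by
    have : f ∈ Fb ⊓ Hb := Subgroup.mem_inf.mpr ⟨hf, hfH⟩
    rwa [frob_kernel_inf_eq_bot Hb Fb hker, Subgroup.mem_bot] at this)
  have h2 := hH.2.2 f hfH
  have h3 : h ∈ Hb ⊓ MulAut.conj f • Hb := by
    refine Subgroup.mem_inf.mpr ⟨hh, ?_⟩
    rw [mem_conj_smul_iff']
    have : f⁻¹ * h * f = h := by
      rw [mul_assoc, ← hc]; group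
    rw [this]; exact hh
  rw [h2, Subgroup.mem_bot] at h3
  exact hh1 h3

/-- Every element of the coset `h F` is `F`-conjugate to `h`. -/
theorem frob_conj_coset {Q : Type*} [Group Q] [Finite Q] (Hb Fb : Subgroup Q) [Fb.Normal]
    (hH : Cfsg.IsFrobeniusComplement Hb) (hker : Cfsg.frobeniusKernel Hb = (Fb : Set Q))
    {f h : Q} (hf : f ∈ Fb) (hh : h ∈ Hb) (hh1 : h ≠ 1) :
    ∃ a ∈ Fb, h * f = a * h * a⁻¹ := by
  let φ : Fb → Fb := fun a => ⟨h⁻¹ * a * h * (a : Q)⁻¹, by
    have h1 : h⁻¹ * (a : Q) * h ∈ Fb := by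
      have := (inferInstance : Fb.Normal).conj_mem a a.2 h⁻¹
      simpa using this
    exact Fb.mul_mem h1 (Fb.inv_mem a.2)⟩
  have hinj : Function.Injective φ := by
    intro a b hab
    have h1 : h⁻¹ * (a : Q) * h * (a : Q)⁻¹ = h⁻¹ * (b : Q) * h * (b : Q)⁻¹ :=
      congrArg Subtype.val hab
    have h2 : ((b : Q)⁻¹ * a) * h = h * ((b : Q)⁻¹ * a) := by
      have e1 : (a : Q) * h * (a : Q)⁻¹ = (b : Q) * h * (b : Q)⁻¹ := by
        have := congrArg (fun z => h * z) h1
        simpa [mul_assoc] using this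
      calc ((b : Q)⁻¹ * a) * h = (b : Q)⁻¹ * ((a : Q) * h * (a : Q)⁻¹) * a := by group
        _ = (b : Q)⁻¹ * ((b : Q) * h * (b : Q)⁻¹) * a := by rw [e1]
        _ = h * ((b : Q)⁻¹ * a) := by group
    have h3 := frob_commute_eq_one Hb Fb hH hker (Fb.mul_mem (Fb.inv_mem b.2) a.2) hh hh1 h2
    exact Subtype.ext (by
      have := congrArg (fun t => (b : Q) * t) h3
      simpa using this)
  have hsurj : Function.Surjective φ := (Finite.injective_iff_bijective.mp hinj).2
  obtain ⟨a, ha⟩ := hsurj ⟨f, hf⟩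
  refine ⟨a, a.2, ?_⟩
  have h1 : h⁻¹ * (a : Q) * h * (a : Q)⁻¹ = f := congrArg Subtype.val ha
  rw [← h1]; group

/-! ### Coprime action of an `r`-group on a normal subgroup -/

/-- If the `r`-group `R` does not centralize the normal `r'`-subgroup `N`, it fixes, and does not
centralize, some Sylow subgroup of `N`. -/
theorem exists_fixed_sylow_not_centralized {G : Type*} [Group G] [Finite G] (N : Subgroup G)
    [N.Normal] (r : ℕ) [Fact r.Prime] (hrN : ¬ r ∣ Nat.card N) (R : Subgroup G)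
    (hR : IsPGroup r R) (hRN : ¬ R ≤ centralizer (N : Set G)) :
    ∃ (s : ℕ) (_ : Fact s.Prime) (P : Sylow s N),
      (∀ v ∈ R, (MulAut.conjNormal v : MulAut N) • P = P) ∧
      ¬ (∀ v ∈ R, ∀ a : N, a ∈ P → v * (a : G) = (a : G) * v) := by
  by_contra hcon
  push Not at hcon
  apply hRN
  have hC : (centralizer (R : Set G)).subgroupOf N = ⊤ := by
    apply eq_top_of_forall_sylow_le
    intro s hs
    let act : MulAction R (Sylow s N) :=
      MulAction.compHom (Sylow s N) ((MulAut.conjNormal (H := N)).comp R.subtype)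
    have hcard : ¬ r ∣ Nat.card (Sylow s N) := by
      obtain ⟨P0⟩ : Nonempty (Sylow s N) := inferInstance
      intro h
      exact hrN ((h.trans (Sylow.card_dvd_index P0)).trans (Subgroup.index_dvd_card _))
    obtain ⟨P, hP⟩ := hR.nonempty_fixed_point_of_prime_not_dvd_card (Sylow s N) hcard
    refine ⟨P, ?_⟩
    have hfix : ∀ v ∈ R, (MulAut.conjNormal v : MulAut N) • P = P := fun v hv => hP ⟨v, hv⟩
    have h1 := hcon s hs P hfix
    intro a ha
    rw [mem_subgroupOf, mem_centralizer_iff]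
    intro v hv
    exact h1 v hv a ha
  intro v hv
  rw [mem_centralizer_iff]
  intro n hn
  have h2 : (⟨n, hn⟩ : N) ∈ (centralizer (R : Set G)).subgroupOf N := by rw [hC]; trivial
  rw [mem_subgroupOf, mem_centralizer_iff] at h2
  exact (h2 v hv).symm

/-- Two `R`-invariant Sylow subgroups of `N` are conjugate under `C_N(R)`. -/
theorem exists_centralizing_conj {G : Type*} [Group G] [Finite G] (N : Subgroup G) [N.Normal]
    (r : ℕ) [Fact r.Prime] (hrN : ¬ r ∣ Nat.card N) (R : Subgroup G) (hR : IsPGroup r R)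
    (s : ℕ) [Fact s.Prime] (P P' : Sylow s N)
    (hP : ∀ v ∈ R, (MulAut.conjNormal v : MulAut N) • P = P)
    (hP' : ∀ v ∈ R, (MulAut.conjNormal v : MulAut N) • P' = P') :
    ∃ w ∈ N, (MulAut.conjNormal w : MulAut N) • P = P' ∧ ∀ v ∈ R, v * w * v⁻¹ = w := by
  let T : Set G := {a | a ∈ N ∧ (MulAut.conjNormal a : MulAut N) • P = P'}
  have hinv : ∀ (v : R) (a : G), a ∈ T → R.subtype v * a * (R.subtype v)⁻¹ ∈ T := by
    intro v a ha
    refine ⟨(inferInstance : N.Normal).conj_mem a ha.1 v, ?_⟩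
    have h1 : (MulAut.conjNormal (v : G) : MulAut N)⁻¹ • P = P := by
      rw [inv_smul_eq_iff, hP v v.2]
    show (MulAut.conjNormal ((v : G) * a * (v : G)⁻¹) : MulAut N) • P = P'
    rw [map_mul, map_mul, mul_smul, mul_smul, map_inv, h1, ha.2, hP' v v.2]
  have h1 := card_modEq_card_conj_fixed hR R.subtype T hinv
  obtain ⟨n0, hn0⟩ := MulAction.exists_smul_eq N P P'
  have hn0' : (MulAut.conjNormal (n0 : G) : MulAut N) • P = P' := by
    rw [MulAut.conjNormal_val]; exact hn0
  have hcardT : Nat.card T = Nat.card (MulAction.stabilizer N P) := by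
    refine Nat.card_congr
      { toFun := fun a => ⟨n0⁻¹ * ⟨a.1, a.2.1⟩, ?_⟩
        invFun := fun u => ⟨(n0 : G) * (u.1 : G), N.mul_mem n0.2 u.1.2, ?_⟩
        left_inv := fun a => Subtype.ext (by simp)
        right_inv := fun u => Subtype.ext (Subtype.ext (by simp)) }
    · rw [MulAction.mem_stabilizer_iff, mul_smul]
      have h2 : (⟨a.1, a.2.1⟩ : N) • P = P' := by
        have := a.2.2
        rw [show (a.1 : G) = ((⟨a.1, a.2.1⟩ : N) : G) from rfl, MulAut.conjNormal_val] at this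
        exact this
      rw [h2, inv_smul_eq_iff, hn0]
    · show (MulAut.conjNormal ((n0 : G) * (u.1 : G)) : MulAut N) • P = P'
      rw [map_mul, mul_smul, MulAut.conjNormal_val (h := u.1)]
      have h3 : (u.1 : N) • P = P := u.2
      rw [show (MulAut.conj (u.1 : N) : MulAut N) • P = (u.1 : N) • P from rfl, h3, hn0']
  have hT : ¬ r ∣ Nat.card T := by
    rw [hcardT]
    exact fun h => hrN (h.trans (Subgroup.card_subgroup_dvd_card _))
  have h2 : Nat.card {a : G // a ∈ T ∧ ∀ v : R, R.subtype v * a * (R.subtype v)⁻¹ = a} ≠ 0 := by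
    intro h0
    rw [h0] at h1
    exact hT ((Nat.modEq_zero_iff_dvd).mp h1)
  obtain ⟨⟨w, hw1, hw2⟩⟩ := (Nat.card_ne_zero.mp h2).1
  exact ⟨w, hw1.1, hw1.2, fun v hv => hw2 ⟨v, hv⟩⟩

/-- A subgroup of `N` fixed by conjugation with `g` has its image in `G` normalized by `g`. -/
theorem mem_normalizer_map_of_smul_eq {G : Type*} [Group G] (N : Subgroup G) [N.Normal]
    (P : Subgroup N) (g : G) (h : (MulAut.conjNormal g : MulAut N) • P = P) :
    g ∈ normalizer ((P.map N.subtype : Subgroup G) : Set G) := by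
  rw [mem_normalizer_iff]
  intro a
  constructor
  · rintro ⟨a', ha', rfl⟩
    refine ⟨MulAut.conjNormal g a', ?_, MulAut.conjNormal_apply g a'⟩
    have h1 : (MulAut.conjNormal g : MulAut N) • a' ∈ (MulAut.conjNormal g : MulAut N) • P :=
      Subgroup.smul_mem_pointwise_smul a' _ P ha'
    rw [h] at h1
    exact h1
  · rintro ⟨b, hb, hbe⟩
    have h' : (MulAut.conjNormal g : MulAut N)⁻¹ • P = P := by rw [inv_smul_eq_iff, h]
    refine ⟨(MulAut.conjNormal g)⁻¹ b, ?_, ?_⟩
    · have h1 : (MulAut.conjNormal g : MulAut N)⁻¹ • b ∈ (MulAut.conjNormal g : MulAut N)⁻¹ • P :=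
        Subgroup.smul_mem_pointwise_smul b _ P hb
      rw [h'] at h1
      exact h1
    · rw [Subgroup.coe_subtype] at hbe ⊢
      rw [MulAut.conjNormal_inv_apply, hbe]
      group

/-! ### The action of the normalizer on the abelianization -/

/-- The normalizer of `A` acts on the abelianization of `A`. -/
noncomputable def abelAction {G : Type*} [Group G] (A : Subgroup G) :
    ↥(normalizer (A : Set G)) →* Monoid.End (Abelianization A) where
  toFun g := Abelianization.map (A.normalizerMonoidHom g).toMonoidHom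
  map_one' := by
    apply Abelianization.hom_ext
    ext a
    simp
    rfl
  map_mul' g h := by
    apply Abelianization.hom_ext
    ext a
    simp
    rfl

theorem abelAction_of {G : Type*} [Group G] (A : Subgroup G) (g : ↥(normalizer (A : Set G)))
    (a : A) : abelAction A g (Abelianization.of a) = Abelianization.of (g • a) := rfl

theorem normalizer_le_normalizer_commutator {G : Type*} [Group G] (A : Subgroup G) :
    normalizer (A : Set G) ≤ normalizer ((⁅A, A⁆ : Subgroup G) : Set G) := by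
  have key : ∀ g : G, g ∈ normalizer (A : Set G) →
      ∀ z ∈ (⁅A, A⁆ : Subgroup G), g * z * g⁻¹ ∈ (⁅A, A⁆ : Subgroup G) := by
    intro g hg
    have hle : (⁅A, A⁆ : Subgroup G) ≤
        (⁅A, A⁆ : Subgroup G).comap (MulAut.conj g).toMonoidHom := by
      rw [Subgroup.commutator_le]
      intro a ha b hb
      rw [Subgroup.mem_comap, map_commutatorElement]
      exact Subgroup.commutator_mem_commutator ((mem_normalizer_iff.mp hg a).mp ha)
        ((mem_normalizer_iff.mp hg b).mp hb)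
    intro z hz
    exact hle hz
  intro g hg
  rw [mem_normalizer_iff]
  intro z
  constructor
  · exact key g hg z
  · intro hz
    have h1 := key g⁻¹ (inv_mem hg) _ hz
    have h2 : g⁻¹ * (g * z * g⁻¹) * g⁻¹⁻¹ = z := by group
    rwa [h2] at h1

/-- The core of Mazurov's lemma: inside an invariant `s`-subgroup `S ≤ N` not centralized by `R`
there is an element `a` with `(a c) ^ m ≠ c ^ m`. -/
theorem exists_mul_pow_ne_pow {G : Type*} [Group G] [Finite G] (N : Subgroup G)
    (r : ℕ) [Fact r.Prime] (hrN : ¬ r ∣ Nat.card N) (R : Subgroup G) (hR : IsPGroup r R)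
    (c : G) (m : ℕ) (hm : 0 < m) (hcR : c ∈ normalizer (R : Set G))
    (hfpf : ∀ i : ℕ, 0 < i → i < m → ∀ x ∈ R, c ^ i * x = x * c ^ i → x = 1)
    (S : Subgroup G) (hSN : S ≤ N) (s : ℕ) [Fact s.Prime] (hS : IsPGroup s S)
    (hRS : R ≤ normalizer (S : Set G)) (hcS : c ∈ normalizer (S : Set G))
    (hnc : ¬ R ≤ centralizer (S : Set G)) :
    ∃ a ∈ S, (a * c) ^ m ≠ c ^ m := by
  -- a minimal invariant subgroup not centralized by `R`
  obtain ⟨A, hA, hmin⟩ := Set.exists_min_image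
    {A : Subgroup G | A ≤ S ∧ R ≤ normalizer (A : Set G) ∧ c ∈ normalizer (A : Set G) ∧
      ¬ R ≤ centralizer (A : Set G)} (fun A => Nat.card A) (Set.toFinite _)
    ⟨S, le_rfl, hRS, hcS, hnc⟩
  obtain ⟨hAS, hRA, hcA, hncA⟩ := hA
  have hAN : A ≤ N := hAS.trans hSN
  have hA'A : (⁅A, A⁆ : Subgroup G) ≤ A := Subgroup.commutator_le_self A
  -- `A` is a nontrivial `s`-group, so `⁅A, A⁆ < A`
  have hAne : A ≠ ⊥ := by
    rintro rfl
    apply hncA
    intro v _
    rw [mem_centralizer_iff]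
    intro h hh
    rw [Subgroup.mem_bot.mp hh]; simp
  have hApg : IsPGroup s A := hS.to_le hAS
  have hlt : Nat.card (⁅A, A⁆ : Subgroup G) < Nat.card A := by
    have hnil : Group.IsNilpotent A := hApg.isNilpotent
    have hnt : Nontrivial A := (Subgroup.nontrivial_iff_ne_bot A).mpr hAne
    have h1 : _root_.commutator A < ⊤ := Group.IsSolvable.commutator_lt_top_of_nontrivial A
    have h2 : (⁅A, A⁆ : Subgroup G) ≠ A := by
      intro heq
      apply h1.ne
      rw [← A.map_subtype_commutator] at heq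
      rw [eq_top_iff]
      intro a _
      have ha : (a : G) ∈ (_root_.commutator A).map A.subtype := by rw [heq]; exact a.2
      obtain ⟨b, hb, hbe⟩ := ha
      have : b = a := Subtype.ext hbe
      rwa [← this]
    by_contra hge
    exact h2 (Subgroup.eq_of_le_of_card_ge hA'A (not_lt.mp hge))
  -- by minimality `R` centralizes `⁅A, A⁆`
  have hRA' : R ≤ centralizer ((⁅A, A⁆ : Subgroup G) : Set G) := by
    by_contra hcon
    have h1 := hmin ⁅A, A⁆ ⟨hA'A.trans hAS, hRA.trans (normalizer_le_normalizer_commutator A),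
      normalizer_le_normalizer_commutator A hcA, hcon⟩
    exact absurd h1 (not_le.mpr hlt)
  -- the action on the abelianization
  let cX : ↥(normalizer (A : Set G)) := ⟨c, hcA⟩
  have hcXpow : ∀ i : ℕ, ((cX ^ i : ↥(normalizer (A : Set G))) : G) = c ^ i := fun i => by simp [cX]
  by_contra hall
  push Not at hall
  -- the norm is trivial on `A/A'`
  have hσ : ∀ v : Abelianization A,
      ∏ i ∈ Finset.range m, abelAction A (cX ^ i) v = 1 := by
    intro v
    obtain ⟨a, rfl⟩ := QuotientGroup.mk_surjective v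
    have key : ∀ k : ℕ, ∃ t : A,
        Abelianization.of t = ∏ i ∈ Finset.range k, abelAction A (cX ^ i) (Abelianization.of a) ∧
        ((a : G) * c) ^ k = (t : G) * c ^ k := by
      intro k
      induction k with
      | zero => exact ⟨1, by simp, by simp⟩
      | succ k ih =>
        obtain ⟨t, ht1, ht2⟩ := ih
        refine ⟨t * (cX ^ k) • a, ?_, ?_⟩
        · rw [Finset.prod_range_succ, ← ht1, map_mul, abelAction_of]
        · rw [pow_succ, ht2, Subgroup.coe_mul]
          have : (((cX ^ k) • a : A) : G) = c ^ k * (a : G) * (c ^ k)⁻¹ := by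
            rw [← hcXpow k]; rfl
          rw [this, pow_succ]
          group
    obtain ⟨t, ht1, ht2⟩ := key m
    have ht : (t : G) = 1 := by
      have := hall (a : G) (hAS a.2)
      rw [ht2] at this
      exact mul_eq_right.mp this
    have ht' : t = 1 := Subtype.ext ht
    show ∏ i ∈ Finset.range m, abelAction A (cX ^ i) (Abelianization.of a) = 1
    rw [← ht1, ht', map_one]
  -- hence `R` acts trivially on `A/A'`
  have hRX : IsPGroup r (R.subgroupOf (normalizer (A : Set G))) := hR.comap_subtype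
  have hcopV : (Nat.card (R.subgroupOf (normalizer (A : Set G)))).Coprime
      (Nat.card (Abelianization A)) := by
    obtain ⟨n, hn⟩ := IsPGroup.iff_card.mp hRX
    rw [hn]
    apply Nat.Coprime.pow_left
    rw [Nat.Prime.coprime_iff_not_dvd (Fact.out)]
    intro h
    have h1 : Nat.card (Abelianization A) ∣ Nat.card A :=
      Subgroup.card_quotient_dvd_card _
    exact hrN ((h.trans h1).trans (Subgroup.card_dvd_of_le hAN))
  have htriv := fixed_of_norm_trivial (abelAction A) (R.subgroupOf (normalizer (A : Set G))) cX m hm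
    (fun y hy => by
      rw [mem_subgroupOf] at hy ⊢
      exact (mem_normalizer_iff.mp hcR _).mp hy)
    (fun i hi him y hy hcomm => by
      rw [mem_subgroupOf] at hy
      have h1 : c ^ i * (y : G) = (y : G) * c ^ i := by
        have := congrArg (fun t : ↥(normalizer (A : Set G)) => (t : G)) hcomm
        simpa [hcXpow] using this
      exact Subtype.ext (hfpf i hi him _ hy h1))
    hcopV hσ
  -- so `R` centralizes `A`, a contradiction
  apply hncA
  intro y hy
  rw [mem_centralizer_iff]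
  intro a ha
  let yX : ↥(normalizer (A : Set G)) := ⟨y, hRA hy⟩
  have h1 := htriv yX (by rw [mem_subgroupOf]; exact hy) (Abelianization.of ⟨a, ha⟩)
  rw [abelAction_of] at h1
  -- z = a⁻¹ (y a y⁻¹) lies in the commutator subgroup
  obtain ⟨z, hzdef⟩ : ∃ z : G, z = a⁻¹ * (y * a * y⁻¹) := ⟨_, rfl⟩
  have hyaz : y * a * y⁻¹ = a * z := by rw [hzdef]; group
  have hz : z ∈ (⁅A, A⁆ : Subgroup G) := by
    have h2 : ((⟨a, ha⟩ : A))⁻¹ * (yX • (⟨a, ha⟩ : A)) ∈ _root_.commutator A :=
      (QuotientGroup.eq).mp h1.symm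
    rw [← A.map_subtype_commutator, hzdef]
    exact ⟨_, h2, rfl⟩
  have hyz : Commute y z := by
    have := hRA' hy
    rw [mem_centralizer_iff] at this
    exact (this _ hz).symm
  obtain ⟨j, hj⟩ := hR ⟨y, hy⟩
  have hyj : y ^ r ^ j = 1 := by
    have := congrArg (fun t : R => (t : G)) hj
    simpa using this
  have hpow : ∀ k : ℕ, y ^ k * a * (y ^ k)⁻¹ = a * z ^ k := by
    intro k
    induction k with
    | zero => simp
    | succ k ih =>
      have hc1 : y * z ^ k * y⁻¹ = z ^ k := by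
        rw [(hyz.pow_right k).eq]; group
      calc y ^ (k + 1) * a * (y ^ (k + 1))⁻¹ = y * (y ^ k * a * (y ^ k)⁻¹) * y⁻¹ := by
            rw [pow_succ']; group
        _ = y * (a * z ^ k) * y⁻¹ := by rw [ih]
        _ = (y * a * y⁻¹) * (y * z ^ k * y⁻¹) := by group
        _ = a * z * z ^ k := by rw [hc1, hyaz]
        _ = a * z ^ (k + 1) := by rw [pow_succ', mul_assoc]
  have hzpow : z ^ r ^ j = 1 := by
    have := hpow (r ^ j)
    rw [hyj] at this
    simpa using this.symm
  have hzN : z ∈ N := hAN (hA'A hz)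
  have ho1 : orderOf z ∣ r ^ j := orderOf_dvd_of_pow_eq_one hzpow
  have ho2 : orderOf z ∣ Nat.card N := by
    have := orderOf_dvd_natCard (⟨z, hzN⟩ : N)
    rwa [← Subgroup.orderOf_coe] at this
  have ho3 : orderOf z = 1 :=
    Nat.eq_one_of_dvd_coprimes (Nat.Coprime.pow_left j
      ((Nat.Prime.coprime_iff_not_dvd (Fact.out)).mpr hrN)) ho1 ho2
  have hz1 : z = 1 := orderOf_eq_one_iff.mp ho3
  rw [hz1, mul_one] at hyaz
  calc a * y = (y * a * y⁻¹) * y := by rw [hyaz]
    _ = y * a := by group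

/-- Given an `r`-subgroup `R` acting nontrivially on the normal `r'`-subgroup `N`, normalized by
`c` whose nontrivial powers modulo `N` commute with no nontrivial element of `R`: some lift `g` of
`c N` has `g ^ m ≠ 1`. -/
theorem exists_lift_pow_ne_one {G : Type*} [Group G] [Finite G] (N : Subgroup G) [N.Normal]
    (r : ℕ) [Fact r.Prime] (hrN : ¬ r ∣ Nat.card N) (R : Subgroup G) (hR : IsPGroup r R)
    (c : G) (m : ℕ) (hm : 0 < m) (hcR : c ∈ normalizer (R : Set G))
    (hfpf : ∀ i : ℕ, 0 < i → i < m → ∀ x ∈ R,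
      Commute ((c : G ⧸ N) ^ i) (x : G ⧸ N) → x = 1)
    (hRN : ¬ R ≤ centralizer (N : Set G)) :
    ∃ g : G, (g : G ⧸ N) = (c : G ⧸ N) ∧ g ^ m ≠ 1 := by
  obtain ⟨s, hs, P, hPfix, hPnc⟩ := exists_fixed_sylow_not_centralized N r hrN R hR hRN
  have hP' : ∀ v ∈ R, (MulAut.conjNormal v : MulAut N) • ((MulAut.conjNormal c : MulAut N) • P) =
      (MulAut.conjNormal c : MulAut N) • P := by
    intro v hv
    have h1 : c⁻¹ * v * c ∈ R := (mem_normalizer_iff''.mp hcR v).mp hv
    have h2 : v * c = c * (c⁻¹ * v * c) := by group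
    rw [← mul_smul, ← map_mul, h2, map_mul, mul_smul, hPfix _ h1]
  obtain ⟨w, hwN, hwP, hwR⟩ := exists_centralizing_conj N r hrN R hR s P
    ((MulAut.conjNormal c : MulAut N) • P) hPfix hP'
  have hc1Q : ((w⁻¹ * c : G) : G ⧸ N) = (c : G ⧸ N) := by
    rw [QuotientGroup.mk_mul, QuotientGroup.mk_inv, (QuotientGroup.eq_one_iff w).mpr hwN,
      inv_one, one_mul]
  have hc1P : (MulAut.conjNormal (w⁻¹ * c) : MulAut N) • P = P := by
    rw [map_mul, mul_smul, map_inv, inv_smul_eq_iff, hwP]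
  have hwcomm : ∀ v ∈ R, w * v * w⁻¹ = v := by
    intro v hv
    have := hwR v hv
    calc w * v * w⁻¹ = (v * w * v⁻¹) * v * w⁻¹ := by rw [this]
      _ = v * (w * v⁻¹ * v * w⁻¹) := by group
      _ = v := by group
  have hwnorm : w ∈ normalizer (R : Set G) := by
    rw [mem_normalizer_iff]
    intro h
    constructor
    · intro hh
      rw [hwcomm h hh]; exact hh
    · intro hh
      have h1 := hwcomm _ hh
      have h2 : w * h * w⁻¹ = h := by
        calc w * h * w⁻¹ = w⁻¹ * (w * (w * h * w⁻¹) * w⁻¹) * w := by group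
          _ = w⁻¹ * (w * h * w⁻¹) * w := by rw [h1]
          _ = h := by group
      rw [← h2]; exact hh
  have hc1R : w⁻¹ * c ∈ normalizer (R : Set G) := mul_mem (inv_mem hwnorm) hcR
  by_cases hpow : (w⁻¹ * c) ^ m ≠ 1
  · exact ⟨w⁻¹ * c, hc1Q, hpow⟩
  push Not at hpow
  have hSN : (P : Subgroup N).map N.subtype ≤ N := map_subtype_le _
  have hS : IsPGroup s ((P : Subgroup N).map N.subtype) := P.2.map N.subtype
  have hRS : R ≤ normalizer (((P : Subgroup N).map N.subtype : Subgroup G) : Set G) :=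
    fun v hv => mem_normalizer_map_of_smul_eq N P v
      (congrArg (fun Q : Sylow s N => (Q : Subgroup N)) (hPfix v hv))
  have hcS : w⁻¹ * c ∈ normalizer (((P : Subgroup N).map N.subtype : Subgroup G) : Set G) :=
    mem_normalizer_map_of_smul_eq N P _
      (congrArg (fun Q : Sylow s N => (Q : Subgroup N)) hc1P)
  have hnc : ¬ R ≤ centralizer (((P : Subgroup N).map N.subtype : Subgroup G) : Set G) := by
    intro h
    apply hPnc
    intro v hv a ha
    have h1 := h hv
    rw [mem_centralizer_iff] at h1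
    exact (h1 (a : G) ⟨a, ha, rfl⟩).symm
  have hfpf' : ∀ i : ℕ, 0 < i → i < m → ∀ x ∈ R,
      (w⁻¹ * c) ^ i * x = x * (w⁻¹ * c) ^ i → x = 1 := by
    intro i hi him x hx hcomm
    apply hfpf i hi him x hx
    rw [← hc1Q]
    have := congrArg (fun t : G => (t : G ⧸ N)) hcomm
    simp only [QuotientGroup.mk_mul, QuotientGroup.mk_pow] at this
    exact this
  obtain ⟨a, haS, ha⟩ := exists_mul_pow_ne_pow N r hrN R hR (w⁻¹ * c) m hm hc1R hfpf'
    ((P : Subgroup N).map N.subtype) hSN s hS hRS hcS hnc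
  rw [hpow] at ha
  refine ⟨a * (w⁻¹ * c), ?_, ha⟩
  rw [QuotientGroup.mk_mul, (QuotientGroup.eq_one_iff a).mpr (hSN haS), one_mul, hc1Q]

/-- **Mazurov's lemma.** -/
theorem mazurov_lemma {G : Type*} [Group G] [Finite G] (N : Subgroup G) [N.Normal]
    (Fb Hb : Subgroup (G ⧸ N)) [Fb.Normal] (hHb : Cfsg.IsFrobeniusComplement Hb)
    (hker : Cfsg.frobeniusKernel Hb = (Fb : Set (G ⧸ N)))
    (hcyc : IsCyclic Hb) (hcop : (Nat.card Fb).Coprime (Nat.card N))
    (hnot : ¬ Fb ≤ (Subgroup.centralizer (N : Set G)).map (QuotientGroup.mk' N)) :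
    ∃ p : ℕ, p.Prime ∧ p ∣ Nat.card N ∧ ∃ g : G, orderOf g = p * Nat.card Hb := by
  -- Step A: an element of prime power order in the preimage of the kernel not centralizing `N`
  obtain ⟨fb, hfb, hfb'⟩ := SetLike.not_le_iff_exists.mp hnot
  obtain ⟨x, rfl⟩ := QuotientGroup.mk_surjective fb
  have hxL : x ∉ ((Subgroup.centralizer (N : Set G)).map (QuotientGroup.mk' N)).comap
      (QuotientGroup.mk' N) := hfb'
  have hex : ∃ k : ℕ, (∃ r : ℕ, r.Prime ∧ ∃ j : ℕ, orderOf (x ^ k) = r ^ j) ∧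
      x ^ k ∉ ((Subgroup.centralizer (N : Set G)).map (QuotientGroup.mk' N)).comap
        (QuotientGroup.mk' N) := by
    by_contra h
    push Not at h
    exact hxL (mem_of_forall_primePow_pow_mem _ x h)
  obtain ⟨k, ⟨r, hr, j, hj⟩, hyL⟩ := hex
  obtain ⟨y, hydef⟩ : ∃ y : G, y = x ^ k := ⟨_, rfl⟩
  rw [← hydef] at hj hyL
  have hyF : (y : G ⧸ N) ∈ Fb := by
    rw [hydef, QuotientGroup.mk_pow]; exact Fb.pow_mem hfb k
  have hyN : y ∉ N := fun h => hyL (by
    rw [Subgroup.mem_comap]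
    show (y : G ⧸ N) ∈ _
    rw [(QuotientGroup.eq_one_iff y).mpr h]; exact one_mem _)
  have hyC : y ∉ centralizer (N : Set G) := fun h => hyL (by
    rw [Subgroup.mem_comap]; exact Subgroup.mem_map_of_mem _ h)
  have hrf : Fact r.Prime := ⟨hr⟩
  have hrN : ¬ r ∣ Nat.card N := by
    intro hrd
    have h1 : orderOf (y : G ⧸ N) ∣ r ^ j := hj ▸ orderOf_map_dvd (QuotientGroup.mk' N) y
    have h2 : orderOf (y : G ⧸ N) ∣ Nat.card Fb := by
      have := orderOf_dvd_natCard (⟨(y : G ⧸ N), hyF⟩ : Fb)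
      rwa [← Subgroup.orderOf_coe] at this
    have h3 : Nat.Coprime (r ^ j) (Nat.card Fb) :=
      Nat.Coprime.pow_left j (Nat.Coprime.symm (Nat.Coprime.coprime_dvd_right hrd hcop))
    have h4 : orderOf (y : G ⧸ N) = 1 := Nat.eq_one_of_dvd_coprimes h3 h1 h2
    exact hyN ((QuotientGroup.eq_one_iff y).mp (orderOf_eq_one_iff.mp h4))
  -- Step B: a Sylow `r`-subgroup of the preimage `K` of the kernel containing `y`
  have hyK : y ∈ Fb.comap (QuotientGroup.mk' N) := hyF
  have hzp : IsPGroup r (zpowers (⟨y, hyK⟩ : Fb.comap (QuotientGroup.mk' N))) := by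
    apply IsPGroup.of_card (n := j)
    rw [Nat.card_zpowers, ← hj, ← Subgroup.orderOf_coe]
  obtain ⟨P, hP⟩ := hzp.exists_le_sylow
  have hR : IsPGroup r ((P : Subgroup (Fb.comap (QuotientGroup.mk' N))).map
      (Fb.comap (QuotientGroup.mk' N)).subtype) := P.2.map _
  have hyR : y ∈ (P : Subgroup (Fb.comap (QuotientGroup.mk' N))).map
      (Fb.comap (QuotientGroup.mk' N)).subtype :=
    ⟨⟨y, hyK⟩, hP (mem_zpowers _), rfl⟩
  have hRK : (P : Subgroup (Fb.comap (QuotientGroup.mk' N))).map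
      (Fb.comap (QuotientGroup.mk' N)).subtype ≤ Fb.comap (QuotientGroup.mk' N) :=
    map_subtype_le _
  have hfrat := Sylow.normalizer_sup_eq_top P
  obtain ⟨R, hRdef⟩ : ∃ R : Subgroup G, R = (P : Subgroup (Fb.comap (QuotientGroup.mk' N))).map
      (Fb.comap (QuotientGroup.mk' N)).subtype := ⟨_, rfl⟩
  rw [← hRdef] at hR hyR hRK hfrat
  have hRN' : R ⊓ N = ⊥ := by
    apply (Subgroup.disjoint_of_coprime_natCard ?_).eq_bot
    obtain ⟨n, hn⟩ := IsPGroup.iff_card.mp hR
    rw [hn]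
    exact Nat.Coprime.pow_left n ((Nat.Prime.coprime_iff_not_dvd hr).mpr hrN)
  have hRnc : ¬ R ≤ centralizer (N : Set G) := fun h => hyC (h hyR)
  -- Step C: an element `c` normalizing `R` and generating a complement modulo `N`
  obtain ⟨hgen, hhgen⟩ := hcyc.exists_generator
  have hm : orderOf hgen = Nat.card Hb := orderOf_eq_card_of_forall_mem_zpowers hhgen
  have hmpos : 0 < Nat.card Hb := Nat.card_pos
  have hgen1 : (hgen : G ⧸ N) ≠ 1 := by
    intro h
    apply hHb.1
    rw [Subgroup.eq_bot_iff_forall]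
    intro z hz
    have h1 : hgen = 1 := Subtype.ext h
    have h2 := hhgen ⟨z, hz⟩
    rw [h1, Subgroup.zpowers_one_eq_bot, Subgroup.mem_bot] at h2
    exact congrArg Subtype.val h2
  obtain ⟨g0, hg0⟩ := QuotientGroup.mk_surjective (hgen : G ⧸ N)
  have hg0mem : g0 ∈ normalizer (R : Set G) ⊔ Fb.comap (QuotientGroup.mk' N) := by
    rw [hfrat]; trivial
  obtain ⟨c, hc, k', hk', hck⟩ := mem_sup_of_normal_right.mp hg0mem
  have hk'F : (k' : G ⧸ N) ∈ Fb := hk'
  obtain ⟨a, haF, ha⟩ := frob_conj_coset Hb Fb hHb hker (Fb.inv_mem hk'F) hgen.2 hgen1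
  have hπc : (c : G ⧸ N) = a * hgen * a⁻¹ := by
    rw [← ha, ← hg0, ← hck, QuotientGroup.mk_mul]; group
  have hpowc : ∀ i : ℕ, (c : G ⧸ N) ^ i = a * (hgen : G ⧸ N) ^ i * a⁻¹ := by
    intro i; rw [hπc, conj_pow]
  have hgpow : ∀ i : ℕ, (hgen : G ⧸ N) ^ i = 1 ↔ Nat.card Hb ∣ i := by
    intro i
    rw [← hm, orderOf_dvd_iff_pow_eq_one, ← Subgroup.coe_pow]
    exact ⟨fun h => Subtype.ext h, fun h => congrArg Subtype.val h⟩
  have hord : ∀ i : ℕ, (c : G ⧸ N) ^ i = 1 ↔ Nat.card Hb ∣ i := by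
    intro i
    rw [hpowc, ← hgpow i]
    constructor
    · intro h
      have := congrArg (fun t => a⁻¹ * t * a) h
      simpa [mul_assoc] using this
    · intro h
      rw [h]; group
  have hfpf : ∀ i : ℕ, 0 < i → i < Nat.card Hb → ∀ x ∈ R,
      Commute ((c : G ⧸ N) ^ i) (x : G ⧸ N) → x = 1 := by
    intro i hi him x hx hcomm
    have hi' : ¬ Nat.card Hb ∣ i := Nat.not_dvd_of_pos_of_lt hi him
    have hxF : (x : G ⧸ N) ∈ Fb := hRK hx
    have hf' : a⁻¹ * (x : G ⧸ N) * a ∈ Fb := by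
      have := (inferInstance : Fb.Normal).conj_mem _ hxF a⁻¹
      simpa using this
    have hh : (hgen : G ⧸ N) ^ i ∈ Hb := Hb.pow_mem hgen.2 i
    have hh1 : (hgen : G ⧸ N) ^ i ≠ 1 := fun h => hi' ((hgpow i).mp h)
    have hcomm' : (a⁻¹ * (x : G ⧸ N) * a) * (hgen : G ⧸ N) ^ i =
        (hgen : G ⧸ N) ^ i * (a⁻¹ * (x : G ⧸ N) * a) := by
      have e := hcomm.eq
      rw [hpowc] at e
      calc (a⁻¹ * (x : G ⧸ N) * a) * (hgen : G ⧸ N) ^ i
          = a⁻¹ * ((x : G ⧸ N) * (a * (hgen : G ⧸ N) ^ i * a⁻¹)) * a := by group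
        _ = a⁻¹ * ((a * (hgen : G ⧸ N) ^ i * a⁻¹) * (x : G ⧸ N)) * a := by rw [e]
        _ = (hgen : G ⧸ N) ^ i * (a⁻¹ * (x : G ⧸ N) * a) := by group
    have h1 := frob_commute_eq_one Hb Fb hHb hker hf' hh hh1 hcomm'
    have hx1 : (x : G ⧸ N) = 1 := by
      have := congrArg (fun t => a * t * a⁻¹) h1
      simpa [mul_assoc] using this
    have hxN : x ∈ N := (QuotientGroup.eq_one_iff x).mp hx1
    have hxbot : x ∈ R ⊓ N := Subgroup.mem_inf.mpr ⟨hx, hxN⟩
    rwa [hRN', Subgroup.mem_bot] at hxbot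
  obtain ⟨g, hgQ, hgm⟩ := exists_lift_pow_ne_one N r hrN R hR c (Nat.card Hb) hmpos hc hfpf hRnc
  apply exists_orderOf_eq_prime_mul N g (Nat.card Hb) hmpos
  · intro i hi
    have : (c : G ⧸ N) ^ i = 1 := by
      rw [← hgQ, ← QuotientGroup.mk_pow]
      exact (QuotientGroup.eq_one_iff _).mpr hi
    exact (hord i).mp this
  · apply (QuotientGroup.eq_one_iff _).mp
    rw [QuotientGroup.mk_pow, hgQ]
    exact (hord _).mpr dvd_rfl
  · exact hgm

end Cfsg.Agent.H69
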