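import Mathlib
import Cfsg.Agent.H69.RSDefs
import Cfsg.Agent.H1.HallHigman
/-!
Team project S2361 (helper69): piece RS-SOLV (backup take).
-/
set_option autoImplicit false

namespace Cfsg.Agent.H69.RS

open Cfsg.Agent.H1

universe u

theorem solv : StSolv.{u} := by
  intro G _ _ S hS hS1
  classical
  have hnorm : ∀ (N : Subgroup ↥S), N.Normal →
      N.map S.subtype ≤ S ∧
        S ≤ Subgroup.normalizer ((N.map S.subtype : Subgroup G) : Set G) := by
    intro N hN
    refine ⟨Subgroup.map_subtype_le N, ?_⟩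
    intro s hs
    rw [Subgroup.mem_normalizer_iff]
    intro h
    constructor
    · rintro ⟨n, hn, rfl⟩
      exact ⟨⟨s, hs⟩ * n * ⟨s, hs⟩⁻¹, hN.conj_mem n hn ⟨s, hs⟩, rfl⟩
    · rintro ⟨n, hn, hn'⟩
      refine ⟨⟨s, hs⟩⁻¹ * n * ⟨s, hs⟩, ?_, ?_⟩
      · have := hN.conj_mem n hn ⟨s, hs⟩⁻¹
        simpa using this
      · have e : S.subtype (⟨s, hs⟩⁻¹ * n * ⟨s, hs⟩) = s⁻¹ * S.subtype n * s := rfl
        rw [e, hn']
        group
  have hbot : ∀ N : Subgroup ↥S, N.map S.subtype = ⊥ → N = ⊥ := by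
    intro N h
    rw [eq_bot_iff]
    intro n hn
    have : S.subtype n ∈ N.map S.subtype := ⟨n, hn, rfl⟩
    rw [h, Subgroup.mem_bot] at this
    rw [Subgroup.mem_bot]
    exact Subtype.ext this
  by_cases hodd : ∃ p : ℕ, p.Prime ∧ p ≠ 2 ∧ Cfsg.pCore p ↥S ≠ ⊥
  · obtain ⟨p, hp, hp2, hne⟩ := hodd
    left
    have : Fact p.Prime := ⟨hp⟩
    exact ⟨p, hp, hp2, (Cfsg.pCore p ↥S).map S.subtype, (hnorm _ (pCore_normal p)).1,
      (hnorm _ (pCore_normal p)).2, fun h => hne (hbot _ h), (pCore_isPGroup p).map S.subtype⟩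
  · right
    push Not at hodd
    have hF : Cfsg.fittingSubgroup ↥S = Cfsg.pCore 2 ↥S := by
      rw [fitting_eq_iSup_pCore]
      apply le_antisymm
      · apply iSup_le
        intro p
        by_cases h2 : (p : ℕ) = 2
        · rw [h2]
        · rw [hodd p p.2 h2]
          exact bot_le
      · exact le_iSup (fun p : Nat.Primes => Cfsg.pCore (p : ℕ) ↥S) ⟨2, Nat.prime_two⟩
    have hS' : Group.IsSolvable ↥S := hS
    have hC := centralizer_fitting_le (G := ↥S)
    rw [hF] at hC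
    have : Fact (Nat.Prime 2) := ⟨Nat.prime_two⟩
    refine ⟨(Cfsg.pCore 2 ↥S).map S.subtype, (hnorm _ (pCore_normal 2)).1,
      (hnorm _ (pCore_normal 2)).2, ?_, (pCore_isPGroup 2).map S.subtype, ?_⟩
    · intro h
      have h0 := hbot _ h
      rw [h0] at hC
      apply hS1
      rw [eq_bot_iff]
      intro s hs
      have h1 : (⟨s, hs⟩ : ↥S) ∈ (⊥ : Subgroup ↥S) := by
        apply hC
        rw [Subgroup.mem_centralizer_iff]
        intro h hh
        have hh' : h = 1 := hh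
        rw [hh', one_mul, mul_one]
      rw [Subgroup.mem_bot] at h1 ⊢
      exact congrArg Subtype.val h1
    · rintro s ⟨hs, hc⟩
      have h1 : (⟨s, hs⟩ : ↥S) ∈ Cfsg.pCore 2 ↥S := by
        apply hC
        rw [Subgroup.mem_centralizer_iff]
        intro h hh
        have := (Subgroup.mem_centralizer_iff.mp hc) (h : G) ⟨h, hh, rfl⟩
        exact Subtype.ext this
      exact ⟨⟨s, hs⟩, h1, rfl⟩

example : StSolv.{u} := solv

end Cfsg.Agent.H69.RS
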