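import Cfsg.Agent.H69.RSMain
import Cfsg.Agent.H69.RSDefs1
import Cfsg.Agent.H7.RUDefs
import Cfsg.Agent.H22.ReeOrd
import Cfsg.Agent.H22.S8OmA
import Cfsg.Agent.H22.S8OmB
import Cfsg.Agent.H65.RUArA
import Cfsg.Agent.H65.RUArB
import Cfsg.Agent.H24.RUArC
import Cfsg.Agent.H24.RUArD
import Cfsg.Agent.H69.RSSolv
import Cfsg.Agent.H32.RSTwo
import Cfsg.Agent.H32.RSBorel2
import Cfsg.Agent.H40.RSArith
import Cfsg.Agent.H40.RSTorus
import Cfsg.Agent.H53.RSIdxDvd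
import Cfsg.Agent.H53.RSIdxOdd
import Cfsg.Agent.H60.RSThreeFix
import Cfsg.Agent.H60.RSFour
import Cfsg.Agent.H60.RSA4
/-!
Team project S2361 (helper69): the final statement, every piece plugged in.

For `G = ²G₂(q)`, `q = 3^(2m+1) ≥ 27`: every solvable subgroup normalises a Sylow 2-subgroup, a
Sylow 3-subgroup or a cyclic subgroup of order `(q-1)/2`, `(q+1)/4`, `q - r + 1`, `q + r + 1`.
Inputs: a Ree context, the canonical form / Weyl group statements for `G₂`, the conclusion of S1158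
and the Sylow 2-statement of S1152.

Pieces: TWO, BOREL (helper32), ARITH, TORUS (helper40), IDXDVD, IDXODD (helper53), THREEFIX, FOUR,
A4 (helper60), SOLV (helper69; on top of helper1's `C(F) ≤ F`); the coprimality facts are the RU-AR
pieces of helper7's S2358 (helper65, helper24); the `Ω`-facts and the order are helper22's.
-/
set_option autoImplicit false
set_option synthInstance.maxHeartbeats 400000
open Cfsg Cfsg.Lie

namespace Cfsg.Agent.H69.RS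

open Cfsg.Agent.H22 Cfsg.Agent.H22.GEx Cfsg.Agent.H22.Ree Cfsg.Agent.H45.S8

universe u

theorem s2361 {K : Type u} [Field K] [Fintype K] [CharP K 3] {m : ℕ} (C : Ctx K (3 ^ m))
    (hK : Fintype.card K = 3 ^ (2 * m + 1)) (hm : 1 ≤ m) (hcan : CanonG2 K) (hW : WeylG2 K)
    (h1158 : Cfsg.Agent.H7.RU.H1158 ↥(twistedG2 K (3 ^ m)) m)
    (hsyl : ∀ P : Sylow 2 ↥(twistedG2 K (3 ^ m)),
      Nat.card ↥(P : Subgroup ↥(twistedG2 K (3 ^ m))) = 8 ∧ ∀ x ∈ P, x * x = 1)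
    (S : Subgroup ↥(twistedG2 K (3 ^ m))) (hS : Group.IsSolvable ↥S) :
    ∃ A : Subgroup ↥(twistedG2 K (3 ^ m)),
      S ≤ Subgroup.normalizer (A : Set ↥(twistedG2 K (3 ^ m))) ∧
      ((∃ P : Sylow 2 ↥(twistedG2 K (3 ^ m)), A = P) ∨
       (∃ P : Sylow 3 ↥(twistedG2 K (3 ^ m)), A = P) ∨
       (IsCyclic ↥A ∧ (Nat.card ↥A = (3 ^ (2 * m + 1) - 1) / 2 ∨
          Nat.card ↥A = (3 ^ (2 * m + 1) + 1) / 4 ∨
          Nat.card ↥A = 3 ^ (2 * m + 1) - 3 ^ (m + 1) + 1 ∨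
          Nat.card ↥A = 3 ^ (2 * m + 1) + 3 ^ (m + 1) + 1))) :=
  main solv Cfsg.Agent.H40.RS.torus Cfsg.Agent.H40.RS.arith Cfsg.Agent.H60.RS.threeFix
    (Cfsg.Agent.H60.RS.four Cfsg.Agent.H60.RS.threeFix) Cfsg.Agent.H60.RS.a4
    (Cfsg.Agent.H32.RS.two Cfsg.Agent.H53.RS.idxDvd Cfsg.Agent.H53.RS.idxOdd)
    ↥(twistedG2 K (3 ^ m)) (Om K (3 ^ m)) m
    (C.card_twisted hK hcan hW) (Cfsg.Agent.H22.S8.omCard C hK hcan hW)
    (Cfsg.Agent.H22.S8.omThree C hK hcan hW) (Cfsg.Agent.H32.RS.borel C hK hcan hW) hsyl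
    (Cfsg.Agent.H65.RU.arA m hm).1 (Cfsg.Agent.H65.RU.arB m hm).1
    (Cfsg.Agent.H24.RU.arC m hm).1 (Cfsg.Agent.H24.RU.arD m hm).1 h1158 S hS

end Cfsg.Agent.H69.RS
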