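import Cfsg.Agent.H69.RSDefs
/-!
Team project S2361 (helper69): the abstract assembly.
-/
set_option autoImplicit false

namespace Cfsg.Agent.H69.RS

open Cfsg.Agent.H45.S8

universe u v

theorem comm_of_sq {G : Type u} [Group G] (P : Subgroup G) (h : ∀ x ∈ P, x * x = 1) :
    ∀ x ∈ P, ∀ y ∈ P, x * y = y * x := by
  intro x hx y hy
  have h1 := h (x * y) (mul_mem hx hy)
  have h2 := h x hx
  have h3 := h y hy
  have hx' : x⁻¹ = x := inv_eq_of_mul_eq_one_left h2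
  have hy' : y⁻¹ = y := inv_eq_of_mul_eq_one_left h3
  have h4 : x * y = (x * y)⁻¹ := (inv_eq_of_mul_eq_one_left h1).symm
  rw [h4, mul_inv_rev, hx', hy']

/-- the abstract assembly of S2361 -/
theorem main (hSolv : StSolv.{u}) (hTorus : StTorus.{u}) (hArith : StArith)
    (hThreeFix : StThreeFix.{u, v}) (hFour : StFour.{u, v}) (hA4 : StA4.{u}) (hTwo : StTwo.{u})
    (G : Type u) [Group G] [Finite G] (Ω : Type v) [Finite Ω] [MulAction G Ω]
    [MulAction.IsPretransitive G Ω] (m : ℕ)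
    (hcard : Nat.card G = GG m) (hΩ : Nat.card Ω = qq m ^ 3 + 1)
    (h3pt : ∀ (g : G) (x y z : Ω), x ≠ y → x ≠ z → y ≠ z → g • x = x → g • y = y → g • z = z →
      g * g = 1)
    (hBorel : ∀ x : Ω, ∃ P : Sylow 3 G,
      MulAction.stabilizer G x ≤ Subgroup.normalizer ((P : Subgroup G) : Set G))
    (hsyl : ∀ P : Sylow 2 G, Nat.card ↥(P : Subgroup G) = 8 ∧ ∀ x ∈ P, x * x = 1)
    (hcA : ((qq m - 1) / 2).Coprime (GG m / ((qq m - 1) / 2)))
    (hcB : ((qq m + 1) / 4).Coprime (GG m / ((qq m + 1) / 4)))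
    (hcC : (qq m - rr m + 1).Coprime (GG m / (qq m - rr m + 1)))
    (hcD : (qq m + rr m + 1).Coprime (GG m / (qq m + rr m + 1)))
    (h1158 : ∀ kn ∈ ({((qq m - 1) / 2, 2 * (qq m - 1)), ((qq m + 1) / 4, 6 * (qq m + 1)),
        (qq m - rr m + 1, 6 * (qq m - rr m + 1)),
        (qq m + rr m + 1, 6 * (qq m + rr m + 1))} : Set (ℕ × ℕ)),
      ∃ A : Subgroup G, IsCyclic ↥A ∧ Nat.card ↥A = kn.1 ∧
        Nat.card ↥(Subgroup.normalizer (A : Set G)) = kn.2 ∧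
        ∀ A₀ : Subgroup G, A₀ ≤ A → A₀ ≠ ⊥ →
          Subgroup.normalizer (A₀ : Set G) = Subgroup.normalizer (A : Set G))
    (S : Subgroup G) (hS : Group.IsSolvable ↥S) :
    ∃ A : Subgroup G, S ≤ Subgroup.normalizer (A : Set G) ∧
      ((∃ P : Sylow 2 G, A = P) ∨ (∃ P : Sylow 3 G, A = P) ∨
       (IsCyclic ↥A ∧ (Nat.card ↥A = (qq m - 1) / 2 ∨ Nat.card ↥A = (qq m + 1) / 4 ∨
          Nat.card ↥A = qq m - rr m + 1 ∨ Nat.card ↥A = qq m + rr m + 1))) := by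
  classical
  have hcomm : ∀ P : Sylow 2 G, ∀ x ∈ P, ∀ y ∈ P, x * y = y * x := fun P =>
    comm_of_sq (P : Subgroup G) (hsyl P).2
  by_cases hS1 : S = ⊥
  · obtain ⟨P⟩ : Nonempty (Sylow 2 G) := inferInstance
    exact ⟨P, by rw [hS1]; exact bot_le, Or.inl ⟨P, rfl⟩⟩
  rcases hSolv G S hS hS1 with ⟨p, hp, hp2, N, hNS, hSN, hN1, hNp⟩ | ⟨E, hES, hSE, hE1, hE2, hC⟩
  · by_cases hp3 : p = 3
    · subst hp3
      obtain ⟨x, hx⟩ := hThreeFix G Ω m hΩ h3pt N hNp hN1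
      obtain ⟨P, hP⟩ := hBorel x
      exact ⟨P, hSN.trans (hx.trans hP), Or.inr (Or.inl ⟨P, rfl⟩)⟩
    · have hp5 : 3 < p := by
        have := hp.two_le
        omega
      -- `p ∣ |N| ∣ |G|`
      have hpN : p ∣ Nat.card ↥N := by
        have : Fact p.Prime := ⟨hp⟩
        obtain ⟨k, hk⟩ := IsPGroup.iff_card.mp hNp
        rcases k with _ | k
        · exfalso
          apply hN1
          rw [← Subgroup.card_eq_one, hk, pow_zero]
        · rw [hk, pow_succ]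
          exact dvd_mul_left _ _
      have hpG : p ∣ GG m := by
        rw [← hcard]
        exact hpN.trans (Subgroup.card_subgroup_dvd_card N)
      have key : ∀ k n : ℕ, (k, n) ∈ ({((qq m - 1) / 2, 2 * (qq m - 1)),
          ((qq m + 1) / 4, 6 * (qq m + 1)), (qq m - rr m + 1, 6 * (qq m - rr m + 1)),
          (qq m + rr m + 1, 6 * (qq m + rr m + 1))} : Set (ℕ × ℕ)) →
          k.Coprime (GG m / k) → p ∣ k →
          ∃ A' : Subgroup G, IsCyclic ↥A' ∧ Nat.card ↥A' = k ∧ S ≤ Subgroup.normalizer (A' : Set G) := by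
        intro k n hkn hcop hpk
        obtain ⟨A, hAc, hAk, -, hAeq⟩ := h1158 (k, n) hkn
        simp only at hAk
        obtain ⟨A', hA'c, hA'k, hA'N⟩ := hTorus G A hAc (by rw [hAk, hcard]; exact hcop) hAeq p hp
          (by rw [hAk]; exact hpk) N hNp hN1
        exact ⟨A', hA'c, hA'k.trans hAk, hA'N ▸ hSN⟩
      rcases hArith m p hp hp5 hpG with h | h | h | h
      · obtain ⟨A', h1, h2, h3⟩ := key ((qq m - 1) / 2) (2 * (qq m - 1)) (Or.inl rfl) hcA h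
        exact ⟨A', h3, Or.inr (Or.inr ⟨h1, Or.inl h2⟩)⟩
      · obtain ⟨A', h1, h2, h3⟩ := key ((qq m + 1) / 4) (6 * (qq m + 1)) (Or.inr (Or.inl rfl)) hcB h
        exact ⟨A', h3, Or.inr (Or.inr ⟨h1, Or.inr (Or.inl h2)⟩)⟩
      · obtain ⟨A', h1, h2, h3⟩ := key (qq m - rr m + 1) (6 * (qq m - rr m + 1))
          (Or.inr (Or.inr (Or.inl rfl))) hcC h
        exact ⟨A', h3, Or.inr (Or.inr ⟨h1, Or.inr (Or.inr (Or.inl h2))⟩)⟩
      · obtain ⟨A', h1, h2, h3⟩ := key (qq m + rr m + 1) (6 * (qq m + rr m + 1))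
          (Or.inr (Or.inr (Or.inr rfl))) hcD h
        exact ⟨A', h3, Or.inr (Or.inr ⟨h1, Or.inr (Or.inr (Or.inr h2))⟩)⟩
  · obtain ⟨P, hP⟩ := hTwo G (fun P => (hsyl P).1) hcomm
      (fun E' S' h1 h2 h3 h4 => hA4 G hcomm E' S' h1 h2 h3 h4
        (hFour G Ω m hcard hΩ h3pt E' h3)) E S hES hSE hE1 hE2 hC
    exact ⟨P, hP, Or.inl ⟨P, rfl⟩⟩

end Cfsg.Agent.H69.RS
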