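import Mathlib
import Cfsg.Agent.H97.Sp4Defs

/-!
# Symplectic bases adapted to a Lagrangian plane in `Sp_4` (helper69, pieces C1D / C2A of the
team project S2460 of helper97): shared lemmas.
-/

set_option autoImplicit false

namespace Cfsg.Agent.H69.Sp4

open Matrix Cfsg.Agent.H97.Sp4

variable {F : Type*} [Field F]

/-- the matrix with columns `w₁, w₂` -/
def colMat (w₁ w₂ : Fin 2 ⊕ Fin 2 → F) : Matrix (Fin 2 ⊕ Fin 2) (Fin 2) F :=
  Matrix.of fun a j => ![w₁, w₂] j a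

theorem bf_self (w : Fin 2 ⊕ Fin 2 → F) : bf w w = 0 := by
  simp only [bf, J, dotProduct, mulVec, Fintype.sum_sum_type, Fin.sum_univ_two, fromBlocks_apply₁₁,
    fromBlocks_apply₁₂, fromBlocks_apply₂₁, fromBlocks_apply₂₂, Matrix.zero_apply,
    Matrix.neg_apply, Matrix.one_apply]
  simp
  ring

theorem bf_swap (u v : Fin 2 ⊕ Fin 2 → F) : bf v u = - bf u v := by
  simp only [bf, J, dotProduct, mulVec, Fintype.sum_sum_type, Fin.sum_univ_two, fromBlocks_apply₁₁,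
    fromBlocks_apply₁₂, fromBlocks_apply₂₁, fromBlocks_apply₂₂, Matrix.zero_apply,
    Matrix.neg_apply, Matrix.one_apply]
  simp
  ring

/-- Gram entries: `(Xᵀ J Y) i j = bf (col i of X) (col j of Y)` -/
theorem gram_apply (X Y : Matrix (Fin 2 ⊕ Fin 2) (Fin 2) F) (i j : Fin 2) :
    (Xᵀ * J (Fin 2) F * Y) i j = bf (fun a => X a i) (fun b => Y b j) := by
  simp only [bf, Matrix.mul_apply, dotProduct, mulVec, Matrix.transpose_apply, Finset.sum_mul,
    Finset.mul_sum]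
  rw [Finset.sum_comm]
  refine Finset.sum_congr rfl fun a _ => Finset.sum_congr rfl fun b _ => ?_
  ring

theorem gram_alt (X : Matrix (Fin 2 ⊕ Fin 2) (Fin 2) F) (i : Fin 2) :
    (Xᵀ * J (Fin 2) F * X) i i = 0 := by
  rw [gram_apply]; exact bf_self _

theorem gram_skew (X : Matrix (Fin 2 ⊕ Fin 2) (Fin 2) F) (i j : Fin 2) :
    (Xᵀ * J (Fin 2) F * X) i j = - (Xᵀ * J (Fin 2) F * X) j i := by
  rw [gram_apply, gram_apply]; exact bf_swap _ _

theorem colMat_gram (w₁ w₂ : Fin 2 ⊕ Fin 2 → F) (h0 : bf w₁ w₂ = 0) :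
    (colMat w₁ w₂)ᵀ * J (Fin 2) F * colMat w₁ w₂ = 0 := by
  ext i j
  rw [gram_apply]
  fin_cases i <;> fin_cases j
  · exact bf_self _
  · simpa [colMat] using h0
  · have := bf_swap w₁ w₂
    simp only [colMat, Matrix.of_apply, Matrix.zero_apply]
    simpa [h0] using this
  · exact bf_self _

theorem mul_colMat (g : Matrix (Fin 2 ⊕ Fin 2) (Fin 2 ⊕ Fin 2) F) (w₁ w₂ : Fin 2 ⊕ Fin 2 → F) :
    g * colMat w₁ w₂ = colMat (g *ᵥ w₁) (g *ᵥ w₂) := by
  ext a j
  fin_cases j <;> simp [colMat, Matrix.mul_apply, mulVec, dotProduct]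

/-- transposing a Gram matrix -/
theorem gram_transpose (X Y : Matrix (Fin 2 ⊕ Fin 2) (Fin 2) F) :
    (Xᵀ * J (Fin 2) F * Y)ᵀ = - (Yᵀ * J (Fin 2) F * X) := by
  rw [Matrix.transpose_mul, Matrix.transpose_mul, Matrix.transpose_transpose, J_transpose]
  simp [Matrix.mul_assoc]

/-- a matrix whose two block columns form a symplectic basis is symplectic -/
theorem fromCols_mem (W F' : Matrix (Fin 2 ⊕ Fin 2) (Fin 2) F)
    (h11 : Wᵀ * J (Fin 2) F * W = 0) (h12 : Wᵀ * J (Fin 2) F * F' = -1)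
    (h22 : F'ᵀ * J (Fin 2) F * F' = 0) :
    fromCols W F' ∈ symplecticGroup (Fin 2) F := by
  rw [SymplecticGroup.mem_iff']
  have h21 : F'ᵀ * J (Fin 2) F * W = 1 := by
    have := gram_transpose W F'
    rw [h12] at this
    have h2 : F'ᵀ * J (Fin 2) F * W = - (-1 : Matrix (Fin 2) (Fin 2) F)ᵀ := by
      rw [this]; simp
    rw [h2]; simp
  rw [transpose_fromCols, fromRows_mul, fromRows_mul_fromCols, h11, h12, h21, h22]
  rfl

/-- the first block column of `N` -/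
theorem mul_fromRows_one_zero (N : Matrix (Fin 2 ⊕ Fin 2) (Fin 2 ⊕ Fin 2) F) :
    N * fromRows (1 : Matrix (Fin 2) (Fin 2) F) (0 : Matrix (Fin 2) (Fin 2) F) =
      fromRows N.toBlocks₁₁ N.toBlocks₂₁ := by
  ext a j
  rcases a with a | a <;>
    simp [Matrix.mul_apply, Fintype.sum_sum_type, Matrix.one_apply, toBlocks₁₁, toBlocks₂₁]

theorem fromCols_mul_fromRows_one_zero (W F' : Matrix (Fin 2 ⊕ Fin 2) (Fin 2) F) :
    fromCols W F' * fromRows (1 : Matrix (Fin 2) (Fin 2) F) (0 : Matrix (Fin 2) (Fin 2) F) = W := by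
  rw [fromCols_mul_fromRows]; simp

end Cfsg.Agent.H69.Sp4
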