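import Mathlib
import Cfsg.Agent.H97.Sp4Defs
import Cfsg.Agent.H69.Sp4Basis

/-!
# A symplectic basis adapted to a Lagrangian plane with invertible `S Ω` (helper69, piece C1D of the team project S2460 of helper97)
-/

set_option autoImplicit false

namespace Cfsg.Agent.H69.Sp4

open Matrix Cfsg.Agent.H97.Sp4

variable {F : Type*} [Field F]

theorem block_of_flex {g : Matrix (Fin 2 ⊕ Fin 2) (Fin 2 ⊕ Fin 2) F}
    (hg : g ∈ symplecticGroup (Fin 2) F) (w₁ w₂ : Fin 2 ⊕ Fin 2 → F) (h0 : bf w₁ w₂ = 0)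
    (S : Matrix (Fin 2) (Fin 2) F) (hS : Sᵀ = S)
    (hdet : (S * !![bf w₁ (g *ᵥ w₁), bf w₁ (g *ᵥ w₂); bf w₂ (g *ᵥ w₁), bf w₂ (g *ᵥ w₂)]).det ≠ 0) :
    ∃ k ∈ symplecticGroup (Fin 2) F, ∃ B' C' D' : Matrix (Fin 2) (Fin 2) F,
      g * k = k * fromBlocks
        (S * !![bf w₁ (g *ᵥ w₁), bf w₁ (g *ᵥ w₂); bf w₂ (g *ᵥ w₁), bf w₂ (g *ᵥ w₂)]) B' C' D' := by
  obtain ⟨Ω, hΩdef⟩ : ∃ Ω : Matrix (Fin 2) (Fin 2) F,
      Ω = !![bf w₁ (g *ᵥ w₁), bf w₁ (g *ᵥ w₂); bf w₂ (g *ᵥ w₁), bf w₂ (g *ᵥ w₂)] := ⟨_, rfl⟩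
  rw [← hΩdef] at hdet ⊢
  obtain ⟨W, hWdef⟩ : ∃ W : Matrix (Fin 2 ⊕ Fin 2) (Fin 2) F, W = colMat w₁ w₂ := ⟨_, rfl⟩
  have hWW : Wᵀ * J (Fin 2) F * W = 0 := by rw [hWdef]; exact colMat_gram w₁ w₂ h0
  have hΩ : Wᵀ * J (Fin 2) F * (g * W) = Ω := by
    rw [hWdef, hΩdef, mul_colMat]
    ext i j
    rw [gram_apply]
    fin_cases i <;> fin_cases j <;> simp [colMat]
  have hgJ : gᵀ * J (Fin 2) F * g = J (Fin 2) F := SymplecticGroup.mem_iff'.mp hg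
  have hΩdet : Ω.det ≠ 0 := by
    intro h; apply hdet; rw [det_mul, h, mul_zero]
  have hΩu : IsUnit Ω.det := isUnit_iff_ne_zero.mpr hΩdet
  obtain ⟨A, hAdef⟩ : ∃ A : Matrix (Fin 2) (Fin 2) F, A = S * Ω := ⟨_, rfl⟩
  rw [← hAdef]
  obtain ⟨Y, hYdef⟩ : ∃ Y : Matrix (Fin 2 ⊕ Fin 2) (Fin 2) F, Y = g * W - W * A := ⟨_, rfl⟩
  have hWY : Wᵀ * J (Fin 2) F * Y = Ω := by
    rw [hYdef, Matrix.mul_sub, hΩ, ← Matrix.mul_assoc, hWW, Matrix.zero_mul, sub_zero]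
  have hYW : Yᵀ * J (Fin 2) F * W = - Ωᵀ := by
    have := gram_transpose W Y
    rw [hWY] at this
    rw [this, neg_neg]
  have hYgW : Yᵀ * J (Fin 2) F * (g * W) = - (Aᵀ * Ω) := by
    rw [hYdef, Matrix.transpose_sub, Matrix.transpose_mul, Matrix.transpose_mul, Matrix.sub_mul,
      Matrix.sub_mul]
    have e1 : Wᵀ * gᵀ * J (Fin 2) F * (g * W) = Wᵀ * (gᵀ * J (Fin 2) F * g) * W := by
      simp only [Matrix.mul_assoc]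
    have e2 : Aᵀ * Wᵀ * J (Fin 2) F * (g * W) = Aᵀ * (Wᵀ * J (Fin 2) F * (g * W)) := by
      simp only [Matrix.mul_assoc]
    rw [e1, e2, hgJ, hWW, hΩ, zero_sub]
  have hYY : Yᵀ * J (Fin 2) F * Y = 0 := by
    have e1 : Yᵀ * J (Fin 2) F * Y = Yᵀ * J (Fin 2) F * (g * W) - Yᵀ * J (Fin 2) F * W * A := by
      conv_lhs => rw [hYdef]
      rw [Matrix.mul_sub, ← hYdef]
      simp only [Matrix.mul_assoc]
    rw [e1, hYgW, hYW, hAdef, Matrix.transpose_mul, hS]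
    simp [Matrix.mul_assoc]
  obtain ⟨F', hF'def⟩ : ∃ F' : Matrix (Fin 2 ⊕ Fin 2) (Fin 2) F, F' = -(Y * Ω⁻¹) := ⟨_, rfl⟩
  have h12 : Wᵀ * J (Fin 2) F * F' = -1 := by
    rw [hF'def, Matrix.mul_neg, ← Matrix.mul_assoc, hWY, Matrix.mul_nonsing_inv _ hΩu]
  have h22 : F'ᵀ * J (Fin 2) F * F' = 0 := by
    rw [hF'def, Matrix.transpose_neg, Matrix.transpose_mul]
    have e : -((Ω⁻¹)ᵀ * Yᵀ) * J (Fin 2) F * -(Y * Ω⁻¹) = (Ω⁻¹)ᵀ * (Yᵀ * J (Fin 2) F * Y) * Ω⁻¹ := by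
      simp only [Matrix.neg_mul, Matrix.mul_neg, neg_neg, Matrix.mul_assoc]
    rw [e, hYY]; simp
  obtain ⟨k, hkdef⟩ : ∃ k : Matrix (Fin 2 ⊕ Fin 2) (Fin 2 ⊕ Fin 2) F, k = fromCols W F' := ⟨_, rfl⟩
  have hk : k ∈ symplecticGroup (Fin 2) F := by rw [hkdef]; exact fromCols_mem W F' hWW h12 h22
  have hku : IsUnit k.det := SymplecticGroup.symplectic_det hk
  have hgW : g * W = k * fromRows A (-Ω) := by
    rw [hkdef, fromCols_mul_fromRows, hF'def]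
    have : -(Y * Ω⁻¹) * -Ω = Y := by
      rw [Matrix.neg_mul, Matrix.mul_neg, neg_neg, Matrix.mul_assoc, Matrix.nonsing_inv_mul _ hΩu,
        Matrix.mul_one]
    rw [this, hYdef]; abel
  have hkW : k * fromRows (1 : Matrix (Fin 2) (Fin 2) F) (0 : Matrix (Fin 2) (Fin 2) F) = W := by
    rw [hkdef]; exact fromCols_mul_fromRows_one_zero W F'
  obtain ⟨N, hNdef⟩ : ∃ N : Matrix (Fin 2 ⊕ Fin 2) (Fin 2 ⊕ Fin 2) F, N = k⁻¹ * g * k := ⟨_, rfl⟩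
  have hkN : k * N = g * k := by
    rw [hNdef, ← Matrix.mul_assoc, ← Matrix.mul_assoc, Matrix.mul_nonsing_inv _ hku, Matrix.one_mul]
  have hNcol : N * fromRows (1 : Matrix (Fin 2) (Fin 2) F) (0 : Matrix (Fin 2) (Fin 2) F) = fromRows A (-Ω) := by
    have e : k * (N * fromRows (1 : Matrix (Fin 2) (Fin 2) F) (0 : Matrix (Fin 2) (Fin 2) F)) = k * fromRows A (-Ω) := by
      rw [← Matrix.mul_assoc, hkN, Matrix.mul_assoc, hkW, hgW]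
    have := congrArg (fun M => k⁻¹ * M) e
    simpa [← Matrix.mul_assoc, Matrix.nonsing_inv_mul _ hku] using this
  have h11 : N.toBlocks₁₁ = A := by
    rw [mul_fromRows_one_zero] at hNcol
    ext i j
    have := congrFun (congrFun hNcol (Sum.inl i)) j
    simpa using this
  refine ⟨k, hk, N.toBlocks₁₂, N.toBlocks₂₁, N.toBlocks₂₂, ?_⟩
  rw [← h11, fromBlocks_toBlocks, hkN]

example {g : Matrix (Fin 2 ⊕ Fin 2) (Fin 2 ⊕ Fin 2) F}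
    (hg : g ∈ symplecticGroup (Fin 2) F) (w₁ w₂ : Fin 2 ⊕ Fin 2 → F) (h0 : bf w₁ w₂ = 0)
    (S : Matrix (Fin 2) (Fin 2) F) (hS : Sᵀ = S)
    (hdet : (S * !![bf w₁ (g *ᵥ w₁), bf w₁ (g *ᵥ w₂); bf w₂ (g *ᵥ w₁), bf w₂ (g *ᵥ w₂)]).det ≠ 0) :
    ∃ k ∈ symplecticGroup (Fin 2) F, ∃ B' C' D' : Matrix (Fin 2) (Fin 2) F,
      g * k = k * fromBlocks
        (S * !![bf w₁ (g *ᵥ w₁), bf w₁ (g *ᵥ w₂); bf w₂ (g *ᵥ w₁), bf w₂ (g *ᵥ w₂)]) B' C' D' :=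
  block_of_flex hg w₁ w₂ h0 S hS hdet

end Cfsg.Agent.H69.Sp4
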