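import Mathlib
import Cfsg.Agent.H97.Sp4Defs
import Cfsg.Agent.H69.Sp4Basis

/-!
# A pointwise fixed Lagrangian plane gives a transvection-type block form (helper69, piece C2A of the team project S2460 of helper97)
-/

set_option autoImplicit false

namespace Cfsg.Agent.H69.Sp4

open Matrix Cfsg.Agent.H97.Sp4

variable {F : Type*} [Field F]

theorem block_of_para {g : Matrix (Fin 2 ⊕ Fin 2) (Fin 2 ⊕ Fin 2) F}
    (hg : g ∈ symplecticGroup (Fin 2) F) (w₁ w₂ : Fin 2 ⊕ Fin 2 → F)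
    (hli : LinearIndependent F ![w₁, w₂]) (h0 : bf w₁ w₂ = 0) (h1 : g *ᵥ w₁ = w₁)
    (h2 : g *ᵥ w₂ = w₂) :
    ∃ k ∈ symplecticGroup (Fin 2) F, ∃ S : Matrix (Fin 2) (Fin 2) F, Sᵀ = S ∧
      g * k = k * fromBlocks 1 S 0 1 := by
  obtain ⟨W, hWdef⟩ : ∃ W : Matrix (Fin 2 ⊕ Fin 2) (Fin 2) F, W = colMat w₁ w₂ := ⟨_, rfl⟩
  have hWW : Wᵀ * J (Fin 2) F * W = 0 := by rw [hWdef]; exact colMat_gram w₁ w₂ h0
  have hgW : g * W = W := by rw [hWdef, mul_colMat, h1, h2]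
  have hgJ : gᵀ * J (Fin 2) F * g = J (Fin 2) F := SymplecticGroup.mem_iff'.mp hg
  -- a left inverse of `W`
  have hker : LinearMap.ker (Matrix.toLin' W) = ⊥ := by
    rw [LinearMap.ker_eq_bot']
    intro c hc
    have hc' : W *ᵥ c = 0 := by rw [← Matrix.toLin'_apply]; exact hc
    have hsum : ∑ i, c i • ![w₁, w₂] i = 0 := by
      rw [← hc']
      ext a
      simp [hWdef, colMat, mulVec, dotProduct, Fin.sum_univ_two, mul_comm]
    exact funext (Fintype.linearIndependent_iff.mp hli c hsum)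
  obtain ⟨G, hG⟩ := LinearMap.exists_leftInverse_of_injective (Matrix.toLin' W) hker
  obtain ⟨L, hLdef⟩ : ∃ L : Matrix (Fin 2) (Fin 2 ⊕ Fin 2) F, L = LinearMap.toMatrix' G :=
    ⟨_, rfl⟩
  have hLW : L * W = 1 := by
    have := congrArg LinearMap.toMatrix' hG
    rw [LinearMap.toMatrix'_comp, LinearMap.toMatrix'_toLin', LinearMap.toMatrix'_id] at this
    rw [hLdef]; exact this
  obtain ⟨F₀, hF₀def⟩ : ∃ F₀ : Matrix (Fin 2 ⊕ Fin 2) (Fin 2) F, F₀ = J (Fin 2) F * Lᵀ :=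
    ⟨_, rfl⟩
  have h12₀ : Wᵀ * J (Fin 2) F * F₀ = -1 := by
    rw [hF₀def, Matrix.mul_assoc, ← Matrix.mul_assoc (J (Fin 2) F), J_squared, Matrix.neg_mul,
      Matrix.one_mul, Matrix.mul_neg, ← Matrix.transpose_mul, hLW, Matrix.transpose_one]
  have h21₀ : F₀ᵀ * J (Fin 2) F * W = 1 := by
    have := gram_transpose W F₀
    rw [h12₀] at this
    have h2 : F₀ᵀ * J (Fin 2) F * W = - (-1 : Matrix (Fin 2) (Fin 2) F)ᵀ := by
      rw [this]; simp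
    rw [h2]; simp
  obtain ⟨E, hEdef⟩ : ∃ E : Matrix (Fin 2) (Fin 2) F, E = F₀ᵀ * J (Fin 2) F * F₀ := ⟨_, rfl⟩
  obtain ⟨T, hTdef⟩ : ∃ T : Matrix (Fin 2) (Fin 2) F, T = !![0, 0; E 0 1, 0] := ⟨_, rfl⟩
  have hET : E + T - Tᵀ = 0 := by
    have e00 : E 0 0 = 0 := by rw [hEdef]; exact gram_alt F₀ 0
    have e11 : E 1 1 = 0 := by rw [hEdef]; exact gram_alt F₀ 1
    have e10 : E 1 0 = - E 0 1 := by rw [hEdef]; exact gram_skew F₀ 1 0
    ext i j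
    fin_cases i <;> fin_cases j <;> simp [hTdef, e00, e11, e10]
  obtain ⟨F', hF'def⟩ : ∃ F' : Matrix (Fin 2 ⊕ Fin 2) (Fin 2) F, F' = F₀ + W * T := ⟨_, rfl⟩
  have h12 : Wᵀ * J (Fin 2) F * F' = -1 := by
    rw [hF'def, Matrix.mul_add, h12₀, ← Matrix.mul_assoc, hWW, Matrix.zero_mul, add_zero]
  have h22 : F'ᵀ * J (Fin 2) F * F' = 0 := by
    have e : F'ᵀ * J (Fin 2) F * F' = E + (F₀ᵀ * J (Fin 2) F * W) * T
        + Tᵀ * (Wᵀ * J (Fin 2) F * F₀) + Tᵀ * (Wᵀ * J (Fin 2) F * W) * T := by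
      rw [hF'def, hEdef, Matrix.transpose_add, Matrix.transpose_mul]
      simp only [Matrix.add_mul, Matrix.mul_add, Matrix.mul_assoc]
      abel
    rw [e, h21₀, h12₀, hWW]
    simp only [Matrix.one_mul, Matrix.mul_neg, Matrix.mul_one, Matrix.mul_zero, Matrix.zero_mul,
      add_zero]
    rw [← sub_eq_add_neg]; exact hET
  obtain ⟨k, hkdef⟩ : ∃ k : Matrix (Fin 2 ⊕ Fin 2) (Fin 2 ⊕ Fin 2) F, k = fromCols W F' := ⟨_, rfl⟩
  have hk : k ∈ symplecticGroup (Fin 2) F := by rw [hkdef]; exact fromCols_mem W F' hWW h12 h22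
  have hkJ : kᵀ * J (Fin 2) F * k = J (Fin 2) F := SymplecticGroup.mem_iff'.mp hk
  have hku : IsUnit k.det := SymplecticGroup.symplectic_det hk
  have hkW : k * fromRows (1 : Matrix (Fin 2) (Fin 2) F) (0 : Matrix (Fin 2) (Fin 2) F) = W := by
    rw [hkdef]; exact fromCols_mul_fromRows_one_zero W F'
  obtain ⟨N, hNdef⟩ : ∃ N : Matrix (Fin 2 ⊕ Fin 2) (Fin 2 ⊕ Fin 2) F, N = k⁻¹ * g * k := ⟨_, rfl⟩
  have hkN : k * N = g * k := by
    rw [hNdef, ← Matrix.mul_assoc, ← Matrix.mul_assoc, Matrix.mul_nonsing_inv _ hku, Matrix.one_mul]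
  have hNcol : N * fromRows (1 : Matrix (Fin 2) (Fin 2) F) (0 : Matrix (Fin 2) (Fin 2) F)
      = fromRows (1 : Matrix (Fin 2) (Fin 2) F) (0 : Matrix (Fin 2) (Fin 2) F) := by
    have e : k * (N * fromRows (1 : Matrix (Fin 2) (Fin 2) F) (0 : Matrix (Fin 2) (Fin 2) F))
        = k * fromRows (1 : Matrix (Fin 2) (Fin 2) F) (0 : Matrix (Fin 2) (Fin 2) F) := by
      rw [← Matrix.mul_assoc, hkN, Matrix.mul_assoc, hkW, hgW]
    have := congrArg (fun M => k⁻¹ * M) e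
    simpa [← Matrix.mul_assoc, Matrix.nonsing_inv_mul _ hku] using this
  rw [mul_fromRows_one_zero] at hNcol
  have h11 : N.toBlocks₁₁ = 1 := by
    ext i j
    have := congrFun (congrFun hNcol (Sum.inl i)) j
    simpa using this
  have h21 : N.toBlocks₂₁ = 0 := by
    ext i j
    have := congrFun (congrFun hNcol (Sum.inr i)) j
    simpa using this
  have hNJ : Nᵀ * J (Fin 2) F * N = J (Fin 2) F := by
    have h : (g * k)ᵀ * J (Fin 2) F * (g * k) = J (Fin 2) F := by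
      rw [Matrix.transpose_mul]
      have e : kᵀ * gᵀ * J (Fin 2) F * (g * k) = kᵀ * (gᵀ * J (Fin 2) F * g) * k := by
        simp only [Matrix.mul_assoc]
      rw [e, hgJ, hkJ]
    rw [← hkN, Matrix.transpose_mul] at h
    have e : Nᵀ * kᵀ * J (Fin 2) F * (k * N) = Nᵀ * (kᵀ * J (Fin 2) F * k) * N := by
      simp only [Matrix.mul_assoc]
    rw [e, hkJ] at h
    exact h
  have hNb : N = fromBlocks 1 N.toBlocks₁₂ 0 N.toBlocks₂₂ := by
    conv_lhs => rw [← fromBlocks_toBlocks N, h11, h21]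
  obtain ⟨S, hSdef⟩ : ∃ S : Matrix (Fin 2) (Fin 2) F, S = N.toBlocks₁₂ := ⟨_, rfl⟩
  obtain ⟨D, hDdef⟩ : ∃ D : Matrix (Fin 2) (Fin 2) F, D = N.toBlocks₂₂ := ⟨_, rfl⟩
  rw [← hSdef, ← hDdef] at hNb
  rw [hNb] at hNJ
  simp only [J, fromBlocks_transpose, fromBlocks_multiply, Matrix.transpose_one,
    Matrix.transpose_zero, Matrix.mul_zero, Matrix.zero_mul, Matrix.mul_one, Matrix.one_mul,
    add_zero, zero_add, Matrix.mul_neg, Matrix.neg_mul] at hNJ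
  rw [Matrix.fromBlocks_inj] at hNJ
  obtain ⟨-, hb, hc, hd⟩ := hNJ
  have hD : D = 1 := neg_injective hb
  rw [hD] at hd hNb
  rw [Matrix.transpose_one, Matrix.one_mul, Matrix.mul_one, ← sub_eq_add_neg, sub_eq_zero] at hd
  refine ⟨k, hk, S, hd.symm, ?_⟩
  rw [← hNb, hkN]

example {g : Matrix (Fin 2 ⊕ Fin 2) (Fin 2 ⊕ Fin 2) F}
    (hg : g ∈ symplecticGroup (Fin 2) F) (w₁ w₂ : Fin 2 ⊕ Fin 2 → F)
    (hli : LinearIndependent F ![w₁, w₂]) (h0 : bf w₁ w₂ = 0) (h1 : g *ᵥ w₁ = w₁)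
    (h2 : g *ᵥ w₂ = w₂) :
    ∃ k ∈ symplecticGroup (Fin 2) F, ∃ S : Matrix (Fin 2) (Fin 2) F, Sᵀ = S ∧
      g * k = k * fromBlocks 1 S 0 1 :=
  block_of_para hg w₁ w₂ hli h0 h1 h2

end Cfsg.Agent.H69.Sp4
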