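import Cfsg.Agent.H2.Zipper

/-!
# A sharpening of Wielandt's subnormality criterion (helper69)

`A` is subnormal as soon as it is subnormal in `⟨A, A^x⟩` for every `x` that is a conjugate of
an element of `A`.
-/

set_option autoImplicit false
open Pointwise

namespace Cfsg.Agent.H69

open Cfsg.Agent.H12 Cfsg.Agent.H2

universe u

theorem wielandt_refined_aux {G : Type u} [Group G] [Finite G] (A : Subgroup G)
    (h : ∀ a ∈ A, ∀ g : G, SubnIn A (A ⊔ MulAut.conj (g⁻¹ * a * g) • A)) :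
    ∀ (n : ℕ) (V : Subgroup G), Nat.card V = n → A ≤ V → SubnIn A V := by
  intro n
  induction n using Nat.strong_induction_on with
  | _ n ih =>
  intro V hn hAV
  by_contra hns
  have hyp : ∀ H : Subgroup G, A ≤ H → H < V → SubnIn A H :=
    fun H hAH hHV => ih _ (hn ▸ card_lt_card_of_lt' hHV) H rfl hAH
  obtain ⟨M, hMV, hM⟩ := zipper_aux V _ A rfl hAV hyp hns
  have hAltV : A < V := lt_of_le_of_ne hAV (fun heq => hns (heq ▸ SubnIn.refl A))
  have hAM : A ≤ M := hM A le_rfl hAltV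
  have hsmulV : ∀ x ∈ V, MulAut.conj x • V = V := fun x hx =>
    conj_smul_eq_of_mem_normalizer (Subgroup.le_normalizer hx)
  -- the elements `g⁻¹ a g` with `g ∈ V` normalize `M`
  have hnorm : ∀ a ∈ A, ∀ g ∈ V, g⁻¹ * a * g ∈ Subgroup.normalizer (M : Set G) := by
    intro a ha g hg
    have hha := h a ha g
    obtain ⟨x, hx⟩ : ∃ x, x = g⁻¹ * a * g := ⟨_, rfl⟩
    rw [← hx] at hha ⊢
    have hxV : x ∈ V := hx ▸ V.mul_mem (V.mul_mem (V.inv_mem hg) (hAV ha)) hg
    have h1 : A ⊔ MulAut.conj x • A ≤ V := sup_le hAV (by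
      calc MulAut.conj x • A ≤ MulAut.conj x • V :=
            Subgroup.pointwise_smul_le_pointwise_smul_iff.mpr hAV
        _ = V := hsmulV x hxV)
    have h2 : A ⊔ MulAut.conj x • A ≠ V := fun heq => hns (heq ▸ hha)
    have h3 : MulAut.conj x • A ≤ M :=
      le_sup_right.trans (hM _ le_sup_left (lt_of_le_of_ne h1 h2))
    have h4 : A ≤ MulAut.conj x⁻¹ • M := by
      have := (Subgroup.pointwise_smul_le_pointwise_smul_iff (a := MulAut.conj x⁻¹)).mpr h3
      rwa [conj_inv_smul_conj_smul] at this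
    have h5 : MulAut.conj x⁻¹ • M ≤ V := by
      calc MulAut.conj x⁻¹ • M ≤ MulAut.conj x⁻¹ • V :=
            Subgroup.pointwise_smul_le_pointwise_smul_iff.mpr hMV.le
        _ = V := hsmulV _ (V.inv_mem hxV)
    have h6 : MulAut.conj x⁻¹ • M ≠ V := by
      intro heq
      have h7 : Nat.card M = Nat.card V := by rw [← heq, card_conj_smul]
      exact (card_lt_card_of_lt' hMV).ne h7
    have h7 : MulAut.conj x⁻¹ • M ≤ M := hM _ h4 (lt_of_le_of_ne h5 h6)
    have h8 : MulAut.conj x⁻¹ • M = M := conj_smul_eq_of_ge h7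
    have h9 : x⁻¹ ∈ Subgroup.normalizer (M : Set G) := conj_smul_eq_iff_mem_normalizer.mp h8
    simpa using (Subgroup.normalizer (M : Set G)).inv_mem h9
  -- the normal closure `C` of `A` in `V`
  obtain ⟨C, hC⟩ : ∃ C : Subgroup G,
      C = sSup {B : Subgroup G | ∃ x ∈ V, B = MulAut.conj x • A} := ⟨_, rfl⟩
  have hAC : A ≤ C := hC ▸ le_sSup ⟨1, V.one_mem, by simp⟩
  have hCV : C ≤ V := by
    rw [hC]
    refine sSup_le ?_
    rintro B ⟨x, hx, rfl⟩
    calc MulAut.conj x • A ≤ MulAut.conj x • V :=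
          Subgroup.pointwise_smul_le_pointwise_smul_iff.mpr hAV
      _ = V := hsmulV x hx
  have hVN : V ≤ Subgroup.normalizer ((C : Subgroup G) : Set G) := by
    rw [hC]
    exact le_normalizer_sSup_of_forall_mem (by
      rintro B ⟨y, hy, rfl⟩ x hx
      exact ⟨x * y, V.mul_mem hx hy, conj_smul_conj_smul A x y⟩)
  have hCN : C ≤ Subgroup.normalizer (M : Set G) := by
    rw [hC]
    refine sSup_le ?_
    rintro B ⟨x, hx, rfl⟩
    intro y hy
    rw [mem_conj_smul_iff] at hy
    have h1 := hnorm _ hy x⁻¹ (V.inv_mem hx)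
    have h2 : x⁻¹⁻¹ * (x⁻¹ * y * x) * x⁻¹ = y := by group
    rwa [h2] at h1
  by_cases hCM : C ≤ M
  · have hAM' : SubnIn A M := hyp M hAM hMV
    exact hns ((hAM'.of_le hAC hCM).trans (SubnIn.of_normal hCV hVN))
  · -- `M ⊔ C = V`, so `M` is normal in `V`
    have h1 : M ⊔ C = V := by
      by_contra hne
      have h2 : M ⊔ C ≤ V := sup_le hMV.le hCV
      exact hCM (le_sup_right.trans (hM _ (hAM.trans le_sup_left) (lt_of_le_of_ne h2 hne)))
    have h2 : V ≤ Subgroup.normalizer (M : Set G) := by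
      rw [← h1]
      exact sup_le Subgroup.le_normalizer hCN
    exact hns ((hyp M hAM hMV).trans (SubnIn.of_normal hMV.le h2))

/-- A sharpening of Wielandt's criterion: `A` is subnormal if it is subnormal in
`⟨A, A^x⟩` for every conjugate `x = g⁻¹ a g` of an element `a ∈ A`. -/
theorem isSubnormal_of_forall_conj_conj {G : Type u} [Group G] [Finite G] (A : Subgroup G)
    (h : ∀ a ∈ A, ∀ g : G,
      (A.subgroupOf (A ⊔ MulAut.conj (g⁻¹ * a * g) • A)).IsSubnormal) : A.IsSubnormal :=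
  (wielandt_refined_aux A
    (fun a ha g => subnIn_of_isSubnormal_subgroupOf le_sup_left (h a ha g)) _ ⊤ rfl
    le_top).isSubnormal

end Cfsg.Agent.H69
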